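-- Central extensions: reduction to kernels of prime exponent, transfer into preimages,
-- splitting criteria for Sylow subgroups (abelian pairs, extraspecial groups, the 2-part via
-- a norm-kernel complement and a dihedral group of involution lifts).
import Mathlib
import Cfsg.Prelude.Def_KGroupFacts
import Cfsg.Agent.Lib.Helper35.Stem

set_option autoImplicit false

namespace Cfsg.Agent.Lib.Helper35.StemB

open Subgroup
open scoped commutatorElement

universe u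

section Reduction

/-- Reduction to kernels of exponent `p`: if every finite stem extension of `G` whose kernel has
exponent `p` is an isomorphism, then no finite stem extension of `G` has an element of order `p`
in its kernel. -/
theorem eq_one_of_exponent_case {G : Type u} [Group G] (p : ℕ)
    (h : ∀ (Γ : Type u) [Group Γ] [Finite Γ] (σ : Γ →* G), Cfsg.IsStemExtension σ →
      (∀ k ∈ σ.ker, k ^ p = 1) → σ.ker = ⊥)
    (Γ : Type u) [Group Γ] [Finite Γ] (σ : Γ →* G) (hσ : Cfsg.IsStemExtension σ)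
    (z : Γ) (hz : z ∈ σ.ker) (hzp : z ^ p = 1) : z = 1 := by
  obtain ⟨hsurj, hcen, hcomm⟩ := hσ
  have hcomm' : ∀ k ∈ σ.ker, ∀ g : Γ, g * k = k * g := fun k hk g =>
    Subgroup.mem_center_iff.mp (hcen hk) g
  let Z0 : Subgroup Γ :=
    { carrier := {x | ∃ k ∈ σ.ker, k ^ p = x}
      one_mem' := ⟨1, σ.ker.one_mem, one_pow p⟩
      mul_mem' := by
        rintro _ _ ⟨k1, hk1, rfl⟩ ⟨k2, hk2, rfl⟩
        refine ⟨k1 * k2, σ.ker.mul_mem hk1 hk2, ?_⟩
        exact Commute.mul_pow (hcomm' k2 hk2 k1) p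
      inv_mem' := by
        rintro _ ⟨k, hk, rfl⟩
        exact ⟨k⁻¹, σ.ker.inv_mem hk, inv_pow k p⟩ }
  have hZ0 : ∀ x, x ∈ Z0 ↔ ∃ k ∈ σ.ker, k ^ p = x := fun x => Iff.rfl
  have hZ0ker : Z0 ≤ σ.ker := by
    rintro _ ⟨k, hk, rfl⟩
    exact σ.ker.pow_mem hk p
  have hnorm : Z0.Normal := by
    constructor
    intro x hx g
    have := hcomm' x (hZ0ker hx) g
    rw [this, mul_inv_cancel_right]
    exact hx
  let σ' : Γ ⧸ Z0 →* G := QuotientGroup.lift Z0 σ (fun x hx => MonoidHom.mem_ker.mp (hZ0ker hx))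
  have hσ' : ∀ g : Γ, σ' (QuotientGroup.mk g) = σ g := fun g => rfl
  have hker' : ∀ q ∈ σ'.ker, ∃ k ∈ σ.ker, (QuotientGroup.mk k : Γ ⧸ Z0) = q := by
    intro q hq
    obtain ⟨k, rfl⟩ := QuotientGroup.mk_surjective q
    exact ⟨k, by rw [MonoidHom.mem_ker] at hq ⊢; rwa [hσ'] at hq, rfl⟩
  have hstem : Cfsg.IsStemExtension σ' := by
    refine ⟨?_, ?_, ?_⟩
    · intro g
      obtain ⟨x, rfl⟩ := hsurj g
      exact ⟨QuotientGroup.mk x, rfl⟩
    · intro q hq
      obtain ⟨k, hk, rfl⟩ := hker' q hq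
      rw [Subgroup.mem_center_iff]
      intro q'
      obtain ⟨g, rfl⟩ := QuotientGroup.mk_surjective q'
      rw [← QuotientGroup.mk_mul, ← QuotientGroup.mk_mul, hcomm' k hk g]
    · intro q hq
      obtain ⟨k, hk, rfl⟩ := hker' q hq
      have h1 : k ∈ commutator Γ := hcomm hk
      have h2 : (QuotientGroup.mk' Z0) k ∈ (commutator Γ).map (QuotientGroup.mk' Z0) :=
        Subgroup.mem_map_of_mem _ h1
      rw [commutator_def, Subgroup.map_commutator] at h2
      exact Subgroup.commutator_mono le_top le_top h2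
  have hexp : ∀ q ∈ σ'.ker, q ^ p = 1 := by
    intro q hq
    obtain ⟨k, hk, rfl⟩ := hker' q hq
    rw [← QuotientGroup.mk_pow, QuotientGroup.eq_one_iff]
    exact ⟨k, hk, rfl⟩
  have hbot := h (Γ ⧸ Z0) σ' hstem hexp
  -- every kernel element is a p-th power of a kernel element
  have hsurjpow : ∀ x ∈ σ.ker, ∃ k ∈ σ.ker, k ^ p = x := by
    intro x hx
    have h1 : (QuotientGroup.mk x : Γ ⧸ Z0) ∈ σ'.ker := by
      rw [MonoidHom.mem_ker, hσ']; exact MonoidHom.mem_ker.mp hx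
    rw [hbot, Subgroup.mem_bot, QuotientGroup.eq_one_iff] at h1
    exact h1
  let φ : σ.ker → σ.ker := fun k => ⟨(k : Γ) ^ p, σ.ker.pow_mem k.2 p⟩
  have hφs : Function.Surjective φ := by
    rintro ⟨x, hx⟩
    obtain ⟨k, hk, rfl⟩ := hsurjpow x hx
    exact ⟨⟨k, hk⟩, rfl⟩
  have hφi : Function.Injective φ := Finite.injective_iff_surjective.mpr hφs
  have : (⟨z, hz⟩ : σ.ker) = ⟨1, σ.ker.one_mem⟩ := by
    apply hφi
    apply Subtype.ext
    show z ^ p = 1 ^ p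
    rw [hzp, one_pow]
  exact congrArg Subtype.val this

end Reduction

section Transfer

variable {Γ Q : Type*} [Group Γ] [Group Q]

/-- Transfer into the preimage of a subgroup of the image whose index is prime to the order of
the central element `z`. -/
theorem mem_commutator_comap [Finite Γ] (τ : Γ →* Q) (hc : τ.ker ≤ center Γ) (P : Subgroup Q)
    (hP : P ≤ τ.range) (m : ℕ) (hm : Nat.card τ.range = Nat.card P * m) {z : Γ}
    (hz : z ∈ τ.ker) (hz' : z ∈ commutator Γ) (hco : (orderOf z).Coprime m) :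
    z ∈ ⁅P.comap τ, P.comap τ⁆ := by
  apply Cfsg.Agent.Lib.Helper35.Stem.mem_commutator_of_coprime _ (hc hz) hz'
  have h1 : (P.comap τ).index = P.relIndex τ.range := Subgroup.index_comap P τ
  have h2 : P.relIndex τ.range * Nat.card P = Nat.card τ.range := by
    have := Subgroup.relIndex_mul_index (H := P.subgroupOf τ.range) (K := ⊤) le_top
    have h3 := Subgroup.card_mul_index (P.subgroupOf τ.range)
    have h4 : Nat.card (P.subgroupOf τ.range) = Nat.card P :=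
      Nat.card_congr (Subgroup.subgroupOfEquivOfLe hP).toEquiv
    rw [h4] at h3
    rw [mul_comm]
    exact h3
  have hfr : Finite τ.range := Finite.of_surjective τ.rangeRestrict τ.rangeRestrict_surjective
  have hfP : Finite P := Finite.of_injective (Subgroup.inclusion hP) (Subgroup.inclusion_injective hP)
  have hPpos : 0 < Nat.card P := Nat.card_pos
  have h5 : P.relIndex τ.range = m := by
    rw [hm, mul_comm (Nat.card P) m] at h2
    exact Nat.eq_of_mul_eq_mul_right hPpos h2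
  rw [h1, h5]
  exact hco.symm

end Transfer

section Cyclic

variable {Γ G : Type*} [Group Γ] [Group G]

/-- If `p²` does not divide the order of the finite group `G`, no central extension of `G` has
an element of order `p` in the intersection of its kernel and commutator subgroup. -/
theorem false_of_sq_not_dvd [Finite Γ] [Finite G] (σ : Γ →* G) (hc : σ.ker ≤ center Γ) (p : ℕ)
    [hp : Fact p.Prime] (hp2 : ¬ p ^ 2 ∣ Nat.card G) {z : Γ} (hz : z ∈ σ.ker)
    (hz' : z ∈ commutator Γ) (hord : orderOf z = p) : False := by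
  obtain ⟨S⟩ : Nonempty (Sylow p Γ) := inferInstance
  have hpg : IsPGroup p ((S : Subgroup Γ).map σ) := S.isPGroup'.map σ
  obtain ⟨n, hn⟩ := IsPGroup.iff_card.mp hpg
  have hdvd : p ^ n ∣ Nat.card G := hn ▸ Subgroup.card_subgroup_dvd_card _
  have hn1 : n ≤ 1 := by
    by_contra hcon
    exact hp2 ((pow_dvd_pow p (by omega : 2 ≤ n)).trans hdvd)
  have hcyc : IsCyclic ((S : Subgroup Γ).map σ) := by
    interval_cases n
    · have : Subsingleton ((S : Subgroup Γ).map σ) := by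
        rw [← Finite.card_le_one_iff_subsingleton, hn]; simp
      exact isCyclic_of_subsingleton
    · have : Fact (Nat.card ((S : Subgroup Γ).map σ)).Prime := ⟨by rw [hn, pow_one]; exact hp.out⟩
      exact isCyclic_of_prime_card (p := Nat.card ((S : Subgroup Γ).map σ)) rfl
  exact Cfsg.Agent.Lib.Helper35.Stem.not_prime_order_of_sylow_comm S
    (Cfsg.Agent.Lib.Helper35.Stem.comm_of_map_isCyclic σ hc S hcyc) (hc hz) hz' hord

end Cyclic

section Closure

variable {Γ : Type*} [Group Γ]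

/-- If the generators in `T` normalise `N` and commute pairwise modulo `N`, then any two elements
of `closure T` commute modulo `N`. -/
theorem commutator_mem_of_closure (T : Set Γ) (N : Subgroup Γ)
    (hnorm : ∀ s ∈ T, s ∈ normalizer (N : Set Γ))
    (h : ∀ s ∈ T, ∀ t ∈ T, ⁅s, t⁆ ∈ N) :
    ∀ x ∈ closure T, ∀ y ∈ closure T, ⁅x, y⁆ ∈ N := by
  have hle : closure T ≤ normalizer (N : Set Γ) := (Subgroup.closure_le _).mpr hnorm
  have hcj : ∀ x ∈ closure T, ∀ n ∈ N, x * n * x⁻¹ ∈ N := fun x hx n hn =>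
    (Subgroup.mem_normalizer_iff.mp (hle hx) n).mp hn
  have step1 : ∀ t ∈ T, ∀ x ∈ closure T, ⁅x, t⁆ ∈ N := by
    intro t ht x hx
    induction hx using Subgroup.closure_induction with
    | mem x hx => exact h x hx t ht
    | one => simp
    | mul x y hx hy ihx ihy =>
      have : ⁅x * y, t⁆ = x * ⁅y, t⁆ * x⁻¹ * ⁅x, t⁆ := by
        simp only [commutatorElement_def]; group
      rw [this]
      exact N.mul_mem (hcj x hx _ ihy) ihx
    | inv x hx ihx =>
      have : ⁅x⁻¹, t⁆ = x⁻¹ * (⁅x, t⁆)⁻¹ * x⁻¹⁻¹ := by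
        simp only [commutatorElement_def]; group
      rw [this]
      exact hcj x⁻¹ ((closure T).inv_mem hx) _ (N.inv_mem ihx)
  intro x hx y hy
  induction hy using Subgroup.closure_induction with
  | mem y hy => exact step1 y hy x hx
  | one => simp
  | mul y y' hy hy' ihy ihy' =>
    have : ⁅x, y * y'⁆ = ⁅x, y⁆ * (y * ⁅x, y'⁆ * y⁻¹) := by
      simp only [commutatorElement_def]; group
    rw [this]
    exact N.mul_mem ihy (hcj y hy _ ihy')
  | inv y hy ihy =>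
    have : ⁅x, y⁻¹⁆ = y⁻¹ * (⁅x, y⁆)⁻¹ * y⁻¹⁻¹ := by
      simp only [commutatorElement_def]; group
    rw [this]
    exact hcj y⁻¹ ((closure T).inv_mem hy) _ (N.inv_mem ihy)

/-- Products `h * k` exhaust `H ⊔ K` when `K` normalises `H`. -/
theorem exists_mul_of_mem_sup {H K : Subgroup Γ} (hK : K ≤ normalizer (H : Set Γ)) {x : Γ}
    (hx : x ∈ H ⊔ K) : ∃ h ∈ H, ∃ k ∈ K, x = h * k := by
  have hcj : ∀ k ∈ K, ∀ h ∈ H, k * h * k⁻¹ ∈ H := fun k hk h hh =>
    (Subgroup.mem_normalizer_iff.mp (hK hk) h).mp hh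
  let M : Subgroup Γ :=
    { carrier := {x | ∃ h ∈ H, ∃ k ∈ K, x = h * k}
      one_mem' := ⟨1, H.one_mem, 1, K.one_mem, by simp⟩
      mul_mem' := by
        rintro _ _ ⟨h1, hh1, k1, hk1, rfl⟩ ⟨h2, hh2, k2, hk2, rfl⟩
        refine ⟨h1 * (k1 * h2 * k1⁻¹), H.mul_mem hh1 (hcj k1 hk1 h2 hh2), k1 * k2,
          K.mul_mem hk1 hk2, by group⟩
      inv_mem' := by
        rintro _ ⟨h, hh, k, hk, rfl⟩
        refine ⟨k⁻¹ * h⁻¹ * k⁻¹⁻¹, hcj k⁻¹ (K.inv_mem hk) _ (H.inv_mem hh), k⁻¹, K.inv_mem hk,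
          by group⟩ }
  have h1 : H ≤ M := fun h hh => ⟨h, hh, 1, K.one_mem, by simp⟩
  have h2 : K ≤ M := fun k hk => ⟨1, H.one_mem, k, hk, by simp⟩
  exact (sup_le h1 h2) hx

/-- The order of `H ⊔ K` when `K` normalises `H` and `H ⊓ K = ⊥`. -/
theorem card_sup_of_le_normalizer {H K : Subgroup Γ} (hK : K ≤ normalizer (H : Set Γ))
    (hHK : H ⊓ K = ⊥) : Nat.card ↥(H ⊔ K) = Nat.card H * Nat.card K := by
  rw [← Nat.card_prod]
  symm
  let f : H × K → ↥(H ⊔ K) := fun p =>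
    ⟨(p.1 : Γ) * (p.2 : Γ), (H ⊔ K).mul_mem (le_sup_left (a := H) p.1.2) (le_sup_right (a := H) p.2.2)⟩
  apply Nat.card_congr (Equiv.ofBijective f ⟨?_, ?_⟩)
  · rintro ⟨⟨h1, hh1⟩, ⟨k1, hk1⟩⟩ ⟨⟨h2, hh2⟩, ⟨k2, hk2⟩⟩ heq
    have heq' : h1 * k1 = h2 * k2 := congrArg Subtype.val heq
    have h3 : h2⁻¹ * h1 = k2 * k1⁻¹ := by
      have : h2⁻¹ * (h1 * k1) * k1⁻¹ = h2⁻¹ * (h2 * k2) * k1⁻¹ := by rw [heq']
      simpa [mul_assoc] using this
    have h4 : h2⁻¹ * h1 ∈ H ⊓ K :=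
      ⟨H.mul_mem (H.inv_mem hh2) hh1, h3 ▸ K.mul_mem hk2 (K.inv_mem hk1)⟩
    rw [hHK, Subgroup.mem_bot] at h4
    have e1 : h1 = h2 := by
      have := congrArg (fun t => h2 * t) h4
      simpa using this
    have e2 : k1 = k2 := by
      rw [h4] at h3
      have := congrArg (fun t => t * k1) h3
      simpa using this
    subst e1; subst e2; rfl
  · rintro ⟨x, hx⟩
    obtain ⟨h, hh, k, hk, rfl⟩ := exists_mul_of_mem_sup hK hx
    exact ⟨⟨⟨h, hh⟩, ⟨k, hk⟩⟩, rfl⟩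

end Closure

section Split

variable {Γ Q : Type*} [Group Γ] [Group Q]

/-- The commutator subgroup of the preimage of `P ≤ map τ K` lies in any subgroup `N` containing
the commutators of `K`, for a central extension. -/
theorem commutator_comap_le (τ : Γ →* Q) (hc : τ.ker ≤ center Γ) (K N : Subgroup Γ)
    (hN : ∀ x ∈ K, ∀ y ∈ K, ⁅x, y⁆ ∈ N)
    (P : Subgroup Q) (hP : P ≤ K.map τ) : ⁅P.comap τ, P.comap τ⁆ ≤ N := by
  rw [Subgroup.commutator_le]
  intro x hx y hy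
  obtain ⟨x0, hx0, hxx⟩ := hP (Subgroup.mem_comap.mp hx)
  obtain ⟨y0, hy0, hyy⟩ := hP (Subgroup.mem_comap.mp hy)
  rw [Cfsg.Agent.Lib.Helper35.Stem.commutator_eq_of_map_eq τ hc hxx.symm hyy.symm]
  exact hN x0 hx0 y0 hy0

/-- A subgroup `K` meeting the kernel trivially and covering `P`: the commutator subgroup of the
preimage of `P` meets the kernel trivially. -/
theorem eq_one_of_complement (τ : Γ →* Q) (hc : τ.ker ≤ center Γ) (K : Subgroup Γ)
    (hK : K ⊓ τ.ker = ⊥) (P : Subgroup Q) (hP : P ≤ K.map τ) {z : Γ} (hz : z ∈ τ.ker)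
    (hz' : z ∈ ⁅P.comap τ, P.comap τ⁆) : z = 1 := by
  have h1 : z ∈ K := commutator_comap_le τ hc K K
    (fun x hx y hy => K.mul_mem (K.mul_mem (K.mul_mem hx hy) (K.inv_mem hx)) (K.inv_mem hy)) P hP hz'
  have h2 : z ∈ K ⊓ τ.ker := ⟨h1, hz⟩
  rwa [hK, Subgroup.mem_bot] at h2

theorem image_pair (τ : Γ →* Q) (a b : Γ) :
    (closure ({a, b} : Set Γ)).map τ = closure ({τ a, τ b} : Set Q) := by
  rw [MonoidHom.map_closure, Set.image_pair]

theorem eq_one_of_sq_of_odd {w : Γ} {p : ℕ} (hp : Odd p) (h2 : w * w = 1) (hw : w ^ p = 1) :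
    w = 1 := by
  obtain ⟨k, rfl⟩ := hp
  rw [pow_succ, pow_mul, pow_two, h2, one_pow, one_mul] at hw
  exact hw

/-- Abelian Sylow subgroup `⟨a, b⟩` with an element `t` inverting `a` and centralising `b`
(stated for lifts `a b t` to the central extension with kernel of odd exponent `p`): the
commutator subgroup of the preimage is trivial. -/
theorem eq_one_of_abelian_pair (τ : Γ →* Q) (hc : τ.ker ≤ center Γ) (p : ℕ) (hp : Odd p)
    (hexp : ∀ k ∈ τ.ker, k ^ p = 1) (a b t : Γ)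
    (hab : τ a * τ b = τ b * τ a) (hta : τ t * τ a * (τ t)⁻¹ = (τ a)⁻¹)
    (htb : τ t * τ b * (τ t)⁻¹ = τ b) {z : Γ}
    (hz : z ∈ ⁅(closure ({τ a, τ b} : Set Q)).comap τ, (closure ({τ a, τ b} : Set Q)).comap τ⁆) :
    z = 1 := by
  set w := ⁅a, b⁆ with hw
  have hwker : w ∈ τ.ker := by
    rw [MonoidHom.mem_ker, hw, map_commutatorElement, commutatorElement_eq_one_iff_commute]
    exact hab
  have hwc : ∀ g : Γ, g * w = w * g := Subgroup.mem_center_iff.mp (hc hwker)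
  have h1 : t * w * t⁻¹ = w := by rw [hwc t, mul_inv_cancel_right]
  have h2 : t * w * t⁻¹ = ⁅t * a * t⁻¹, t * b * t⁻¹⁆ := by
    rw [hw]; simp only [commutatorElement_def]; group
  have h3 : ⁅t * a * t⁻¹, t * b * t⁻¹⁆ = ⁅a⁻¹, b⁆ := by
    apply Cfsg.Agent.Lib.Helper35.Stem.commutator_eq_of_map_eq τ hc
    · simp only [map_mul, map_inv]; exact hta
    · simp only [map_mul, map_inv]; exact htb
  have h4 : ⁅a⁻¹, b⁆ = a⁻¹ * w⁻¹ * a := by
    rw [hw]; simp only [commutatorElement_def]; group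
  have h5 : a⁻¹ * w⁻¹ * a = w⁻¹ := by
    have : a * w⁻¹ = w⁻¹ * a := by
      have := hwc a
      calc a * w⁻¹ = w⁻¹ * (w * a) * w⁻¹ := by group
        _ = w⁻¹ * (a * w) * w⁻¹ := by rw [this]
        _ = w⁻¹ * a := by group
    rw [mul_assoc, ← this, inv_mul_cancel_left]
  have h6 : w = w⁻¹ := h1.symm.trans (h2.trans (h3.trans (h4.trans h5)))
  have h7 : w * w = 1 := by
    nth_rewrite 2 [h6]; exact mul_inv_cancel w
  have hw1 : w = 1 := eq_one_of_sq_of_odd hp h7 (hexp w hwker)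
  have hcomm : ∀ x ∈ closure ({a, b} : Set Γ), ∀ y ∈ closure ({a, b} : Set Γ),
      ⁅x, y⁆ ∈ (⊥ : Subgroup Γ) := by
    apply commutator_mem_of_closure
    · intro s _
      rw [Subgroup.mem_normalizer_iff]
      intro h
      simp only [Subgroup.mem_bot]
      constructor
      · rintro rfl; simp
      · intro hh
        have : s⁻¹ * (s * h * s⁻¹) * s = s⁻¹ * 1 * s := by rw [hh]
        simpa [mul_assoc] using this
    · have hba : ⁅b, a⁆ = 1 := by
        rw [← commutatorElement_inv, ← hw, hw1, inv_one]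
      rintro s (rfl | rfl) t (rfl | rfl)
      · simp
      · rw [← hw, hw1]; simp
      · rw [hba]; simp
      · simp
  have := commutator_comap_le τ hc (closure ({a, b} : Set Γ)) ⊥ hcomm
    (closure ({τ a, τ b} : Set Q)) (image_pair τ a b).ge hz
  simpa using this

/-- `⁅x⁻¹, c⁆ = ⁅x, c⁆⁻¹` when `⁅x, c⁆` is central. -/
theorem commutator_inv_left_of_central {x c : Γ} (hz : ∀ g : Γ, g * ⁅x, c⁆ = ⁅x, c⁆ * g) :
    ⁅x⁻¹, c⁆ = ⁅x, c⁆⁻¹ := by
  have h4 : ⁅x⁻¹, c⁆ = x⁻¹ * ⁅x, c⁆⁻¹ * x := by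
    simp only [commutatorElement_def]; group
  have h5 : x * ⁅x, c⁆⁻¹ = ⁅x, c⁆⁻¹ * x := by
    have := hz x
    calc x * ⁅x, c⁆⁻¹ = ⁅x, c⁆⁻¹ * (⁅x, c⁆ * x) * ⁅x, c⁆⁻¹ := by group
      _ = ⁅x, c⁆⁻¹ * (x * ⁅x, c⁆) * ⁅x, c⁆⁻¹ := by rw [this]
      _ = ⁅x, c⁆⁻¹ * x := by group
  rw [h4, mul_assoc, ← h5, inv_mul_cancel_left]

/-- `⁅a ^ k, b⁆ = ⁅a, b⁆ ^ k` when `⁅a, b⁆` commutes with `a`. -/
theorem commutator_pow_left {a b : Γ} (h : a * ⁅a, b⁆ = ⁅a, b⁆ * a) (k : ℕ) :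
    ⁅a ^ k, b⁆ = ⁅a, b⁆ ^ k := by
  induction k with
  | zero => simp
  | succ k ih =>
    have e : ⁅a ^ (k + 1), b⁆ = a * ⁅a ^ k, b⁆ * a⁻¹ * ⁅a, b⁆ := by
      rw [pow_succ']; simp only [commutatorElement_def]; group
    have hk : a * ⁅a, b⁆ ^ k = ⁅a, b⁆ ^ k * a := (Commute.pow_right h k)
    rw [e, ih, hk, mul_inv_cancel_right, pow_succ]

/-- Extraspecial Sylow subgroup `⟨a, b⟩` of order `p³` with an element `t` inverting `a` and `b`
(stated for lifts to the central extension with kernel of odd exponent `p`): the commutator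
subgroup of the preimage meets the kernel trivially. -/
theorem eq_one_of_extraspecial (τ : Γ →* Q) (hc : τ.ker ≤ center Γ) (p : ℕ) (hp : Odd p)
    (hexp : ∀ k ∈ τ.ker, k ^ p = 1) (a b t : Γ)
    (hca : ⁅τ a, τ b⁆ * τ a = τ a * ⁅τ a, τ b⁆) (hcb : ⁅τ a, τ b⁆ * τ b = τ b * ⁅τ a, τ b⁆)
    (hap : τ a ^ p = 1) (hord : orderOf ⁅τ a, τ b⁆ = p)
    (hta : τ t * τ a * (τ t)⁻¹ = (τ a)⁻¹) (htb : τ t * τ b * (τ t)⁻¹ = (τ b)⁻¹)
    {z : Γ} (hzk : z ∈ τ.ker)
    (hz : z ∈ ⁅(closure ({τ a, τ b} : Set Q)).comap τ, (closure ({τ a, τ b} : Set Q)).comap τ⁆) :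
    z = 1 := by
  set c := ⁅a, b⁆ with hcdef
  have hτc : τ c = ⁅τ a, τ b⁆ := by rw [hcdef, map_commutatorElement]
  set c0 := ⁅τ a, τ b⁆ with hc0
  -- conjugation by t fixes c0
  have htc : τ t * c0 * (τ t)⁻¹ = c0 := by
    have e1 : τ t * c0 * (τ t)⁻¹ = ⁅τ t * τ a * (τ t)⁻¹, τ t * τ b * (τ t)⁻¹⁆ := by
      rw [hc0]; simp only [commutatorElement_def]; group
    have e2 : ⁅(τ a)⁻¹, (τ b)⁻¹⁆ = (τ a)⁻¹ * ((τ b)⁻¹ * c0 * τ b) * τ a := by
      rw [hc0]; simp only [commutatorElement_def]; group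
    have e3 : (τ b)⁻¹ * c0 * τ b = c0 := by rw [mul_assoc, hcb, inv_mul_cancel_left]
    have e4 : (τ a)⁻¹ * c0 * τ a = c0 := by rw [mul_assoc, hca, inv_mul_cancel_left]
    rw [e1, hta, htb, e2, e3, e4]
  -- the two commutators with c are trivial
  have key : ∀ x : Γ, τ x * c0 = c0 * τ x → τ t * τ x * (τ t)⁻¹ = (τ x)⁻¹ → x * c = c * x := by
    intro x hx0 htx
    have hker : ⁅x, c⁆ ∈ τ.ker := by
      rw [MonoidHom.mem_ker, map_commutatorElement, hτc, commutatorElement_eq_one_iff_commute]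
      exact hx0
    have hcen : ∀ g : Γ, g * ⁅x, c⁆ = ⁅x, c⁆ * g := Subgroup.mem_center_iff.mp (hc hker)
    have h1 : t * ⁅x, c⁆ * t⁻¹ = ⁅x, c⁆ := by rw [hcen t, mul_inv_cancel_right]
    have h2 : t * ⁅x, c⁆ * t⁻¹ = ⁅t * x * t⁻¹, t * c * t⁻¹⁆ := by
      simp only [commutatorElement_def]; group
    have h3 : ⁅t * x * t⁻¹, t * c * t⁻¹⁆ = ⁅x⁻¹, c⁆ := by
      apply Cfsg.Agent.Lib.Helper35.Stem.commutator_eq_of_map_eq τ hc
      · simp only [map_mul, map_inv]; exact htx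
      · simp only [map_mul, map_inv]; rw [hτc]; exact htc
    have h6 : ⁅x, c⁆ = ⁅x, c⁆⁻¹ :=
      h1.symm.trans (h2.trans (h3.trans (commutator_inv_left_of_central hcen)))
    have h7 : ⁅x, c⁆ * ⁅x, c⁆ = 1 := by
      nth_rewrite 2 [h6]; exact mul_inv_cancel _
    have h8 : ⁅x, c⁆ = 1 := eq_one_of_sq_of_odd hp h7 (hexp _ hker)
    exact commutatorElement_eq_one_iff_mul_comm.mp h8
  have hac : a * c = c * a := key a hca.symm hta
  have hbc : b * c = c * b := key b hcb.symm htb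
  have hnorm : ∀ s : Γ, s * c = c * s → s ∈ normalizer ((zpowers c : Subgroup Γ) : Set Γ) := by
    intro s hs
    have hsk : ∀ k : ℤ, s * c ^ k * s⁻¹ = c ^ k := by
      intro k
      have : s * c ^ k = c ^ k * s := (Commute.zpow_right hs k)
      rw [this, mul_inv_cancel_right]
    rw [Subgroup.mem_normalizer_iff]
    intro h
    constructor
    · rintro ⟨k, rfl⟩
      exact ⟨k, (hsk k).symm⟩
    · rintro ⟨k, hk⟩
      refine ⟨k, ?_⟩
      have hk' : c ^ k = s * h * s⁻¹ := hk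
      have : s * c ^ k * s⁻¹ = s * h * s⁻¹ := by rw [hsk k, hk']
      exact mul_left_cancel (mul_right_cancel this)
  have hcomm : ∀ x ∈ closure ({a, b} : Set Γ), ∀ y ∈ closure ({a, b} : Set Γ),
      ⁅x, y⁆ ∈ zpowers c := by
    apply commutator_mem_of_closure
    · rintro s (rfl | rfl)
      · exact hnorm _ hac
      · exact hnorm _ hbc
    · have hba : ⁅b, a⁆ = c⁻¹ := by rw [← commutatorElement_inv]
      rintro s (rfl | rfl) t (rfl | rfl)
      · simp
      · exact Subgroup.mem_zpowers c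
      · rw [hba]; exact Subgroup.inv_mem _ (Subgroup.mem_zpowers c)
      · simp
  have hzc := commutator_comap_le τ hc (closure ({a, b} : Set Γ)) (zpowers c) hcomm
    (closure ({τ a, τ b} : Set Q)) (image_pair τ a b).ge hz
  obtain ⟨n, rfl⟩ := hzc
  have h0 : c0 ^ n = 1 := by
    rw [← hτc, ← map_zpow]; exact MonoidHom.mem_ker.mp hzk
  have hdvd : (p : ℤ) ∣ n := by
    rw [← hord]; exact orderOf_dvd_iff_zpow_eq_one.mpr h0
  obtain ⟨m, rfl⟩ := hdvd
  have hcp : c ^ p = 1 := by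
    rw [hcdef, ← commutator_pow_left hac]
    have hk : a ^ p ∈ τ.ker := by rw [MonoidHom.mem_ker, map_pow, hap]
    have := Subgroup.mem_center_iff.mp (hc hk) b
    rw [commutatorElement_eq_one_iff_mul_comm]
    exact this.symm
  show c ^ ((p : ℤ) * m) = 1
  rw [zpow_mul, zpow_natCast, hcp, one_zpow]

end Split

section Two

variable {Γ Q : Type*} [Group Γ] [Group Q]

/-- Every lift of `x` squares to one. -/
def Good (τ : Γ →* Q) (x : Q) : Prop := ∀ a : Γ, τ a = x → a * a = 1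

variable {τ : Γ →* Q}

theorem ker_comm (hc : τ.ker ≤ center Γ) {k : Γ} (hk : k ∈ τ.ker) (g : Γ) : g * k = k * g :=
  Subgroup.mem_center_iff.mp (hc hk) g

theorem sq_eq_of_map_eq (hc : τ.ker ≤ center Γ) (h2 : ∀ k ∈ τ.ker, k * k = 1) {a b : Γ}
    (h : τ a = τ b) : a * a = b * b := by
  have hk : a⁻¹ * b ∈ τ.ker := by rw [MonoidHom.mem_ker, map_mul, map_inv, h, inv_mul_cancel]
  have hb : b = a * (a⁻¹ * b) := by group
  set k := a⁻¹ * b
  rw [hb]
  calc a * a = a * a * (k * k) := by rw [h2 k hk, mul_one]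
    _ = a * (a * k) * k := by group
    _ = a * (k * a) * k := by rw [ker_comm hc hk a]
    _ = a * k * (a * k) := by group

theorem conj_eq_of_map_eq (hc : τ.ker ≤ center Γ) {a b : Γ} (h : τ a = τ b) (u : Γ) :
    a * u * a⁻¹ = b * u * b⁻¹ := by
  have hk : a⁻¹ * b ∈ τ.ker := by rw [MonoidHom.mem_ker, map_mul, map_inv, h, inv_mul_cancel]
  have hb : b = a * (a⁻¹ * b) := by group
  set k := a⁻¹ * b
  rw [hb]
  calc a * u * a⁻¹ = a * (u * k) * k⁻¹ * a⁻¹ := by group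
    _ = a * (k * u) * k⁻¹ * a⁻¹ := by rw [ker_comm hc hk u]
    _ = a * k * u * (a * k)⁻¹ := by group

theorem good_one (h2 : ∀ k ∈ τ.ker, k * k = 1) : Good τ 1 :=
  fun a ha => h2 a (MonoidHom.mem_ker.mpr ha)

theorem good_of_conj {x y : Q} (hx : Good τ x) (g : Γ) (h : τ g * x = y * τ g) : Good τ y := by
  intro a ha
  have hb : τ (g⁻¹ * a * g) = x := by
    rw [map_mul, map_mul, map_inv, ha, mul_assoc, ← h, inv_mul_cancel_left]
  have := hx _ hb
  have h3 : g * (g⁻¹ * a * g * (g⁻¹ * a * g)) * g⁻¹ = g * 1 * g⁻¹ := by rw [this]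
  simpa [mul_assoc] using h3

theorem comm_of_sq {a b : Γ} (ha : a * a = 1) (hb : b * b = 1) (hab : (a * b) * (a * b) = 1) :
    a * b = b * a := by
  calc a * b = b * b * (a * b) * (a * a) := by rw [ha, hb, one_mul, mul_one]
    _ = b * (b * a * (b * a)) * a := by group
    _ = b * a := by
      have : b * a * (b * a) = 1 := by
        have h : a⁻¹ * (a * b * (a * b)) * a = a⁻¹ * 1 * a := by rw [hab]
        simpa [mul_assoc] using h
      rw [this, mul_one]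

/-- If `x² = y² = (xy)² = w` with `w` a central involution, then `y x = x y w`. -/
theorem anticomm {x y w : Γ} (hw2 : w * w = 1)
    (hx : x * x = w) (hy : y * y = w) (hxy : (x * y) * (x * y) = w) : y * x = x * y * w := by
  have h1 : x⁻¹ = x * w := by
    rw [inv_eq_iff_mul_eq_one, ← mul_assoc, hx, hw2]
  have h2 : y⁻¹ = y * w := by
    rw [inv_eq_iff_mul_eq_one, ← mul_assoc, hy, hw2]
  have h3 : y * x = x⁻¹ * w * y⁻¹ := by
    rw [← hxy]; group
  rw [h3, h1, h2]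
  calc x * w * w * (y * w) = x * (w * w) * (y * w) := by group
    _ = x * y * w := by rw [hw2]; group

/-- Seven lifts of the non-identity elements of an elementary abelian group of order 8 with a
common square `w`: then `w = 1`. -/
theorem eq_one_of_seven {e f g w : Γ} (hwc : ∀ x : Γ, x * w = w * x) (hw2 : w * w = 1)
    (he : e * e = w) (hf : f * f = w) (hg : g * g = w) (hef : (e * f) * (e * f) = w)
    (heg : (e * g) * (e * g) = w) (hfg : (f * g) * (f * g) = w)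
    (hefg : (e * (f * g)) * (e * (f * g)) = w) : w = 1 := by
  have a1 : f * e = e * f * w := anticomm hw2 he hf hef
  have a2 : g * e = e * g * w := anticomm hw2 he hg heg
  have a3 : f * g * e = e * (f * g) * w := anticomm hw2 he hfg hefg
  have a4 : f * g * e = e * (f * g) := by
    calc f * g * e = f * (g * e) := by group
      _ = f * (e * g * w) := by rw [a2]
      _ = f * e * g * w := by group
      _ = e * f * w * g * w := by rw [a1]
      _ = e * f * (w * g) * w := by group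
      _ = e * f * (g * w) * w := by rw [hwc g]
      _ = e * (f * g) * (w * w) := by group
      _ = e * (f * g) := by rw [hw2, mul_one]
  rw [a4] at a3
  exact (mul_eq_left.mp a3.symm)

theorem sq_eq_of_conj (hc : τ.ker ≤ center Γ) (h2 : ∀ k ∈ τ.ker, k * k = 1) {a u x : Γ}
    (ha : τ (a * a) = 1) (h : τ u * τ a = τ x * τ u) : x * x = a * a := by
  have h1 : τ x = τ (u * a * u⁻¹) := by
    rw [map_mul, map_mul, map_inv, h, mul_inv_cancel_right]
  rw [sq_eq_of_map_eq hc h2 h1]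
  have hk : a * a ∈ τ.ker := MonoidHom.mem_ker.mpr ha
  calc u * a * u⁻¹ * (u * a * u⁻¹) = u * (a * a) * u⁻¹ := by group
    _ = a * a := by rw [ker_comm hc hk u, mul_inv_cancel_right]

/-- A reference involution `τ a₁` whose conjugates contain the seven non-identity elements of
an elementary abelian subgroup of order 8: every lift of it is an involution. -/
theorem good_of_pure (hc : τ.ker ≤ center Γ) (h2 : ∀ k ∈ τ.ker, k * k = 1) (a₁ a₂ a₃ : Γ)
    (hsq : τ (a₁ * a₁) = 1) (u₂ u₃ u₁₂ u₁₃ u₂₃ u₁₂₃ : Γ)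
    (c₂ : τ u₂ * τ a₁ = τ a₂ * τ u₂) (c₃ : τ u₃ * τ a₁ = τ a₃ * τ u₃)
    (c₁₂ : τ u₁₂ * τ a₁ = τ (a₁ * a₂) * τ u₁₂) (c₁₃ : τ u₁₃ * τ a₁ = τ (a₁ * a₃) * τ u₁₃)
    (c₂₃ : τ u₂₃ * τ a₁ = τ (a₂ * a₃) * τ u₂₃)
    (c₁₂₃ : τ u₁₂₃ * τ a₁ = τ (a₁ * (a₂ * a₃)) * τ u₁₂₃) : Good τ (τ a₁) := by
  have hk : a₁ * a₁ ∈ τ.ker := MonoidHom.mem_ker.mpr hsq
  have hw : a₁ * a₁ = 1 :=
    eq_one_of_seven (fun x => ker_comm hc hk x) (h2 _ hk) rfl
      (sq_eq_of_conj hc h2 hsq c₂) (sq_eq_of_conj hc h2 hsq c₃)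
      (sq_eq_of_conj hc h2 hsq c₁₂) (sq_eq_of_conj hc h2 hsq c₁₃)
      (sq_eq_of_conj hc h2 hsq c₂₃) (sq_eq_of_conj hc h2 hsq c₁₂₃)
  intro a ha
  rw [sq_eq_of_map_eq hc h2 ha, hw]

/-- Normal form in a group generated by two involutions `a`, `b`: every element is
`(a b)^i a^j`. -/
theorem dihedral_form {a b : Γ} (ha : a * a = 1) (hb : b * b = 1) :
    ∀ d ∈ closure ({a, b} : Set Γ), ∃ i j : ℤ, d = (a * b) ^ i * a ^ j := by
  have hai : a⁻¹ = a := inv_eq_of_mul_eq_one_left ha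
  have hbi : b⁻¹ = b := inv_eq_of_mul_eq_one_left hb
  have hconj : ∀ i : ℤ, a * (a * b) ^ i = (a * b) ^ (-i) * a := by
    intro i
    have h1 : a * (a * b) * a⁻¹ = (a * b)⁻¹ := by
      rw [mul_inv_rev, hai, hbi]
      calc a * (a * b) * a = (a * a) * b * a := by group
        _ = b * a := by rw [ha, one_mul]
    have h2 : a * (a * b) ^ i * a⁻¹ = ((a * b)⁻¹) ^ i := by
      rw [← h1]
      exact (conj_zpow (a := a) (b := a * b) (i := i)).symm
    have h3 : a * (a * b) ^ i = ((a * b)⁻¹) ^ i * a := by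
      rw [← h2]; group
    rw [h3, inv_zpow, zpow_neg]
  have hA : ∀ i j : ℤ, a * ((a * b) ^ i * a ^ j) = (a * b) ^ (-i) * a ^ (j + 1) := by
    intro i j
    rw [← mul_assoc, hconj, mul_assoc, zpow_add, zpow_one]
    congr 1
    exact (Commute.zpow_right (Commute.refl a) j).eq
  have hB : ∀ i j : ℤ, b * ((a * b) ^ i * a ^ j) = (a * b) ^ (-(i + 1)) * a ^ (j + 1) := by
    intro i j
    have hb' : b = a * (a * b) := by rw [← mul_assoc, ha, one_mul]
    have : b * ((a * b) ^ i * a ^ j) = a * ((a * b) ^ (i + 1) * a ^ j) := by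
      nth_rewrite 1 [hb']
      rw [zpow_add, zpow_one]
      have hcm : (a * b) * (a * b) ^ i = (a * b) ^ i * (a * b) :=
        (Commute.zpow_right (Commute.refl (a * b)) i).eq
      calc a * (a * b) * ((a * b) ^ i * a ^ j) = a * ((a * b) * (a * b) ^ i) * a ^ j := by
            simp only [mul_assoc]
        _ = a * ((a * b) ^ i * (a * b)) * a ^ j := by rw [hcm]
        _ = a * ((a * b) ^ i * (a * b) * a ^ j) := by simp only [mul_assoc]
    rw [this, hA]
  intro d hd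
  induction hd using Subgroup.closure_induction_left with
  | one => exact ⟨0, 0, by simp⟩
  | mul_left x hx y hy ih =>
    obtain ⟨i, j, rfl⟩ := ih
    rcases hx with rfl | rfl
    · exact ⟨-i, j + 1, hA i j⟩
    · exact ⟨-(i + 1), j + 1, hB i j⟩
  | inv_mul_cancel x hx y hy ih =>
    obtain ⟨i, j, rfl⟩ := ih
    rcases hx with rfl | rfl
    · rw [hai]; exact ⟨-i, j + 1, hA i j⟩
    · rw [hbi]; exact ⟨-(i + 1), j + 1, hB i j⟩

/-- Natural-number exponents in the dihedral normal form when `(a b)^4 = 1`. -/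
theorem dihedral_form_four {a b : Γ} (ha : a * a = 1) (hb : b * b = 1)
    (hr : (a * b) ^ 4 = 1) :
    ∀ d ∈ closure ({a, b} : Set Γ), ∃ i j : ℕ, i < 4 ∧ j < 2 ∧ d = (a * b) ^ i * a ^ j := by
  intro d hd
  obtain ⟨i, j, rfl⟩ := dihedral_form ha hb d hd
  have ha2 : a ^ 2 = 1 := by rw [pow_two, ha]
  refine ⟨(i % 4).toNat, (j % 2).toNat, ?_, ?_, ?_⟩
  · have := Int.emod_lt_of_pos i (by norm_num : (0 : ℤ) < 4)
    have h0 := Int.emod_nonneg i (by norm_num : (4 : ℤ) ≠ 0)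
    omega
  · have := Int.emod_lt_of_pos j (by norm_num : (0 : ℤ) < 2)
    have h0 := Int.emod_nonneg j (by norm_num : (2 : ℤ) ≠ 0)
    omega
  · have e1 : (a * b) ^ i = (a * b) ^ (i % 4).toNat := by
      rw [← zpow_natCast, Int.toNat_of_nonneg (Int.emod_nonneg i (by norm_num))]
      exact zpow_eq_zpow_emod' i hr
    have e2 : a ^ j = a ^ (j % 2).toNat := by
      rw [← zpow_natCast, Int.toNat_of_nonneg (Int.emod_nonneg j (by norm_num))]
      exact zpow_eq_zpow_emod' j ha2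
    rw [e1, e2]

/-- The norm map of the order three element `c` on the preimage of `E`. -/
def nrm (c u : Γ) : Γ := u * (c * u * c⁻¹) * (c⁻¹ * u * c)

/-- The 2-part criterion: an elementary abelian `E` all of whose elements lift to involutions,
an element `c` acting fixed-point-freely on `E`, and two involutions `s₁`, `s₂` normalising `E`
and `⟨c⟩` whose lifts generate a dihedral group of order 8 meeting `E` trivially. Then some
subgroup of the extension meets the kernel trivially and covers `E ⊔ ⟨s₁, s₂⟩`. -/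
theorem exists_complement_two (hc : τ.ker ≤ center Γ) (h2 : ∀ k ∈ τ.ker, k * k = 1)
    (E : Subgroup Q) (c s₁ s₂ : Γ) (hE : ∀ e ∈ E, ∃ u : Γ, τ u = e)
    (hgood : ∀ e ∈ E, Good τ e)
    (hcE : ∀ e ∈ E, τ c * e * (τ c)⁻¹ ∈ E) (hcE' : ∀ e ∈ E, (τ c)⁻¹ * e * τ c ∈ E)
    (hfpf : ∀ e ∈ E, e * (τ c * e * (τ c)⁻¹) * ((τ c)⁻¹ * e * τ c) = 1)
    (hs₁E : ∀ e ∈ E, τ s₁ * e * (τ s₁)⁻¹ ∈ E) (hs₂E : ∀ e ∈ E, τ s₂ * e * (τ s₂)⁻¹ ∈ E)
    (hs₁c : τ s₁ * τ c * (τ s₁)⁻¹ = τ c ∨ τ s₁ * τ c * (τ s₁)⁻¹ = (τ c)⁻¹)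
    (hs₂c : τ s₂ * τ c * (τ s₂)⁻¹ = τ c ∨ τ s₂ * τ c * (τ s₂)⁻¹ = (τ c)⁻¹)
    (hg₁ : Good τ (τ s₁)) (hg₂ : Good τ (τ s₂))
    (hg₃ : Good τ ((τ s₁ * τ s₂) * (τ s₁ * τ s₂)))
    (hD : ∀ i j : ℕ, i < 4 → j < 2 → (τ s₁ * τ s₂) ^ i * (τ s₁) ^ j ∈ E → i = 0 ∧ j = 0) :
    ∃ K : Subgroup Γ, K ⊓ τ.ker = ⊥ ∧ E ⊔ closure ({τ s₁, τ s₂} : Set Q) ≤ K.map τ := by
  -- the preimage of E is elementary abelian
  have hsqE : ∀ u : Γ, τ u ∈ E → u * u = 1 := fun u hu => hgood _ hu u rfl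
  have hcommE : ∀ u v : Γ, τ u ∈ E → τ v ∈ E → u * v = v * u := fun u v hu hv =>
    comm_of_sq (hsqE u hu) (hsqE v hv) (hsqE (u * v) (by rw [map_mul]; exact E.mul_mem hu hv))
  have hkerE : ∀ k ∈ τ.ker, τ k ∈ E := fun k hk => by
    rw [MonoidHom.mem_ker.mp hk]; exact E.one_mem
  have hcj : ∀ u : Γ, τ u ∈ E → τ (c * u * c⁻¹) ∈ E := fun u hu => by
    rw [map_mul, map_mul, map_inv]; exact hcE _ hu
  have hcj' : ∀ u : Γ, τ u ∈ E → τ (c⁻¹ * u * c) ∈ E := fun u hu => by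
    rw [map_mul, map_mul, map_inv]; exact hcE' _ hu
  have hNker : ∀ u : Γ, τ u ∈ E → nrm c u ∈ τ.ker := fun u hu => by
    rw [MonoidHom.mem_ker]
    simp only [nrm, map_mul, map_inv]
    exact hfpf _ hu
  have hNmul : ∀ u v : Γ, τ u ∈ E → τ v ∈ E → nrm c (u * v) = nrm c u * nrm c v := by
    intro u v hu hv
    have e1 : v * (c * u * c⁻¹) = (c * u * c⁻¹) * v := hcommE _ _ hv (hcj u hu)
    have e2 : (c * v * c⁻¹) * (c⁻¹ * u * c) = (c⁻¹ * u * c) * (c * v * c⁻¹) :=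
      hcommE _ _ (hcj v hv) (hcj' u hu)
    have e3 : v * (c⁻¹ * u * c) = (c⁻¹ * u * c) * v := hcommE _ _ hv (hcj' u hu)
    calc nrm c (u * v)
        = u * (v * (c * u * c⁻¹)) * ((c * v * c⁻¹) * (c⁻¹ * u * c)) * (c⁻¹ * v * c) := by
          simp only [nrm]; group
      _ = u * ((c * u * c⁻¹) * v) * ((c⁻¹ * u * c) * (c * v * c⁻¹)) * (c⁻¹ * v * c) := by
          rw [e1, e2]
      _ = u * (c * u * c⁻¹) * (v * (c⁻¹ * u * c)) * (c * v * c⁻¹) * (c⁻¹ * v * c) := by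
          simp only [mul_assoc]
      _ = u * (c * u * c⁻¹) * ((c⁻¹ * u * c) * v) * (c * v * c⁻¹) * (c⁻¹ * v * c) := by
          rw [e3]
      _ = nrm c u * nrm c v := by simp only [nrm, mul_assoc]
  have hNk : ∀ k ∈ τ.ker, nrm c k = k := by
    intro k hk
    have e1 : c * k * c⁻¹ = k := by rw [ker_comm hc hk c, mul_inv_cancel_right]
    have e2 : c⁻¹ * k * c = k := by rw [ker_comm hc hk c⁻¹, mul_assoc, inv_mul_cancel, mul_one]
    simp only [nrm]
    rw [e1, e2, h2 k hk, one_mul]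
  let E1 : Subgroup Γ :=
    { carrier := {u | τ u ∈ E ∧ nrm c u = 1}
      one_mem' := ⟨by rw [map_one]; exact E.one_mem, by simp [nrm]⟩
      mul_mem' := by
        rintro u v ⟨hu, hu1⟩ ⟨hv, hv1⟩
        exact ⟨by rw [map_mul]; exact E.mul_mem hu hv, by rw [hNmul u v hu hv, hu1, hv1, one_mul]⟩
      inv_mem' := by
        rintro u ⟨hu, hu1⟩
        have : u⁻¹ = u := inv_eq_of_mul_eq_one_left (hsqE u hu)
        rw [this]
        exact ⟨hu, hu1⟩ }
  have hE1 : ∀ u, u ∈ E1 ↔ τ u ∈ E ∧ nrm c u = 1 := fun u => Iff.rfl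
  have hE1ker : ∀ u ∈ E1, u ∈ τ.ker → u = 1 := by
    intro u hu hk
    rw [← hNk u hk]; exact hu.2
  have hE1map : ∀ e ∈ E, ∃ u ∈ E1, τ u = e := by
    intro e he
    obtain ⟨u0, rfl⟩ := hE e he
    have hk := hNker u0 he
    refine ⟨u0 * nrm c u0, ⟨?_, ?_⟩, ?_⟩
    · rw [map_mul, MonoidHom.mem_ker.mp hk, mul_one]; exact he
    · rw [hNmul u0 _ he (hkerE _ hk), hNk _ hk, h2 _ hk]
    · rw [map_mul, MonoidHom.mem_ker.mp hk, mul_one]
  -- conjugation by the lifts of s₁, s₂ preserves E1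
  have hconjE1 : ∀ s : Γ, (∀ e ∈ E, τ s * e * (τ s)⁻¹ ∈ E) →
      (τ s * τ c * (τ s)⁻¹ = τ c ∨ τ s * τ c * (τ s)⁻¹ = (τ c)⁻¹) →
      ∀ u ∈ E1, s * u * s⁻¹ ∈ E1 := by
    intro s hsE hsc u hu
    have hv : τ (s * u * s⁻¹) ∈ E := by
      rw [map_mul, map_mul, map_inv]; exact hsE _ hu.1
    refine ⟨hv, ?_⟩
    set v := s * u * s⁻¹ with hvdef
    set d := s * c * s⁻¹ with hddef
    have key : s * nrm c u * s⁻¹ = v * (d * v * d⁻¹) * (d⁻¹ * v * d⁻¹⁻¹) := by
      simp only [nrm, hvdef, hddef]; group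
    rw [hu.2, mul_one, mul_inv_cancel] at key
    rcases hsc with hsc | hsc
    · have hd : τ d = τ c := by rw [hddef, map_mul, map_mul, map_inv]; exact hsc
      have hd' : τ d⁻¹ = τ c⁻¹ := by rw [map_inv, map_inv, hd]
      rw [conj_eq_of_map_eq hc hd v, conj_eq_of_map_eq hc hd' v, inv_inv] at key
      exact key.symm
    · have hd : τ d = τ c⁻¹ := by rw [hddef, map_mul, map_mul, map_inv, map_inv]; exact hsc
      have hd' : τ d⁻¹ = τ c := by rw [map_inv, hd, map_inv, inv_inv]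
      rw [conj_eq_of_map_eq hc hd v, conj_eq_of_map_eq hc hd' v, inv_inv] at key
      have e : (c⁻¹ * v * c) * (c * v * c⁻¹) = (c * v * c⁻¹) * (c⁻¹ * v * c) :=
        hcommE _ _ (hcj' v hv) (hcj v hv)
      rw [mul_assoc, e, ← mul_assoc] at key
      exact key.symm
  have hs₁sq : s₁ * s₁ = 1 := hg₁ s₁ rfl
  have hs₂sq : s₂ * s₂ = 1 := hg₂ s₂ rfl
  have hnorm : ∀ s : Γ, s * s = 1 → (∀ u ∈ E1, s * u * s⁻¹ ∈ E1) →
      s ∈ normalizer ((E1 : Subgroup Γ) : Set Γ) := by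
    intro s hs hsE1
    rw [Subgroup.mem_normalizer_iff]
    intro h
    refine ⟨hsE1 h, fun hh => ?_⟩
    have := hsE1 _ hh
    have e : s * (s * h * s⁻¹) * s⁻¹ = (s * s) * h * (s * s)⁻¹ := by group
    rwa [e, hs, one_mul, inv_one, mul_one] at this
  have hDnorm : closure ({s₁, s₂} : Set Γ) ≤ normalizer ((E1 : Subgroup Γ) : Set Γ) := by
    rw [Subgroup.closure_le]
    rintro s (rfl | rfl)
    · exact hnorm _ hs₁sq (hconjE1 _ hs₁E hs₁c)
    · exact hnorm _ hs₂sq (hconjE1 _ hs₂E hs₂c)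
  have hr4 : (s₁ * s₂) ^ 4 = 1 := by
    have := hg₃ ((s₁ * s₂) * (s₁ * s₂)) (by simp only [map_mul])
    calc (s₁ * s₂) ^ 4 = (s₁ * s₂) * (s₁ * s₂) * ((s₁ * s₂) * (s₁ * s₂)) := by
          rw [show (4 : ℕ) = 2 + 2 from rfl, pow_add, pow_two]
      _ = 1 := this
  refine ⟨E1 ⊔ closure ({s₁, s₂} : Set Γ), ?_, ?_⟩
  · rw [eq_bot_iff]
    rintro x ⟨hxK, hxker⟩
    obtain ⟨u, hu, d, hd, rfl⟩ := exists_mul_of_mem_sup hDnorm hxK
    obtain ⟨i, j, hi, hj, rfl⟩ := dihedral_form_four hs₁sq hs₂sq hr4 d hd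
    have hτ : τ u * ((τ s₁ * τ s₂) ^ i * τ s₁ ^ j) = 1 := by
      have := MonoidHom.mem_ker.mp hxker
      simpa only [map_mul, map_pow] using this
    have hmem : (τ s₁ * τ s₂) ^ i * τ s₁ ^ j ∈ E := by
      have : (τ s₁ * τ s₂) ^ i * τ s₁ ^ j = (τ u)⁻¹ := eq_inv_of_mul_eq_one_right hτ
      rw [this]; exact E.inv_mem hu.1
    obtain ⟨rfl, rfl⟩ := hD i j hi hj hmem
    simp only [pow_zero, mul_one] at hxker ⊢
    rw [Subgroup.mem_bot]
    exact hE1ker u hu hxker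
  · apply sup_le
    · intro e he
      obtain ⟨u, hu, rfl⟩ := hE1map e he
      exact Subgroup.mem_map_of_mem τ (le_sup_left (a := E1) hu)
    · rw [← image_pair]
      exact Subgroup.map_mono le_sup_right

end Two

end Cfsg.Agent.Lib.Helper35.StemB
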