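-- Central extensions of a permutation group: canonical lifts of elements with a fixed point,
-- obtained from the commutator subgroups of the preimages of the point stabilisers, and the
-- resulting complement over a semidirect product `E ⋊ S`.
import Mathlib
import Cfsg.Agent.Lib.Helper35.StemB

set_option autoImplicit false

namespace Cfsg.Agent.Lib.Helper35.StemC

open Subgroup Cfsg.Agent.Lib.Helper35.StemB
open scoped commutatorElement

section Incl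

variable {Γ Q : Type*} [Group Γ] [Group Q] {H : Subgroup Q} (σ : Γ →* ↥H)

/-- A homomorphism into a subgroup viewed as a homomorphism into the ambient group. -/
def incl : Γ →* Q := H.subtype.comp σ

theorem incl_apply (x : Γ) : incl σ x = (σ x : Q) := rfl

theorem incl_ker : (incl σ).ker = σ.ker := by
  ext x
  rw [MonoidHom.mem_ker, MonoidHom.mem_ker, incl_apply]
  exact ⟨fun h => Subtype.ext h, fun h => by rw [h]; rfl⟩

theorem incl_lift (hs : Function.Surjective σ) {g : Q} (hg : g ∈ H) : ∃ u : Γ, incl σ u = g := by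
  obtain ⟨u, hu⟩ := hs ⟨g, hg⟩
  exact ⟨u, by rw [incl_apply, hu]⟩

theorem incl_range (hs : Function.Surjective σ) : (incl σ).range = H := by
  ext g
  constructor
  · rintro ⟨u, rfl⟩
    exact (σ u).2
  · intro hg
    exact incl_lift σ hs hg

end Incl

section Lifts

variable {Γ Q Ω : Type*} [Group Γ] [Group Q] [MulAction Q Ω] (τ : Γ →* Q)

/-- The commutator subgroup of the preimage of the stabiliser of `β`. -/
def L (β : Ω) : Subgroup Γ :=
  ⁅(MulAction.stabilizer Q β).comap τ, (MulAction.stabilizer Q β).comap τ⁆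

variable {τ}

theorem commutator_mem_L {β : Ω} {a b : Γ} (ha : τ a • β = β) (hb : τ b • β = β) :
    ⁅a, b⁆ ∈ L τ β :=
  Subgroup.commutator_mem_commutator (Subgroup.mem_comap.mpr ha) (Subgroup.mem_comap.mpr hb)

theorem conj_mem_L {β : Ω} (v : Γ) {x : Γ} (hx : x ∈ L τ β) : v * x * v⁻¹ ∈ L τ (τ v • β) := by
  have hle : L τ β ≤ (L τ (τ v • β)).comap (MulAut.conj v).toMonoidHom := by
    unfold L
    rw [Subgroup.commutator_le]
    intro a ha b hb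
    rw [Subgroup.mem_comap]
    have e : (MulAut.conj v).toMonoidHom ⁅a, b⁆ = ⁅v * a * v⁻¹, v * b * v⁻¹⁆ := by
      simp only [MulEquiv.coe_toMonoidHom, MulAut.conj_apply, commutatorElement_def]; group
    rw [e]
    have key : ∀ y : Γ, τ y • β = β → τ (v * y * v⁻¹) • (τ v • β) = τ v • β := by
      intro y hy
      rw [map_mul, map_mul, map_inv, mul_smul, mul_smul, inv_smul_smul, hy]
    exact Subgroup.commutator_mem_commutator (Subgroup.mem_comap.mpr (key a ha))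
      (Subgroup.mem_comap.mpr (key b hb))
  have := hle hx
  rwa [Subgroup.mem_comap, MulEquiv.coe_toMonoidHom, MulAut.conj_apply] at this

theorem eq_of_mem_L {β : Ω} (h1 : L τ β ⊓ τ.ker = ⊥) {u w : Γ} (hu : u ∈ L τ β)
    (hw : w ∈ L τ β) (h : τ u = τ w) : u = w := by
  have h2 : u⁻¹ * w ∈ L τ β ⊓ τ.ker :=
    Subgroup.mem_inf.mpr ⟨(L τ β).mul_mem ((L τ β).inv_mem hu) hw,
      MonoidHom.mem_ker.mpr (by rw [map_mul, map_inv, h, inv_mul_cancel])⟩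
  rw [h1, Subgroup.mem_bot] at h2
  exact (inv_mul_eq_one.mp h2)

/-- Transport of the splitting property along the action. -/
theorem L_inf_ker_of_conj {β₁ β : Ω} (h1 : L τ β₁ ⊓ τ.ker = ⊥) (v : Γ) (hv : τ v • β₁ = β) :
    L τ β ⊓ τ.ker = ⊥ := by
  rw [eq_bot_iff]
  rintro x ⟨hx, hxk⟩
  have h2 : v⁻¹ * x * v⁻¹⁻¹ ∈ L τ (τ v⁻¹ • β) := conj_mem_L v⁻¹ hx
  have h3 : τ v⁻¹ • β = β₁ := by rw [map_inv, ← hv, inv_smul_smul]
  rw [h3] at h2
  have hxk' : τ x = 1 := MonoidHom.mem_ker.mp hxk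
  have h4 : v⁻¹ * x * v⁻¹⁻¹ ∈ τ.ker :=
    MonoidHom.mem_ker.mpr (by
      rw [map_mul, map_mul, hxk', mul_one, ← map_mul, mul_inv_cancel, map_one])
  have h5 : v⁻¹ * x * v⁻¹⁻¹ ∈ L τ β₁ ⊓ τ.ker := Subgroup.mem_inf.mpr ⟨h2, h4⟩
  rw [h1, Subgroup.mem_bot] at h5
  rw [Subgroup.mem_bot]
  have : v * (v⁻¹ * x * v⁻¹⁻¹) * v⁻¹ = v * 1 * v⁻¹ := by rw [h5]
  simpa [mul_assoc] using this

/-- Transport of the lifting property along the action. -/
theorem exists_lift_of_conj {β₁ β : Ω}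
    (h1 : ∀ x ∈ τ.range, x • β₁ = β₁ → ∃ u ∈ L τ β₁, τ u = x) (v : Γ) (hv : τ v • β₁ = β) :
    ∀ x ∈ τ.range, x • β = β → ∃ u ∈ L τ β, τ u = x := by
  intro x hx hxβ
  have hx' : (τ v)⁻¹ * x * τ v ∈ τ.range :=
    τ.range.mul_mem (τ.range.mul_mem (τ.range.inv_mem ⟨v, rfl⟩) hx) ⟨v, rfl⟩
  have hfix : ((τ v)⁻¹ * x * τ v) • β₁ = β₁ := by
    rw [mul_smul, mul_smul, hv, hxβ, ← hv, inv_smul_smul]
  obtain ⟨u, hu, hτu⟩ := h1 _ hx' hfix
  refine ⟨v * u * v⁻¹, ?_, ?_⟩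
  · have := conj_mem_L v hu
    rwa [hv] at this
  · rw [map_mul, map_mul, map_inv, hτu]; group

/-- The complement over `E ⋊ S` built from canonical lifts: `E` fixes the points of `O`, `S`
fixes the point `ω`, and for every point of `O` some element fixing it and `β₀` has `E` in its
commutators with `E`. -/
theorem exists_complement_of_lifts
    (hL1 : ∀ β : Ω, L τ β ⊓ τ.ker = ⊥)
    (hL2 : ∀ β : Ω, ∀ x ∈ τ.range, x • β = β → ∃ u ∈ L τ β, τ u = x)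
    (E S : Subgroup Q) (hE : E ≤ τ.range) (hS : S ≤ τ.range)
    (O : Set Ω) (β₀ ω : Ω) (hβ₀ : β₀ ∈ O)
    (hEO : ∀ e ∈ E, ∀ β ∈ O, e • β = β)
    (hSO : ∀ s ∈ S, s • β₀ ∈ O) (hSω : ∀ s ∈ S, s • ω = ω)
    (hSE : S ≤ normalizer (E : Set Q))
    (hcomm : ∀ β ∈ O, ∃ c ∈ τ.range, c • β₀ = β₀ ∧ c • β = β ∧ ∀ e ∈ E, ∃ e' ∈ E, e = ⁅e', c⁆)
    (hES : E ⊓ S = ⊥) :
    ∃ K : Subgroup Γ, K ⊓ τ.ker = ⊥ ∧ E ⊔ S ≤ K.map τ := by
  have claim1 : ∀ β ∈ O, ∀ u : Γ, τ u ∈ E → (u ∈ L τ β ↔ u ∈ L τ β₀) := by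
    intro β hβ u hu
    obtain ⟨c, hcr, hc0, hcβ, hce⟩ := hcomm β hβ
    obtain ⟨e', he', hee⟩ := hce _ hu
    obtain ⟨ue, hue⟩ := hE he'
    obtain ⟨uc, huc⟩ := hcr
    have hw : τ ⁅ue, uc⁆ = τ u := by rw [map_commutatorElement, hue, huc, ← hee]
    have hwβ : ⁅ue, uc⁆ ∈ L τ β :=
      commutator_mem_L (by rw [hue]; exact hEO e' he' β hβ) (by rw [huc]; exact hcβ)
    have hw0 : ⁅ue, uc⁆ ∈ L τ β₀ :=
      commutator_mem_L (by rw [hue]; exact hEO e' he' β₀ hβ₀) (by rw [huc]; exact hc0)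
    constructor
    · intro h
      rw [eq_of_mem_L (hL1 β) h hwβ hw.symm]; exact hw0
    · intro h
      rw [eq_of_mem_L (hL1 β₀) h hw0 hw.symm]; exact hwβ
  set Ebar : Subgroup Γ := L τ β₀ ⊓ E.comap τ with hEbar
  set Sbar : Subgroup Γ := L τ ω ⊓ S.comap τ with hSbar
  have claim2 : ∀ v ∈ Sbar, ∀ u ∈ Ebar, v * u * v⁻¹ ∈ Ebar := by
    intro v hv u hu
    have hvS' : τ v ∈ S := (Subgroup.mem_inf.mp hv).2
    have huE' : τ u ∈ E := (Subgroup.mem_inf.mp hu).2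
    have huL : u ∈ L τ β₀ := (Subgroup.mem_inf.mp hu).1
    have h1 : τ (v * u * v⁻¹) ∈ E := by
      rw [map_mul, map_mul, map_inv]
      exact (Subgroup.mem_normalizer_iff.mp (hSE hvS') (τ u)).mp huE'
    have h2 : v * u * v⁻¹ ∈ L τ (τ v • β₀) := conj_mem_L v huL
    exact Subgroup.mem_inf.mpr ⟨(claim1 _ (hSO _ hvS') _ h1).mp h2, h1⟩
  have hnorm : Sbar ≤ normalizer (Ebar : Set Γ) := by
    intro v hv
    rw [Subgroup.mem_normalizer_iff]
    intro h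
    refine ⟨claim2 v hv h, fun hh => ?_⟩
    have := claim2 v⁻¹ (Sbar.inv_mem hv) _ hh
    have e : v⁻¹ * (v * h * v⁻¹) * v⁻¹⁻¹ = h := by group
    rwa [e] at this
  refine ⟨Ebar ⊔ Sbar, ?_, ?_⟩
  · rw [eq_bot_iff]
    rintro x ⟨hxK, hxker⟩
    obtain ⟨u, hu, v, hv, rfl⟩ := exists_mul_of_mem_sup hnorm hxK
    have hu' := Subgroup.mem_inf.mp hu
    have hv' := Subgroup.mem_inf.mp hv
    have hτ : τ u * τ v = 1 := by
      rw [← map_mul]; exact MonoidHom.mem_ker.mp hxker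
    have hvE : τ v ∈ E := by
      have : τ v = (τ u)⁻¹ := eq_inv_of_mul_eq_one_right hτ
      rw [this]; exact E.inv_mem hu'.2
    have hv1 : τ v = 1 := by
      have : τ v ∈ E ⊓ S := Subgroup.mem_inf.mpr ⟨hvE, hv'.2⟩
      rwa [hES, Subgroup.mem_bot] at this
    have hv2 : v = 1 := by
      have : v ∈ L τ ω ⊓ τ.ker := Subgroup.mem_inf.mpr ⟨hv'.1, MonoidHom.mem_ker.mpr hv1⟩
      rwa [hL1 ω, Subgroup.mem_bot] at this
    have hxker' : τ (u * v) = 1 := MonoidHom.mem_ker.mp hxker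
    rw [hv2, mul_one] at hxker' ⊢
    have : u ∈ L τ β₀ ⊓ τ.ker := Subgroup.mem_inf.mpr ⟨hu'.1, MonoidHom.mem_ker.mpr hxker'⟩
    rwa [hL1 β₀] at this
  · apply sup_le
    · intro e he
      obtain ⟨u, hu, hτu⟩ := hL2 β₀ e (hE he) (hEO e he β₀ hβ₀)
      exact ⟨u, le_sup_left (a := Ebar) (Subgroup.mem_inf.mpr ⟨hu, by show τ u ∈ E; rw [hτu]; exact he⟩), hτu⟩
    · intro s hs
      obtain ⟨v, hv, hτv⟩ := hL2 ω s (hS hs) (hSω s hs)
      exact ⟨v, le_sup_right (a := Ebar) (Subgroup.mem_inf.mpr ⟨hv, by show τ v ∈ S; rw [hτv]; exact hs⟩), hτv⟩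

end Lifts

end Cfsg.Agent.Lib.Helper35.StemC
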