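-- Central extensions of a triply transitive permutation group whose point stabilisers lift
-- canonically: if the lifts at two points agree modulo a central subgroup `B`, then the
-- double-coset decomposition `G = M ∪ M t M` lifts to a subgroup meeting the kernel inside `B`,
-- so the kernel of a stem extension lies in `B`.
import Mathlib
import Cfsg.Agent.Lib.Helper35.Stem
import Cfsg.Agent.Lib.Helper35.StemC

set_option autoImplicit false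

namespace Cfsg.Agent.Lib.Helper35.StemD

open Subgroup Cfsg.Agent.Lib.Helper35.Stem Cfsg.Agent.Lib.Helper35.StemB
  Cfsg.Agent.Lib.Helper35.StemC
open scoped commutatorElement

section

variable {Γ Q Ω : Type*} [Group Γ] [Group Q] [MulAction Q Ω] {τ : Γ →* Q}

theorem smul_of_mem_L {β : Ω} {u : Γ} (hu : u ∈ L τ β) : τ u • β = β := by
  have h : L τ β ≤ (MulAction.stabilizer Q β).comap τ := by
    unfold L
    rw [Subgroup.commutator_le]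
    intro g₁ h₁ g₂ h₂
    rw [commutatorElement_def]
    exact Subgroup.mul_mem _ (Subgroup.mul_mem _ (Subgroup.mul_mem _ h₁ h₂)
      (Subgroup.inv_mem _ h₁)) (Subgroup.inv_mem _ h₂)
  exact MulAction.mem_stabilizer_iff.mp (Subgroup.mem_comap.mp (h hu))

/-- The canonical lift of a point stabiliser, thickened by a central subgroup. -/
def NB (τ : Γ →* Q) (B : Subgroup Γ) (β : Ω) : Subgroup Γ := L τ β ⊔ B

variable {B : Subgroup Γ}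

theorem exists_of_mem_NB (hc : τ.ker ≤ center Γ) (hB : B ≤ τ.ker) {β : Ω} {g : Γ}
    (hg : g ∈ NB τ B β) : ∃ u ∈ L τ β, ∃ b ∈ B, g = u * b := by
  refine exists_mul_of_mem_sup ?_ hg
  intro b hb
  rw [Subgroup.mem_normalizer_iff]
  intro h
  have hbc := Subgroup.mem_center_iff.mp (hc (hB hb))
  have : b * h * b⁻¹ = h := by rw [← hbc h, mul_inv_cancel_right]
  rw [this]

theorem smul_of_mem_NB (hc : τ.ker ≤ center Γ) (hB : B ≤ τ.ker) {β : Ω} {g : Γ}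
    (hg : g ∈ NB τ B β) : τ g • β = β := by
  obtain ⟨u, hu, b, hb, rfl⟩ := exists_of_mem_NB hc hB hg
  rw [map_mul, MonoidHom.mem_ker.mp (hB hb), mul_one]
  exact smul_of_mem_L hu

theorem NB_inf_ker (hc : τ.ker ≤ center Γ) (hB : B ≤ τ.ker) {β : Ω}
    (hL1 : L τ β ⊓ τ.ker = ⊥) : NB τ B β ⊓ τ.ker ≤ B := by
  rintro g ⟨hg, hgk⟩
  obtain ⟨u, hu, b, hb, rfl⟩ := exists_of_mem_NB hc hB hg
  have huk : u ∈ τ.ker := by
    have := MonoidHom.mem_ker.mp hgk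
    rw [map_mul, MonoidHom.mem_ker.mp (hB hb), mul_one] at this
    exact MonoidHom.mem_ker.mpr this
  have h1 : u ∈ L τ β ⊓ τ.ker := Subgroup.mem_inf.mpr ⟨hu, huk⟩
  rw [hL1, Subgroup.mem_bot] at h1
  rw [h1, one_mul]; exact hb

theorem conj_mem_NB (hc : τ.ker ≤ center Γ) (hB : B ≤ τ.ker) {β : Ω} (v : Γ) {g : Γ}
    (hg : g ∈ NB τ B β) : v * g * v⁻¹ ∈ NB τ B (τ v • β) := by
  obtain ⟨u, hu, b, hb, rfl⟩ := exists_of_mem_NB hc hB hg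
  have hbc := Subgroup.mem_center_iff.mp (hc (hB hb))
  have e : v * (u * b) * v⁻¹ = (v * u * v⁻¹) * b := by
    calc v * (u * b) * v⁻¹ = v * u * (b * v⁻¹) := by group
      _ = v * u * (v⁻¹ * b) := by rw [hbc v⁻¹]
      _ = v * u * v⁻¹ * b := by group
  rw [e]
  exact Subgroup.mul_mem _ (Subgroup.mem_sup_left (conj_mem_L v hu)) (Subgroup.mem_sup_right hb)

/-- An element of the thickened lift at `β` whose image fixes `β'` lies in the thickened lift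
at `β'`. -/
theorem mem_NB_of_fix (hc : τ.ker ≤ center Γ) (hB : B ≤ τ.ker) (D : Set Ω)
    (hL2 : ∀ β ∈ D, ∀ x ∈ τ.range, x • β = β → ∃ u ∈ L τ β, τ u = x)
    (hcons : ∀ β ∈ D, ∀ β' ∈ D, ∀ u ∈ L τ β, ∀ u' ∈ L τ β', τ u = τ u' → u⁻¹ * u' ∈ B)
    {β β' : Ω} (hβ : β ∈ D) (hβ' : β' ∈ D) {g : Γ} (hg : g ∈ NB τ B β)
    (hfix : τ g • β' = β') : g ∈ NB τ B β' := by
  obtain ⟨u, hu, b, hb, rfl⟩ := exists_of_mem_NB hc hB hg
  have hτ : τ (u * b) = τ u := by rw [map_mul, MonoidHom.mem_ker.mp (hB hb), mul_one]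
  rw [hτ] at hfix
  obtain ⟨u', hu', hτu'⟩ := hL2 β' hβ' (τ u) ⟨u, rfl⟩ hfix
  have h1 : u⁻¹ * u' ∈ B := hcons β hβ β' hβ' u hu u' hu' hτu'.symm
  have e : u * b = u' * ((u⁻¹ * u')⁻¹ * b) := by group
  rw [e]
  exact Subgroup.mul_mem _ (Subgroup.mem_sup_left hu')
    (Subgroup.mem_sup_right (B.mul_mem (B.inv_mem h1) hb))

theorem exists_lift_NB (D : Set Ω)
    (hL2 : ∀ β ∈ D, ∀ x ∈ τ.range, x • β = β → ∃ u ∈ L τ β, τ u = x)
    {β : Ω} (hβ : β ∈ D) {x : Q} (hx : x ∈ τ.range) (hfix : x • β = β) :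
    ∃ g ∈ NB τ B β, τ g = x := by
  obtain ⟨u, hu, h⟩ := hL2 β hβ x hx hfix
  exact ⟨u, Subgroup.mem_sup_left hu, h⟩

/-- The complement modulo `B`: a subgroup mapping onto the range and meeting the kernel
inside `B`. -/
theorem exists_complement_mod (hc : τ.ker ≤ center Γ) (hB : B ≤ τ.ker) (D : Set Ω)
    (hL1 : ∀ β ∈ D, L τ β ⊓ τ.ker = ⊥)
    (hL2 : ∀ β ∈ D, ∀ x ∈ τ.range, x • β = β → ∃ u ∈ L τ β, τ u = x)
    (hcons : ∀ β ∈ D, ∀ β' ∈ D, ∀ u ∈ L τ β, ∀ u' ∈ L τ β', τ u = τ u' → u⁻¹ * u' ∈ B)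
    (hD : ∀ x ∈ τ.range, ∀ β ∈ D, x • β ∈ D)
    (h2t : ∀ a ∈ D, ∀ b ∈ D, ∀ a' ∈ D, ∀ b' ∈ D, a ≠ b → a' ≠ b' →
      ∃ x ∈ τ.range, x • a = a' ∧ x • b = b')
    (h3t : ∀ a ∈ D, ∀ b ∈ D, ∀ c ∈ D, ∀ a' ∈ D, ∀ b' ∈ D, ∀ c' ∈ D, a ≠ b → a ≠ c → b ≠ c →
      a' ≠ b' → a' ≠ c' → b' ≠ c' → ∃ x ∈ τ.range, x • a = a' ∧ x • b = b' ∧ x • c = c')
    (β₀ β₁ β₂ β₃ : Ω) (h0 : β₀ ∈ D) (h1 : β₁ ∈ D) (h2 : β₂ ∈ D) (h3 : β₃ ∈ D)
    (h01 : β₀ ≠ β₁) (h02 : β₀ ≠ β₂) (h12 : β₁ ≠ β₂) (h03 : β₀ ≠ β₃) (h13 : β₁ ≠ β₃)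
    (h23 : β₂ ≠ β₃) :
    ∃ Γ₁ : Subgroup Γ, Γ₁ ⊓ τ.ker ≤ B ∧ Γ₁.map τ = τ.range := by
  obtain ⟨t, htr, ht0, ht1, ht2⟩ :=
    h3t β₀ h0 β₁ h1 β₂ h2 β₁ h1 β₀ h0 β₂ h2 h01 h02 h12 h01.symm h12 h02
  obtain ⟨th, hth, hτth⟩ := exists_lift_NB (B := B) D hL2 h2 htr ht2
  have key := @mem_NB_of_fix _ _ _ _ _ _ τ B hc hB D hL2 hcons
  have ht0' : t⁻¹ • β₁ = β₀ := by rw [← ht0, inv_smul_smul]
  have ht1' : t⁻¹ • β₀ = β₁ := by rw [← ht1, inv_smul_smul]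
  have c1 : th * th ∈ NB τ B β₀ := by
    apply key h2 h0 (Subgroup.mul_mem _ hth hth)
    rw [map_mul, hτth, mul_smul, ht0, ht1]
  have c2 : ∀ k ∈ NB τ B β₀, τ k • β₁ = β₁ → th * k * th⁻¹ ∈ NB τ B β₀ := by
    intro k hk hk1
    have h := conj_mem_NB hc hB th hk
    rw [hτth, ht0] at h
    apply key h1 h0 h
    rw [map_mul, map_mul, map_inv, hτth, mul_smul, mul_smul, ht1', hk1, ht1]
  have c2' : ∀ k ∈ NB τ B β₀, τ k • β₁ = β₁ → th⁻¹ * k * th ∈ NB τ B β₀ := by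
    intro k hk hk1
    have h := conj_mem_NB hc hB th⁻¹ hk
    rw [inv_inv, map_inv, hτth, ht1'] at h
    apply key h1 h0 h
    rw [map_mul, map_mul, map_inv, hτth, mul_smul, mul_smul, ht0, hk1, ht0']
  have hts3 : t • β₃ ∈ D := hD t htr β₃ h3
  have hts30 : β₀ ≠ t • β₃ := by
    intro h
    have : t • β₃ = t • β₁ := by rw [← h, ht1]
    exact h13 (smul_left_cancel t this).symm
  have hts32 : β₂ ≠ t • β₃ := by
    intro h
    have : t • β₃ = t • β₂ := by rw [← h, ht2]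
    exact h23 (smul_left_cancel t this).symm
  obtain ⟨m₀', hm₀r, hm00, hm02, hm01⟩ :=
    h3t β₀ h0 β₂ h2 β₁ h1 β₀ h0 β₂ h2 β₃ h3 h02 h01 h12.symm h02 h03 h23
  obtain ⟨f', hfr, hf0, hf2, hf1⟩ :=
    h3t β₀ h0 β₂ h2 β₁ h1 β₀ h0 β₂ h2 (t • β₃) hts3 h02 h01 h12.symm h02 hts30 hts32
  obtain ⟨m₀, hm₀, hτm₀⟩ := exists_lift_NB (B := B) D hL2 h0 hm₀r hm00
  obtain ⟨f, hf, hτf⟩ := exists_lift_NB (B := B) D hL2 h0 hfr hf0
  have hm₀2 : m₀ ∈ NB τ B β₂ := key h0 h2 hm₀ (by rw [hτm₀]; exact hm02)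
  have hf2' : f ∈ NB τ B β₂ := key h0 h2 hf (by rw [hτf]; exact hf2)
  have hg₀2 : th⁻¹ * f⁻¹ * th * m₀ * th ∈ NB τ B β₂ :=
    mul_mem (mul_mem (mul_mem (mul_mem (inv_mem hth) (inv_mem hf2')) hth) hm₀2) hth
  have hg₀0 : th⁻¹ * f⁻¹ * th * m₀ * th ∈ NB τ B β₀ := by
    apply key h2 h0 hg₀2
    rw [map_mul, map_mul, map_mul, map_mul, map_inv, map_inv, hτth, hτf, hτm₀, mul_smul,
      mul_smul, mul_smul, mul_smul, ht0, hm01, ← hf1, inv_smul_smul, ht0']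
  have c3 : th * m₀ * th = f * th * (th⁻¹ * f⁻¹ * th * m₀ * th) := by group
  have c4 : ∀ m ∈ NB τ B β₀, τ m • β₁ ≠ β₁ → ∃ k ∈ NB τ B β₀, ∃ k' ∈ NB τ B β₀,
      τ k • β₁ = β₁ ∧ τ k' • β₁ = β₁ ∧ m = k * m₀ * k' := by
    intro m hm hm1
    have hm0 : τ m • β₀ = β₀ := smul_of_mem_NB hc hB hm
    have hγD : τ m • β₁ ∈ D := hD _ ⟨m, rfl⟩ β₁ h1
    have hγ0 : β₀ ≠ τ m • β₁ := by
      intro h
      have : τ m • β₀ = τ m • β₁ := by rw [hm0]; exact h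
      exact h01 (smul_left_cancel _ this)
    obtain ⟨k₀, hk₀r, hk00, hk01, hk03⟩ :=
      h3t β₀ h0 β₁ h1 β₃ h3 β₀ h0 β₁ h1 (τ m • β₁) hγD h01 h03 h13 h01 hγ0 (Ne.symm hm1)
    obtain ⟨k, hk, hτk⟩ := exists_lift_NB (B := B) D hL2 h0 hk₀r hk00
    refine ⟨k, hk, (k * m₀)⁻¹ * m, mul_mem (inv_mem (mul_mem hk hm₀)) hm,
      by rw [hτk]; exact hk01, ?_, by group⟩
    rw [map_mul, map_inv, map_mul, hτk, hτm₀, mul_smul, mul_inv_rev, mul_smul, ← hk03,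
      inv_smul_smul, ← hm01, inv_smul_smul]
  let S : Set Γ := {g | g ∈ NB τ B β₀ ∨ ∃ a ∈ NB τ B β₀, ∃ c ∈ NB τ B β₀, g = a * th * c}
  have hS_N : ∀ n ∈ NB τ B β₀, ∀ s ∈ S, n * s ∈ S := by
    rintro n hn s (hs | ⟨a, ha, c, hc', rfl⟩)
    · exact Or.inl (mul_mem hn hs)
    · exact Or.inr ⟨n * a, mul_mem hn ha, c, hc', by group⟩
  have hS_t : ∀ s ∈ S, th * s ∈ S := by
    rintro s (hs | ⟨a, ha, c, hc', rfl⟩)
    · exact Or.inr ⟨1, one_mem _, s, hs, by group⟩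
    · by_cases ha1 : τ a • β₁ = β₁
      · left
        have e : th * (a * th * c) = (th * a * th⁻¹) * (th * th) * c := by group
        rw [e]
        exact mul_mem (mul_mem (c2 a ha ha1) c1) hc'
      · obtain ⟨k, hk, k', hk', hk1, hk'1, rfl⟩ := c4 a ha ha1
        right
        refine ⟨(th * k * th⁻¹) * f, mul_mem (c2 k hk hk1) hf,
          (th⁻¹ * f⁻¹ * th * m₀ * th) * (th⁻¹ * k' * th) * c,
          mul_mem (mul_mem hg₀0 (c2' k' hk' hk'1)) hc', ?_⟩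
        have e : th * (k * m₀ * k' * th * c) =
            (th * k * th⁻¹) * (th * m₀ * th) * (th⁻¹ * k' * th) * c := by group
        rw [e, c3]; group
  have hS_tinv : ∀ s ∈ S, th⁻¹ * s ∈ S := by
    intro s hs
    have e : th⁻¹ * s = (th * th)⁻¹ * (th * s) := by group
    rw [e]
    exact hS_N _ (inv_mem c1) _ (hS_t s hs)
  refine ⟨closure ((NB τ B β₀ : Set Γ) ∪ {th}), ?_, ?_⟩
  · have hsub : ∀ g ∈ closure ((NB τ B β₀ : Set Γ) ∪ {th}), g ∈ S := by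
      intro g hg
      induction hg using Subgroup.closure_induction_left with
      | one => exact Or.inl (one_mem _)
      | mul_left x hx y _ ih =>
        rcases hx with hx | hx
        · exact hS_N x hx y ih
        · rw [Set.mem_singleton_iff.mp hx]; exact hS_t y ih
      | inv_mul_cancel x hx y _ ih =>
        rcases hx with hx | hx
        · exact hS_N x⁻¹ (inv_mem hx) y ih
        · rw [Set.mem_singleton_iff.mp hx]; exact hS_tinv y ih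
    rintro g ⟨hg, hgk⟩
    rcases hsub g hg with h | ⟨a, ha, c, hc', rfl⟩
    · exact NB_inf_ker hc hB (hL1 β₀ h0) (Subgroup.mem_inf.mpr ⟨h, hgk⟩)
    · exfalso
      have h := MonoidHom.mem_ker.mp hgk
      rw [map_mul, map_mul, hτth] at h
      have ha0 := smul_of_mem_NB hc hB ha
      have hc0 := smul_of_mem_NB hc hB hc'
      have h4 : (τ a * t * τ c) • β₀ = β₀ := by rw [h, one_smul]
      rw [mul_smul, mul_smul, hc0, ht0] at h4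
      have h' : τ a • β₁ = τ a • β₀ := by rw [h4, ha0]
      exact h01 (smul_left_cancel _ h').symm
  · apply le_antisymm
    · rintro _ ⟨g, -, rfl⟩
      exact ⟨g, rfl⟩
    · intro x hx
      by_cases hx0 : x • β₀ = β₀
      · obtain ⟨n, hn, hτn⟩ := exists_lift_NB (B := B) D hL2 h0 hx hx0
        exact ⟨n, subset_closure (Or.inl hn), hτn⟩
      · have hγD : x • β₀ ∈ D := hD x hx β₀ h0
        obtain ⟨m', hm'r, hm'0, hm'1⟩ :=
          h2t β₀ h0 β₁ h1 β₀ h0 (x • β₀) hγD h01 (Ne.symm hx0)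
        obtain ⟨m, hm, hτm⟩ := exists_lift_NB (B := B) D hL2 h0 hm'r hm'0
        have hy : (m' * t)⁻¹ * x ∈ τ.range := mul_mem (inv_mem (mul_mem hm'r htr)) hx
        have hy0 : ((m' * t)⁻¹ * x) • β₀ = β₀ := by
          rw [mul_smul, ← hm'1, ← ht0, ← mul_smul m' t, inv_smul_smul]
        obtain ⟨n, hn, hτn⟩ := exists_lift_NB (B := B) D hL2 h0 hy hy0
        refine ⟨m * th * n, mul_mem (mul_mem (subset_closure (Or.inl hm))
          (subset_closure (Or.inr rfl))) (subset_closure (Or.inl hn)), ?_⟩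
        rw [map_mul, map_mul, hτm, hτth, hτn]; group

/-- A subgroup mapping onto the range and meeting the kernel inside `B` forces the part of the
kernel inside the commutator subgroup into `B`. -/
theorem ker_le_of_complement_mod (hc : τ.ker ≤ center Γ) (Γ₁ : Subgroup Γ)
    (h1 : Γ₁ ⊓ τ.ker ≤ B) (h2 : Γ₁.map τ = τ.range) : commutator Γ ⊓ τ.ker ≤ B := by
  rintro z ⟨hz', hz⟩
  apply h1
  refine Subgroup.mem_inf.mpr ⟨?_, hz⟩
  have hle : commutator Γ ≤ Γ₁ := by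
    rw [commutator_def, Subgroup.commutator_le]
    intro g _ h _
    have hg : τ g ∈ Γ₁.map τ := by rw [h2]; exact ⟨g, rfl⟩
    have hh : τ h ∈ Γ₁.map τ := by rw [h2]; exact ⟨h, rfl⟩
    obtain ⟨g₁, hg₁, e₁⟩ := hg
    obtain ⟨h₁, hh₁, e₂⟩ := hh
    rw [commutator_eq_of_map_eq τ hc e₁.symm e₂.symm, commutatorElement_def]
    exact mul_mem (mul_mem (mul_mem hg₁ hh₁) (inv_mem hg₁)) (inv_mem hh₁)
  exact hle hz'

/-- Agreement of the lifts modulo `B` at one pair of points spreads to all pairs. -/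
theorem cons_of_pair (hc : τ.ker ≤ center Γ) (D : Set Ω)
    (hL1 : ∀ β ∈ D, L τ β ⊓ τ.ker = ⊥)
    (h2t : ∀ a ∈ D, ∀ b ∈ D, ∀ a' ∈ D, ∀ b' ∈ D, a ≠ b → a' ≠ b' →
      ∃ x ∈ τ.range, x • a = a' ∧ x • b = b')
    (β₀ β₁ : Ω) (h0 : β₀ ∈ D) (h1 : β₁ ∈ D) (h01 : β₀ ≠ β₁)
    (hpair : ∀ u ∈ L τ β₀, ∀ u' ∈ L τ β₁, τ u = τ u' → u⁻¹ * u' ∈ B) :
    ∀ β ∈ D, ∀ β' ∈ D, ∀ u ∈ L τ β, ∀ u' ∈ L τ β', τ u = τ u' → u⁻¹ * u' ∈ B := by
  intro β hβ β' hβ' u hu u' hu' huu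
  by_cases hbb : β = β'
  · subst hbb
    rw [eq_of_mem_L (hL1 β hβ) hu hu' huu, inv_mul_cancel]
    exact one_mem _
  · obtain ⟨g, ⟨v, rfl⟩, hg0, hg1⟩ := h2t β₀ h0 β₁ h1 β hβ β' hβ' h01 hbb
    have e0 : τ v⁻¹ • β = β₀ := by rw [map_inv, ← hg0, inv_smul_smul]
    have e1 : τ v⁻¹ • β' = β₁ := by rw [map_inv, ← hg1, inv_smul_smul]
    have a1 := conj_mem_L v⁻¹ hu
    have a2 := conj_mem_L v⁻¹ hu'
    rw [e0] at a1
    rw [e1] at a2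
    have h := hpair _ a1 _ a2 (by simp only [map_mul, map_inv, inv_inv, huu])
    have hk : u⁻¹ * u' ∈ τ.ker :=
      MonoidHom.mem_ker.mpr (by rw [map_mul, map_inv, huu, inv_mul_cancel])
    have hcen := Subgroup.mem_center_iff.mp (hc hk)
    have e : (v⁻¹ * u * v⁻¹⁻¹)⁻¹ * (v⁻¹ * u' * v⁻¹⁻¹) = u⁻¹ * u' := by
      have h5 : (v⁻¹ * u * v⁻¹⁻¹)⁻¹ * (v⁻¹ * u' * v⁻¹⁻¹) = v⁻¹ * (u⁻¹ * u') * v := by group
      rw [h5, mul_assoc, ← hcen v, ← mul_assoc, inv_mul_cancel, one_mul]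
    rwa [e] at h

/-- Agreement of the lifts modulo `B` on generators of the two-point stabiliser gives
agreement on the whole two-point stabiliser. -/
theorem pair_of_gens (hc : τ.ker ≤ center Γ) (hB : B ≤ τ.ker) {β₀ β₁ : Ω}
    (hL0 : L τ β₀ ⊓ τ.ker = ⊥) (hL1' : L τ β₁ ⊓ τ.ker = ⊥) (S : Set Q)
    (hS : ∀ s ∈ S, ∃ u ∈ L τ β₀, ∃ u' ∈ L τ β₁, τ u = s ∧ τ u' = s ∧ u⁻¹ * u' ∈ B)
    (hK : ∀ x ∈ τ.range, x • β₀ = β₀ → x • β₁ = β₁ → x ∈ closure S) :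
    ∀ u ∈ L τ β₀, ∀ u' ∈ L τ β₁, τ u = τ u' → u⁻¹ * u' ∈ B := by
  intro u hu u' hu' huu
  have hx : τ u ∈ closure S :=
    hK (τ u) ⟨u, rfl⟩ (smul_of_mem_L hu) (by rw [huu]; exact smul_of_mem_L hu')
  have key : ∀ x ∈ closure S, ∃ v ∈ L τ β₀, ∃ v' ∈ L τ β₁, τ v = x ∧ τ v' = x ∧
      v⁻¹ * v' ∈ B := by
    intro x hx
    induction hx using Subgroup.closure_induction with
    | mem s hs => exact hS s hs
    | one =>
      exact ⟨1, one_mem _, 1, one_mem _, map_one τ, map_one τ,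
        by rw [inv_one, one_mul]; exact one_mem _⟩
    | mul x y _ _ ihx ihy =>
      obtain ⟨v₁, hv₁, v₁', hv₁', e₁, e₁', hb₁⟩ := ihx
      obtain ⟨v₂, hv₂, v₂', hv₂', e₂, e₂', hb₂⟩ := ihy
      refine ⟨v₁ * v₂, mul_mem hv₁ hv₂, v₁' * v₂', mul_mem hv₁' hv₂',
        by rw [map_mul, e₁, e₂], by rw [map_mul, e₁', e₂'], ?_⟩
      have hcen := Subgroup.mem_center_iff.mp (hc (hB hb₁))
      have e : (v₁ * v₂)⁻¹ * (v₁' * v₂') = (v₁⁻¹ * v₁') * (v₂⁻¹ * v₂') := by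
        have h5 : (v₁ * v₂)⁻¹ * (v₁' * v₂') = v₂⁻¹ * (v₁⁻¹ * v₁') * v₂' := by group
        rw [h5, hcen v₂⁻¹, mul_assoc]
      rw [e]
      exact mul_mem hb₁ hb₂
    | inv x _ ih =>
      obtain ⟨v, hv, v', hv', e, e', hb⟩ := ih
      refine ⟨v⁻¹, inv_mem hv, v'⁻¹, inv_mem hv', by rw [map_inv, e], by rw [map_inv, e'], ?_⟩
      have e2 : v⁻¹⁻¹ * v'⁻¹ = (v⁻¹ * v')⁻¹ := by
        have h5 : v⁻¹⁻¹ * v'⁻¹ = v * (v⁻¹ * v')⁻¹ * v⁻¹ := by group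
        have h6 := Subgroup.mem_center_iff.mp (hc (hB (B.inv_mem hb))) v
        rw [h5, h6, mul_inv_cancel_right]
      rw [e2]
      exact B.inv_mem hb
  obtain ⟨v, hv, v', hv', e, e', hb⟩ := key _ hx
  rw [eq_of_mem_L hL0 hu hv e.symm, eq_of_mem_L hL1' hu' hv' (by rw [e', huu])]
  exact hb

end

end Cfsg.Agent.Lib.Helper35.StemD
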