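-- Central extensions of a triply transitive permutation group with perfect one- and two-point
-- stabilisers: the intersection of the kernel with the commutator subgroup lies in the canonical
-- lift of a point stabiliser, so a stem extension restricts to a stem extension of the point
-- stabiliser with the same kernel.
import Mathlib
import Cfsg.Agent.Lib.Helper35.Stem
import Cfsg.Agent.Lib.Helper35.StemC
import Cfsg.Agent.Lib.Helper35.StemD

set_option autoImplicit false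

namespace Cfsg.Agent.Lib.Helper35.StemE

open Subgroup Cfsg.Agent.Lib.Helper35.Stem Cfsg.Agent.Lib.Helper35.StemB
  Cfsg.Agent.Lib.Helper35.StemC Cfsg.Agent.Lib.Helper35.StemD
open scoped commutatorElement

section

variable {Γ Q Ω : Type*} [Group Γ] [Group Q] [MulAction Q Ω] (τ : Γ →* Q)

/-- The image of the canonical lift of a point stabiliser is the commutator subgroup of the
stabiliser in the image. -/
theorem map_L (β : Ω) :
    (L τ β).map τ = ⁅τ.range ⊓ MulAction.stabilizer Q β, τ.range ⊓ MulAction.stabilizer Q β⁆ := by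
  unfold L
  rw [Subgroup.map_commutator, Subgroup.map_comap_eq]

/-- Perfect point stabilisers lift into `L`. -/
theorem lift_of_perfect (β : Ω)
    (h : τ.range ⊓ MulAction.stabilizer Q β ≤
      ⁅τ.range ⊓ MulAction.stabilizer Q β, τ.range ⊓ MulAction.stabilizer Q β⁆) :
    ∀ x ∈ τ.range, x • β = β → ∃ u ∈ L τ β, τ u = x := by
  intro x hx hxβ
  have h1 : x ∈ (L τ β).map τ := by
    rw [map_L]
    exact h (Subgroup.mem_inf.mpr ⟨hx, MulAction.mem_stabilizer_iff.mpr hxβ⟩)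
  obtain ⟨u, hu, hux⟩ := Subgroup.mem_map.mp h1
  exact ⟨u, hu, hux⟩

/-- Perfect two-point stabilisers make the canonical lifts consistent. -/
theorem cons_of_perfect (D : Set Ω) (hL1 : ∀ β ∈ D, L τ β ⊓ τ.ker = ⊥)
    (hperf2 : ∀ β ∈ D, ∀ β' ∈ D, β ≠ β' →
      τ.range ⊓ (MulAction.stabilizer Q β ⊓ MulAction.stabilizer Q β') ≤
        ⁅τ.range ⊓ (MulAction.stabilizer Q β ⊓ MulAction.stabilizer Q β'),
          τ.range ⊓ (MulAction.stabilizer Q β ⊓ MulAction.stabilizer Q β')⁆) :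
    ∀ β ∈ D, ∀ β' ∈ D, ∀ u ∈ L τ β, ∀ u' ∈ L τ β', τ u = τ u' →
      u⁻¹ * u' ∈ (⊥ : Subgroup Γ) := by
  intro β hβ β' hβ' u hu u' hu' huu
  rw [Subgroup.mem_bot, inv_mul_eq_one]
  by_cases hbb : β = β'
  · subst hbb
    exact eq_of_mem_L (hL1 β hβ) hu hu' huu
  · set S2 : Subgroup Q := MulAction.stabilizer Q β ⊓ MulAction.stabilizer Q β' with hS2
    set M : Subgroup Γ := S2.comap τ with hM
    have hMβ : ⁅M, M⁆ ≤ L τ β := by
      unfold L
      exact Subgroup.commutator_mono (Subgroup.comap_mono inf_le_left)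
        (Subgroup.comap_mono inf_le_left)
    have hMβ' : ⁅M, M⁆ ≤ L τ β' := by
      unfold L
      exact Subgroup.commutator_mono (Subgroup.comap_mono inf_le_right)
        (Subgroup.comap_mono inf_le_right)
    have hx : τ u ∈ τ.range ⊓ S2 := by
      refine Subgroup.mem_inf.mpr ⟨⟨u, rfl⟩, Subgroup.mem_inf.mpr ⟨?_, ?_⟩⟩
      · exact MulAction.mem_stabilizer_iff.mpr (smul_of_mem_L hu)
      · rw [huu]; exact MulAction.mem_stabilizer_iff.mpr (smul_of_mem_L hu')
    have hx2 : τ u ∈ (⁅M, M⁆).map τ := by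
      rw [Subgroup.map_commutator, hM, Subgroup.map_comap_eq]
      exact hperf2 β hβ β' hβ' hbb hx
    obtain ⟨w, hw, hwx⟩ := Subgroup.mem_map.mp hx2
    have e1 : u = w := eq_of_mem_L (hL1 β hβ) hu (hMβ hw) hwx.symm
    have e2 : u' = w := eq_of_mem_L (hL1 β' hβ') hu' (hMβ' hw) (by rw [hwx, huu])
    rw [e1, e2]

end

section Quot

variable {Γ Q Ω : Type*} [Group Γ] [Group Q] [MulAction Q Ω] (τ : Γ →* Q)

/-- The kernel of a stem extension of a triply transitive group with perfect one- and two-point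
stabilisers lies in the canonical lift of a point stabiliser. -/
theorem ker_le_L (hc : τ.ker ≤ center Γ) (hd : τ.ker ≤ commutator Γ) (D : Set Ω)
    (hD : ∀ x ∈ τ.range, ∀ β ∈ D, x • β ∈ D)
    (hperf1 : ∀ β ∈ D, τ.range ⊓ MulAction.stabilizer Q β ≤
      ⁅τ.range ⊓ MulAction.stabilizer Q β, τ.range ⊓ MulAction.stabilizer Q β⁆)
    (hperf2 : ∀ β ∈ D, ∀ β' ∈ D, β ≠ β' →
      τ.range ⊓ (MulAction.stabilizer Q β ⊓ MulAction.stabilizer Q β') ≤
        ⁅τ.range ⊓ (MulAction.stabilizer Q β ⊓ MulAction.stabilizer Q β'),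
          τ.range ⊓ (MulAction.stabilizer Q β ⊓ MulAction.stabilizer Q β')⁆)
    (h2t : ∀ a ∈ D, ∀ b ∈ D, ∀ a' ∈ D, ∀ b' ∈ D, a ≠ b → a' ≠ b' →
      ∃ x ∈ τ.range, x • a = a' ∧ x • b = b')
    (h3t : ∀ a ∈ D, ∀ b ∈ D, ∀ c ∈ D, ∀ a' ∈ D, ∀ b' ∈ D, ∀ c' ∈ D, a ≠ b → a ≠ c → b ≠ c →
      a' ≠ b' → a' ≠ c' → b' ≠ c' → ∃ x ∈ τ.range, x • a = a' ∧ x • b = b' ∧ x • c = c')
    (β₀ β₁ β₂ β₃ : Ω) (h0 : β₀ ∈ D) (h1 : β₁ ∈ D) (h2 : β₂ ∈ D) (h3 : β₃ ∈ D)
    (h01 : β₀ ≠ β₁) (h02 : β₀ ≠ β₂) (h12 : β₁ ≠ β₂) (h03 : β₀ ≠ β₃) (h13 : β₁ ≠ β₃)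
    (h23 : β₂ ≠ β₃) :
    τ.ker ≤ L τ β₀ := by
  set B₀ : Subgroup Γ := L τ β₀ ⊓ τ.ker with hB₀
  have hB₀k : B₀ ≤ τ.ker := inf_le_right
  have hB₀c : B₀ ≤ center Γ := hB₀k.trans hc
  have hn : B₀.Normal := by
    constructor
    intro n hn g
    have := Subgroup.mem_center_iff.mp (hB₀c hn) g
    rw [this, mul_inv_cancel_right]
    exact hn
  set τ' : Γ ⧸ B₀ →* Q := QuotientGroup.lift B₀ τ hB₀k with hτ'
  have hmk : ∀ x : Γ, τ' (QuotientGroup.mk x) = τ x := fun x => rfl
  have hrange : τ'.range = τ.range := by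
    ext q
    constructor
    · rintro ⟨y, rfl⟩
      induction y using QuotientGroup.induction_on with
      | H x => exact ⟨x, rfl⟩
    · rintro ⟨x, rfl⟩
      exact ⟨QuotientGroup.mk x, rfl⟩
  have hc' : τ'.ker ≤ center (Γ ⧸ B₀) := by
    intro y hy
    induction y using QuotientGroup.induction_on with
    | H x =>
      have hx : x ∈ τ.ker := by
        rw [MonoidHom.mem_ker] at hy ⊢
        rwa [hmk] at hy
      rw [Subgroup.mem_center_iff]
      intro w
      induction w using QuotientGroup.induction_on with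
      | H v =>
        have := Subgroup.mem_center_iff.mp (hc hx) v
        rw [← QuotientGroup.mk_mul, ← QuotientGroup.mk_mul, this]
  have hcomap : ∀ S : Subgroup Q, S.comap τ' = (S.comap τ).map (QuotientGroup.mk' B₀) := by
    intro S
    ext y
    induction y using QuotientGroup.induction_on with
    | H x =>
      constructor
      · intro h
        exact Subgroup.mem_map.mpr ⟨x, Subgroup.mem_comap.mpr (by
          have := Subgroup.mem_comap.mp h; rwa [hmk] at this), rfl⟩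
      · intro h
        obtain ⟨v, hv, hvx⟩ := Subgroup.mem_map.mp h
        rw [Subgroup.mem_comap, ← hvx]
        show τ v ∈ S
        exact Subgroup.mem_comap.mp hv
  have hL : ∀ β : Ω, L τ' β = (L τ β).map (QuotientGroup.mk' B₀) := by
    intro β
    unfold L
    rw [Subgroup.map_commutator, hcomap]
  -- transitivity on `D`
  have htr : ∀ β ∈ D, ∃ v : Γ, τ v • β₀ = β := by
    intro β hβ
    have : ∃ b' ∈ D, β ≠ b' := by
      by_cases hb : β = β₀
      · exact ⟨β₁, h1, by rw [hb]; exact h01⟩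
      · exact ⟨β₀, h0, hb⟩
    obtain ⟨b', hb', hbb'⟩ := this
    obtain ⟨x, ⟨v, rfl⟩, hx1, -⟩ := h2t β₀ h0 β₁ h1 β hβ b' hb' h01 hbb'
    exact ⟨v, hx1⟩
  have hLk : ∀ β ∈ D, L τ β ⊓ τ.ker ≤ B₀ := by
    intro β hβ z hz
    obtain ⟨hz1, hz2⟩ := Subgroup.mem_inf.mp hz
    obtain ⟨v, hv⟩ := htr β hβ
    have h4 : v⁻¹ * z * v⁻¹⁻¹ ∈ L τ (τ v⁻¹ • β) := conj_mem_L v⁻¹ hz1
    have h5 : τ v⁻¹ • β = β₀ := by rw [map_inv, ← hv, inv_smul_smul]
    rw [h5] at h4
    have h6 : v⁻¹ * z * v⁻¹⁻¹ = z := by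
      have := Subgroup.mem_center_iff.mp (hc hz2) v⁻¹
      rw [this, mul_inv_cancel_right]
    rw [h6] at h4
    exact Subgroup.mem_inf.mpr ⟨h4, hz2⟩
  have hL1 : ∀ β ∈ D, L τ' β ⊓ τ'.ker = ⊥ := by
    intro β hβ
    rw [eq_bot_iff]
    intro y hy
    obtain ⟨hy1, hy2⟩ := Subgroup.mem_inf.mp hy
    rw [hL] at hy1
    obtain ⟨x, hx, rfl⟩ := Subgroup.mem_map.mp hy1
    have hxk : x ∈ τ.ker := by
      rw [MonoidHom.mem_ker] at hy2 ⊢
      exact hy2
    have hxB : x ∈ B₀ := hLk β hβ (Subgroup.mem_inf.mpr ⟨hx, hxk⟩)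
    rw [Subgroup.mem_bot, QuotientGroup.mk'_apply, QuotientGroup.eq_one_iff]
    exact hxB
  have hL2 : ∀ β ∈ D, ∀ x ∈ τ'.range, x • β = β → ∃ u ∈ L τ' β, τ' u = x := by
    intro β hβ
    apply lift_of_perfect
    rw [hrange]
    exact hperf1 β hβ
  have hcons := cons_of_perfect τ' D hL1 (by rw [hrange]; exact hperf2)
  obtain ⟨Γ₁, hΓ1, hΓ2⟩ := exists_complement_mod (B := (⊥ : Subgroup (Γ ⧸ B₀))) hc' bot_le D hL1 hL2
    hcons (by rw [hrange]; exact hD) (by rw [hrange]; exact h2t) (by rw [hrange]; exact h3t)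
    β₀ β₁ β₂ β₃ h0 h1 h2 h3 h01 h02 h12 h03 h13 h23
  have h9 := ker_le_of_complement_mod hc' Γ₁ hΓ1 hΓ2
  intro z hz
  have hzc : (QuotientGroup.mk' B₀) z ∈ commutator (Γ ⧸ B₀) := by
    have h10 : (commutator Γ).map (QuotientGroup.mk' B₀) ≤ commutator (Γ ⧸ B₀) := by
      rw [commutator_def, commutator_def, Subgroup.map_commutator]
      exact Subgroup.commutator_mono le_top le_top
    exact h10 (Subgroup.mem_map.mpr ⟨z, hd hz, rfl⟩)
  have hzk : (QuotientGroup.mk' B₀) z ∈ τ'.ker := by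
    rw [MonoidHom.mem_ker]
    exact MonoidHom.mem_ker.mp hz
  have h11 := h9 (Subgroup.mem_inf.mpr ⟨hzc, hzk⟩)
  rw [Subgroup.mem_bot, QuotientGroup.mk'_apply, QuotientGroup.eq_one_iff] at h11
  exact (Subgroup.mem_inf.mp h11).1

end Quot

section Restrict

variable {Γ Q Ω : Type*} [Group Γ] [Group Q] [MulAction Q Ω] (τ : Γ →* Q)

/-- If the kernel lies in the canonical lift `L` of a perfect point stabiliser, then `L` is
perfect and `τ` restricted to `L` is again a stem extension (onto the point stabiliser), with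
the same kernel. -/
theorem restrict (hc : τ.ker ≤ center Γ) (β₀ : Ω) (hk : τ.ker ≤ L τ β₀)
    (hperf : τ.range ⊓ MulAction.stabilizer Q β₀ ≤
      ⁅τ.range ⊓ MulAction.stabilizer Q β₀, τ.range ⊓ MulAction.stabilizer Q β₀⁆) :
    (τ.comp (L τ β₀).subtype).range = τ.range ⊓ MulAction.stabilizer Q β₀ ∧
    (τ.comp (L τ β₀).subtype).ker ≤ center ↥(L τ β₀) ∧
    (τ.comp (L τ β₀).subtype).ker ≤ commutator ↥(L τ β₀) ∧
    Nonempty ((τ.comp (L τ β₀).subtype).ker ≃* τ.ker) := by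
  have hperf' : ⁅τ.range ⊓ MulAction.stabilizer Q β₀, τ.range ⊓ MulAction.stabilizer Q β₀⁆ =
      τ.range ⊓ MulAction.stabilizer Q β₀ :=
    le_antisymm (Subgroup.commutator_le_self _) hperf
  have hmap : (L τ β₀).map τ = τ.range ⊓ MulAction.stabilizer Q β₀ := by
    rw [map_L, hperf']
  have hrange : (τ.comp (L τ β₀).subtype).range = τ.range ⊓ MulAction.stabilizer Q β₀ := by
    rw [MonoidHom.range_comp, Subgroup.range_subtype, hmap]
  -- `L` is the whole preimage of the stabiliser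
  have hM : (MulAction.stabilizer Q β₀).comap τ ≤ L τ β₀ := by
    intro g hg
    have h1 : τ g ∈ (L τ β₀).map τ := by
      rw [hmap]
      exact Subgroup.mem_inf.mpr ⟨⟨g, rfl⟩, Subgroup.mem_comap.mp hg⟩
    obtain ⟨u, hu, hug⟩ := Subgroup.mem_map.mp h1
    have h2 : u⁻¹ * g ∈ τ.ker := by
      rw [MonoidHom.mem_ker, map_mul, map_inv, hug, inv_mul_cancel]
    have h3 : g = u * (u⁻¹ * g) := by group
    rw [h3]
    exact (L τ β₀).mul_mem hu (hk h2)
  have hLL : ⁅L τ β₀, L τ β₀⁆ = L τ β₀ := by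
    apply le_antisymm (Subgroup.commutator_le_self _)
    conv_lhs => unfold L
    exact Subgroup.commutator_mono hM hM
  have hperfL : commutator ↥(L τ β₀) = ⊤ := by
    have h1 : (commutator ↥(L τ β₀)).map (L τ β₀).subtype = (⊤ : Subgroup ↥(L τ β₀)).map
        (L τ β₀).subtype := by
      rw [Subgroup.map_subtype_commutator, hLL, ← MonoidHom.range_eq_map, Subgroup.range_subtype]
    exact Subgroup.map_injective (Subgroup.subtype_injective _) h1
  refine ⟨hrange, ?_, ?_, ?_⟩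
  · intro x hx
    rw [Subgroup.mem_center_iff]
    intro y
    have hx' : (x : Γ) ∈ τ.ker := by
      rw [MonoidHom.mem_ker] at hx ⊢
      exact hx
    have := Subgroup.mem_center_iff.mp (hc hx') (y : Γ)
    exact Subtype.ext this
  · rw [hperfL]; exact le_top
  · let f : (τ.comp (L τ β₀).subtype).ker →* τ.ker :=
      { toFun := fun x => ⟨((x : ↥(L τ β₀)) : Γ), by
          have := x.2
          rw [MonoidHom.mem_ker] at this ⊢
          exact this⟩
        map_one' := rfl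
        map_mul' := fun x y => rfl }
    refine ⟨MulEquiv.ofBijective f ⟨?_, ?_⟩⟩
    · intro x y hxy
      have h1 : ((x : ↥(L τ β₀)) : Γ) = ((y : ↥(L τ β₀)) : Γ) :=
        congrArg (fun w : ↥τ.ker => (w : Γ)) hxy
      exact Subtype.ext (Subtype.ext h1)
    · intro z
      refine ⟨⟨⟨(z : Γ), hk z.2⟩, ?_⟩, ?_⟩
      · rw [MonoidHom.mem_ker]
        exact MonoidHom.mem_ker.mp z.2
      · exact Subtype.ext rfl

end Restrict

section RangeIso

variable {Γ Q G : Type*} [Group Γ] [Group Q] [Group G]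

/-- A homomorphism with central kernel inside the commutator subgroup, composed with an
isomorphism from its range, is a stem extension with the same kernel. -/
theorem stem_of_range_iso (σ₀ : Γ →* Q) (hc : σ₀.ker ≤ center Γ) (hd : σ₀.ker ≤ commutator Γ)
    (φ : ↥σ₀.range ≃* G) :
    Cfsg.IsStemExtension (φ.toMonoidHom.comp σ₀.rangeRestrict) ∧
      (φ.toMonoidHom.comp σ₀.rangeRestrict).ker = σ₀.ker := by
  have hker : (φ.toMonoidHom.comp σ₀.rangeRestrict).ker = σ₀.ker := by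
    ext x
    rw [MonoidHom.mem_ker, MonoidHom.mem_ker, MonoidHom.comp_apply]
    constructor
    · intro h
      have h1 : σ₀.rangeRestrict x = 1 := by
        apply φ.injective
        rw [map_one]
        exact h
      have := congrArg Subtype.val h1
      simpa using this
    · intro h
      have h1 : σ₀.rangeRestrict x = 1 := Subtype.ext (by simpa using h)
      rw [h1]
      exact map_one _
  refine ⟨⟨?_, ?_, ?_⟩, hker⟩
  · exact φ.surjective.comp σ₀.rangeRestrict_surjective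
  · rw [hker]; exact hc
  · rw [hker]; exact hd

end RangeIso

end Cfsg.Agent.Lib.Helper35.StemE
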