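-- Alternating groups on subsets: `B p` = even permutations fixing every point outside `p`;
-- perfectness, triple transitivity, isomorphism with `alternatingGroup (Fin m)`, and the
-- reduction of stem extensions of `A_(m+1)` to stem extensions of `A_m` (same kernel).
import Mathlib
import Cfsg.Prelude.Def_KGroupFacts
import Cfsg.Agent.Lib.Helper35.StemE

set_option autoImplicit false

namespace Cfsg.Agent.Lib.Helper35.AltSub

open Subgroup Cfsg.Agent.Lib.Helper35.StemC Cfsg.Agent.Lib.Helper35.StemE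
open scoped commutatorElement

universe u

section

variable {α : Type*} [Fintype α] [DecidableEq α]

/-- Even permutations fixing every point outside `p`. -/
def B (p : α → Prop) : Subgroup (Equiv.Perm α) where
  carrier := {g | Equiv.Perm.sign g = 1 ∧ ∀ x, ¬ p x → g x = x}
  mul_mem' := by
    rintro a b ⟨ha, ha'⟩ ⟨hb, hb'⟩
    refine ⟨by rw [map_mul, ha, hb, mul_one], fun x hx => ?_⟩
    rw [Equiv.Perm.mul_apply, hb' x hx, ha' x hx]
  one_mem' := ⟨map_one _, fun _ _ => rfl⟩
  inv_mem' := by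
    rintro a ⟨ha, ha'⟩
    refine ⟨by rw [map_inv, ha, inv_one], fun x hx => ?_⟩
    rw [Equiv.Perm.inv_eq_iff_eq]
    exact (ha' x hx).symm

theorem mem_B {p : α → Prop} {g : Equiv.Perm α} :
    g ∈ B p ↔ Equiv.Perm.sign g = 1 ∧ ∀ x, ¬ p x → g x = x := Iff.rfl

theorem alt_inf_stab (b : α) :
    alternatingGroup α ⊓ MulAction.stabilizer (Equiv.Perm α) b = B (fun x => x ≠ b) := by
  ext g
  rw [Subgroup.mem_inf, Equiv.Perm.mem_alternatingGroup, MulAction.mem_stabilizer_iff, mem_B]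
  constructor
  · rintro ⟨h1, h2⟩
    refine ⟨h1, fun x hx => ?_⟩
    have : x = b := not_not.mp hx
    rw [this]
    exact h2
  · rintro ⟨h1, h2⟩
    exact ⟨h1, h2 b (fun h => h rfl)⟩

theorem alt_inf_stab2 (b b' : α) :
    alternatingGroup α ⊓ (MulAction.stabilizer (Equiv.Perm α) b ⊓
      MulAction.stabilizer (Equiv.Perm α) b') = B (fun x => x ≠ b ∧ x ≠ b') := by
  ext g
  rw [Subgroup.mem_inf, Subgroup.mem_inf, Equiv.Perm.mem_alternatingGroup,
    MulAction.mem_stabilizer_iff, MulAction.mem_stabilizer_iff, mem_B]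
  constructor
  · rintro ⟨h1, h2, h3⟩
    refine ⟨h1, fun x hx => ?_⟩
    by_cases hxb : x = b
    · rw [hxb]; exact h2
    · have : x = b' := by
        by_contra h
        exact hx ⟨hxb, h⟩
      rw [this]; exact h3
  · rintro ⟨h1, h2⟩
    exact ⟨h1, h2 b (fun h => h.1 rfl), h2 b' (fun h => h.2 rfl)⟩

theorem B_eq_map (p : α → Prop) [DecidablePred p] :
    B p = (alternatingGroup (Subtype p)).map (Equiv.Perm.ofSubtype) := by
  ext g
  constructor
  · rintro ⟨hs, hf⟩
    have h₁ : ∀ x, p (g x) ↔ p x := by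
      intro x
      constructor
      · intro h
        by_contra hx
        rw [hf x hx] at h
        exact hx h
      · intro h
        by_contra hgx
        have h1 : g (g x) = g x := hf (g x) hgx
        have h2 : g x = x := g.injective h1
        rw [h2] at hgx
        exact hgx h
    have h₂ : ∀ x, g x ≠ x → p x := fun x hx => by
      by_contra hp
      exact hx (hf x hp)
    refine Subgroup.mem_map.mpr ⟨g.subtypePerm h₁, ?_, Equiv.Perm.ofSubtype_subtypePerm h₁ h₂⟩
    rw [Equiv.Perm.mem_alternatingGroup, Equiv.Perm.sign_subtypePerm g h₁ h₂]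
    exact hs
  · intro h
    obtain ⟨e, he, rfl⟩ := Subgroup.mem_map.mp h
    refine ⟨?_, fun x hx => Equiv.Perm.ofSubtype_apply_of_not_mem e hx⟩
    rw [Equiv.Perm.sign_ofSubtype]
    exact Equiv.Perm.mem_alternatingGroup.mp he

/-- `B p` is an alternating group of degree the size of `p`. -/
noncomputable def altIso (p : α → Prop) [DecidablePred p] (m : ℕ)
    (hm : Fintype.card (Subtype p) = m) : ↥(B p) ≃* ↥(alternatingGroup (Fin m)) :=
  (MulEquiv.subgroupCongr (B_eq_map p)).trans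
    (((alternatingGroup (Subtype p)).equivMapOfInjective _
      Equiv.Perm.ofSubtype_injective).symm.trans
      (Equiv.altCongrHom (Fintype.equivFinOfCardEq hm)))

theorem perfect (p : α → Prop) [DecidablePred p] (h5 : 5 ≤ Fintype.card (Subtype p)) :
    ⁅B p, B p⁆ = B p := by
  rw [B_eq_map, ← Subgroup.map_commutator,
    commutator_alternatingGroup_eq_self (by rwa [Nat.card_eq_fintype_card])]

theorem alt_trans3 (h5 : 5 ≤ Fintype.card α)
    (a b c a' b' c' : α)
    (hab : a ≠ b) (hac : a ≠ c) (hbc : b ≠ c) (hab' : a' ≠ b') (hac' : a' ≠ c') (hbc' : b' ≠ c') :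
    ∃ x ∈ alternatingGroup α, x a = a' ∧ x b = b' ∧ x c = c' := by
  have hcard : Nat.card α = Fintype.card α := Nat.card_eq_fintype_card
  have := alternatingGroup.isMultiplyPretransitive α
  have h3 : MulAction.IsMultiplyPretransitive (alternatingGroup α) α 3 :=
    MulAction.isMultiplyPretransitive_of_le (n := Nat.card α - 2) (by omega)
      (Nat.sub_le _ _)
  let x : Fin 3 ↪ α := ⟨![a, b, c], by
    intro i j h
    fin_cases i <;> fin_cases j <;> simp_all⟩
  let y : Fin 3 ↪ α := ⟨![a', b', c'], by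
    intro i j h
    fin_cases i <;> fin_cases j <;> simp_all⟩
  obtain ⟨g, hg⟩ := MulAction.exists_smul_eq (alternatingGroup α) x y
  have hg0 : (g : Equiv.Perm α) a = a' := by
    have := DFunLike.congr_fun hg 0
    rw [Function.Embedding.smul_apply] at this
    exact this
  have hg1 : (g : Equiv.Perm α) b = b' := by
    have := DFunLike.congr_fun hg 1
    rw [Function.Embedding.smul_apply] at this
    exact this
  have hg2 : (g : Equiv.Perm α) c = c' := by
    have := DFunLike.congr_fun hg 2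
    rw [Function.Embedding.smul_apply] at this
    exact this
  exact ⟨(g : Equiv.Perm α), g.2, hg0, hg1, hg2⟩

theorem alt_trans2 (h5 : 5 ≤ Fintype.card α)
    (a b a' b' : α) (hab : a ≠ b) (hab' : a' ≠ b') :
    ∃ x ∈ alternatingGroup α, x a = a' ∧ x b = b' := by
  have hcard : Nat.card α = Fintype.card α := Nat.card_eq_fintype_card
  have := alternatingGroup.isMultiplyPretransitive α
  have h3 : MulAction.IsMultiplyPretransitive (alternatingGroup α) α 2 :=
    MulAction.isMultiplyPretransitive_of_le (n := Nat.card α - 2) (by omega)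
      (Nat.sub_le _ _)
  let x : Fin 2 ↪ α := ⟨![a, b], by
    intro i j h
    fin_cases i <;> fin_cases j <;> simp_all⟩
  let y : Fin 2 ↪ α := ⟨![a', b'], by
    intro i j h
    fin_cases i <;> fin_cases j <;> simp_all⟩
  obtain ⟨g, hg⟩ := MulAction.exists_smul_eq (alternatingGroup α) x y
  have hg0 : (g : Equiv.Perm α) a = a' := by
    have := DFunLike.congr_fun hg 0
    rw [Function.Embedding.smul_apply] at this
    exact this
  have hg1 : (g : Equiv.Perm α) b = b' := by
    have := DFunLike.congr_fun hg 1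
    rw [Function.Embedding.smul_apply] at this
    exact this
  exact ⟨(g : Equiv.Perm α), g.2, hg0, hg1⟩

theorem card_ne (b : α) : Fintype.card {x : α // x ≠ b} = Fintype.card α - 1 := by
  rw [Fintype.card_subtype]
  have : (Finset.univ.filter (fun x : α => x ≠ b)) = Finset.univ.erase b := by
    ext x; simp
  rw [this, Finset.card_erase_of_mem (Finset.mem_univ b), Finset.card_univ]

theorem card_ne2 {b b' : α} (h : b ≠ b') :
    Fintype.card {x : α // x ≠ b ∧ x ≠ b'} = Fintype.card α - 2 := by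
  rw [Fintype.card_subtype]
  have : (Finset.univ.filter (fun x : α => x ≠ b ∧ x ≠ b')) = (Finset.univ.erase b).erase b' := by
    ext x; simp [and_comm]
  rw [this, Finset.card_erase_of_mem, Finset.card_erase_of_mem (Finset.mem_univ b),
    Finset.card_univ]
  · rfl
  · simp [h.symm]

end

/-- A stem extension of `A_(m+1)` (`m ≥ 6`) restricts to a stem extension of `A_m` with the
same kernel. -/
theorem step (m : ℕ) (hm : 6 ≤ m) {Γ : Type u} [Group Γ] [Finite Γ]
    (σ : Γ →* alternatingGroup (Fin (m + 1))) (hσ : Cfsg.IsStemExtension σ) :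
    ∃ (Γ' : Type u) (_ : Group Γ') (_ : Finite Γ') (σ' : Γ' →* alternatingGroup (Fin m)),
      Cfsg.IsStemExtension σ' ∧ Nonempty (σ'.ker ≃* σ.ker) := by
  obtain ⟨hs, hc, hd⟩ := hσ
  set τ : Γ →* Equiv.Perm (Fin (m + 1)) := incl σ with hτ
  have hker : τ.ker = σ.ker := incl_ker σ
  have hrange : τ.range = alternatingGroup (Fin (m + 1)) := incl_range σ hs
  have hcτ : τ.ker ≤ center Γ := by rw [hker]; exact hc
  have hdτ : τ.ker ≤ commutator Γ := by rw [hker]; exact hd
  have hcardα : Fintype.card (Fin (m + 1)) = m + 1 := Fintype.card_fin _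
  have hcard1 : ∀ b : Fin (m + 1), Fintype.card {x : Fin (m + 1) // x ≠ b} = m := by
    intro b
    rw [card_ne, hcardα]
    rfl
  have hcard2 : ∀ b b' : Fin (m + 1), b ≠ b' →
      Fintype.card {x : Fin (m + 1) // x ≠ b ∧ x ≠ b'} = m - 1 := by
    intro b b' h
    rw [card_ne2 h, hcardα]
    rfl
  have hperf1 : ∀ β : Fin (m + 1), τ.range ⊓ MulAction.stabilizer (Equiv.Perm (Fin (m + 1))) β ≤
      ⁅τ.range ⊓ MulAction.stabilizer (Equiv.Perm (Fin (m + 1))) β,
        τ.range ⊓ MulAction.stabilizer (Equiv.Perm (Fin (m + 1))) β⁆ := by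
    intro β
    rw [hrange, alt_inf_stab, perfect _ (by rw [hcard1]; omega)]
  have hperf2 : ∀ β β' : Fin (m + 1), β ≠ β' →
      τ.range ⊓ (MulAction.stabilizer (Equiv.Perm (Fin (m + 1))) β ⊓
        MulAction.stabilizer (Equiv.Perm (Fin (m + 1))) β') ≤
      ⁅τ.range ⊓ (MulAction.stabilizer (Equiv.Perm (Fin (m + 1))) β ⊓
        MulAction.stabilizer (Equiv.Perm (Fin (m + 1))) β'),
        τ.range ⊓ (MulAction.stabilizer (Equiv.Perm (Fin (m + 1))) β ⊓
        MulAction.stabilizer (Equiv.Perm (Fin (m + 1))) β')⁆ := by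
    intro β β' h
    rw [hrange, alt_inf_stab2, perfect _ (by rw [hcard2 β β' h]; omega)]
  have h5 : 5 ≤ Fintype.card (Fin (m + 1)) := by rw [hcardα]; omega
  have h2t : ∀ a ∈ (Set.univ : Set (Fin (m + 1))), ∀ b ∈ (Set.univ : Set (Fin (m + 1))),
      ∀ a' ∈ (Set.univ : Set (Fin (m + 1))), ∀ b' ∈ (Set.univ : Set (Fin (m + 1))),
      a ≠ b → a' ≠ b' → ∃ x ∈ τ.range, x • a = a' ∧ x • b = b' := by
    intro a _ b _ a' _ b' _ hab hab'
    rw [hrange]
    exact alt_trans2 h5 a b a' b' hab hab'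
  have h3t : ∀ a ∈ (Set.univ : Set (Fin (m + 1))), ∀ b ∈ (Set.univ : Set (Fin (m + 1))),
      ∀ c ∈ (Set.univ : Set (Fin (m + 1))),
      ∀ a' ∈ (Set.univ : Set (Fin (m + 1))), ∀ b' ∈ (Set.univ : Set (Fin (m + 1))),
      ∀ c' ∈ (Set.univ : Set (Fin (m + 1))),
      a ≠ b → a ≠ c → b ≠ c → a' ≠ b' → a' ≠ c' → b' ≠ c' →
      ∃ x ∈ τ.range, x • a = a' ∧ x • b = b' ∧ x • c = c' := by
    intro a _ b _ c _ a' _ b' _ c' _ hab hac hbc hab' hac' hbc'
    rw [hrange]
    exact alt_trans3 h5 a b c a' b' c' hab hac hbc hab' hac' hbc'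
  have hne : ∀ i j : ℕ, ∀ (hi : i < m + 1) (hj : j < m + 1), i ≠ j →
      (⟨i, hi⟩ : Fin (m + 1)) ≠ ⟨j, hj⟩ := by
    intro i j hi hj hij h
    exact hij (congrArg Fin.val h)
  have p0 : 0 < m + 1 := by omega
  have p1 : 1 < m + 1 := by omega
  have p2 : 2 < m + 1 := by omega
  have p3 : 3 < m + 1 := by omega
  have hk : τ.ker ≤ L τ (⟨0, p0⟩ : Fin (m + 1)) :=
    ker_le_L τ hcτ hdτ Set.univ (fun _ _ _ _ => Set.mem_univ _)
      (fun β _ => hperf1 β) (fun β _ β' _ h => hperf2 β β' h) h2t h3t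
      (⟨0, p0⟩ : Fin (m + 1)) (⟨1, p1⟩ : Fin (m + 1)) (⟨2, p2⟩ : Fin (m + 1))
      (⟨3, p3⟩ : Fin (m + 1))
      (Set.mem_univ _) (Set.mem_univ _) (Set.mem_univ _) (Set.mem_univ _)
      (hne 0 1 p0 p1 (by omega)) (hne 0 2 p0 p2 (by omega))
      (hne 1 2 p1 p2 (by omega)) (hne 0 3 p0 p3 (by omega))
      (hne 1 3 p1 p3 (by omega)) (hne 2 3 p2 p3 (by omega))
  obtain ⟨hr, hc', hd', ⟨ek⟩⟩ := restrict τ hcτ (⟨0, p0⟩ : Fin (m + 1)) hk
    (hperf1 (⟨0, p0⟩ : Fin (m + 1)))
  have hr' : (τ.comp (L τ (⟨0, p0⟩ : Fin (m + 1))).subtype).range =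
      B (fun x : Fin (m + 1) => x ≠ (⟨0, p0⟩ : Fin (m + 1))) := by
    rw [hr, hrange, alt_inf_stab]
  let φ : ↥(τ.comp (L τ (⟨0, p0⟩ : Fin (m + 1))).subtype).range ≃* ↥(alternatingGroup (Fin m)) :=
    (MulEquiv.subgroupCongr hr').trans
      (altIso (fun x : Fin (m + 1) => x ≠ (⟨0, p0⟩ : Fin (m + 1))) m (hcard1 _))
  obtain ⟨hstem, hkeq⟩ := stem_of_range_iso (τ.comp (L τ (⟨0, p0⟩ : Fin (m + 1))).subtype) hc' hd' φ
  refine ⟨↥(L τ (⟨0, p0⟩ : Fin (m + 1))), inferInstance, inferInstance, _, hstem, ⟨?_⟩⟩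
  exact (MulEquiv.subgroupCongr hkeq).trans (ek.trans (MulEquiv.subgroupCongr hker))


end Cfsg.Agent.Lib.Helper35.AltSub
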