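-- Bound for the Schur multiplier of the alternating groups `A_n`, `n ≥ 4`, `n ≠ 6, 7`: the
-- kernel of a finite stem extension has order dividing `2`. Base cases `n = 4, 5` by transfer
-- to a Klein four-group, `n = 8` by restriction to `A_7` (dihedral Sylow 2-subgroup) after
-- killing the 3-part inside `A_8`, and the general case by restriction to a point stabiliser.
import Mathlib
import Cfsg.Prelude.Def_KGroupFacts
import Cfsg.Agent.Lib.Helper35.AltSub
import Cfsg.Agent.Lib.Helper66.PrimeMult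

set_option autoImplicit false

namespace Cfsg.Agent.Lib.Helper35.AltMult

open Subgroup Cfsg.Agent.Lib.Helper35 Cfsg.Agent.Lib.Helper66
open scoped commutatorElement

universe u

section General

variable {Γ G : Type*} [Group Γ] [Group G] (σ : Γ →* G)

/-- Two commuting elements `x, y` with `x ^ k = 1`: the commutator subgroup of the preimage of
`⟨x, y⟩` in a central extension has order dividing `k`. -/
theorem pair_card_dvd (hs : Function.Surjective σ) (hc : σ.ker ≤ center Γ) {x y : G}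
    (hxy : x * y = y * x) (k : ℕ) (hx : x ^ k = 1) :
    Nat.card ↥(⁅(closure ({x, y} : Set G)).comap σ, (closure ({x, y} : Set G)).comap σ⁆ ⊓
      σ.ker) ∣ k := by
  obtain ⟨X, rfl⟩ := hs x
  obtain ⟨Y, rfl⟩ := hs y
  have himg : σ '' ({X, Y} : Set Γ) = {σ X, σ Y} := Set.image_pair σ X Y
  rw [← himg, StemLocal.commutator_comap_closure σ hc]
  set w : Γ := ⁅X, Y⁆ with hw
  have hwk : w ∈ σ.ker := by
    rw [MonoidHom.mem_ker, hw, map_commutatorElement, commutatorElement_eq_one_iff_mul_comm]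
    exact hxy
  have hwc : ∀ g : Γ, g * w = w * g := fun g => Subgroup.mem_center_iff.mp (hc hwk) g
  have hzc : ∀ v ∈ zpowers w, ∀ g : Γ, g * v = v * g := by
    intro v hv g
    have : v ∈ center Γ := (zpowers_le.mpr (hc hwk)) hv
    exact Subgroup.mem_center_iff.mp this g
  have hle : ⁅closure ({X, Y} : Set Γ), closure ({X, Y} : Set Γ)⁆ ≤ zpowers w := by
    apply StemLocal.commutator_closure_le
    · intro a _ v hv
      have h1 := hzc v hv a
      have h2 := hzc v hv a⁻¹
      constructor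
      · rw [h1, mul_inv_cancel_right]; exact hv
      · rw [h2, inv_mul_cancel_right]; exact hv
    · intro a ha b hb
      rcases ha with rfl | rfl <;> rcases hb with rfl | rfl
      · rw [commutatorElement_self]; exact one_mem _
      · exact mem_zpowers w
      · rw [← commutatorElement_inv]; exact inv_mem (mem_zpowers w)
      · rw [commutatorElement_self]; exact one_mem _
  have hpow : w ^ k = 1 := by
    have h1 : ⁅X ^ k, Y⁆ = w ^ k := StemB.commutator_pow_left (hwc X) k
    rw [← h1]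
    have h2 : X ^ k ∈ center Γ := hc (by rw [MonoidHom.mem_ker, map_pow, hx])
    rw [commutatorElement_eq_one_iff_mul_comm]
    exact (Subgroup.mem_center_iff.mp h2 Y).symm
  have hcard : Nat.card (zpowers w) ∣ k := by
    rw [Nat.card_zpowers]; exact orderOf_dvd_of_pow_eq_one hpow
  exact dvd_trans (Subgroup.card_dvd_of_le (inf_le_left.trans hle)) hcard

/-- If `c` commutes with `x` and `y`, the preimage of `⟨c, ⁅x, y⁆⟩` in a central extension is
commutative. -/
theorem pair_comm_bot (hs : Function.Surjective σ) (hc : σ.ker ≤ center Γ) {c x y : G}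
    (hcx : c * x = x * c) (hcy : c * y = y * c) :
    ⁅(closure ({c, ⁅x, y⁆} : Set G)).comap σ, (closure ({c, ⁅x, y⁆} : Set G)).comap σ⁆ = ⊥ := by
  obtain ⟨C, rfl⟩ := hs c
  obtain ⟨X, rfl⟩ := hs x
  obtain ⟨Y, rfl⟩ := hs y
  have himg : σ '' ({C, ⁅X, Y⁆} : Set Γ) = {σ C, ⁅σ X, σ Y⁆} := by
    rw [Set.image_pair, map_commutatorElement]
  rw [← himg, StemLocal.commutator_comap_closure σ hc]
  have h1 : C * ⁅X, Y⁆ * C⁻¹ = ⁅C * X * C⁻¹, C * Y * C⁻¹⁆ := by
    simp only [commutatorElement_def]; group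
  have h2 : ⁅C * X * C⁻¹, C * Y * C⁻¹⁆ = ⁅X, Y⁆ := by
    apply Stem.commutator_eq_of_map_eq σ hc
    · rw [map_mul, map_mul, map_inv, hcx, mul_inv_cancel_right]
    · rw [map_mul, map_mul, map_inv, hcy, mul_inv_cancel_right]
  have h3 : C * ⁅X, Y⁆ = ⁅X, Y⁆ * C := by
    rw [h2] at h1
    calc C * ⁅X, Y⁆ = C * ⁅X, Y⁆ * C⁻¹ * C := by group
      _ = ⁅X, Y⁆ * C := by rw [h1]
  rw [eq_bot_iff]
  apply StemLocal.commutator_closure_le
  · intro a _ v hv
    rw [mem_bot] at hv
    subst hv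
    simp
  · intro a ha b hb
    rw [mem_bot, commutatorElement_eq_one_iff_mul_comm]
    rcases ha with rfl | rfl <;> rcases hb with rfl | rfl
    · rfl
    · exact h3
    · exact h3.symm
    · rfl

/-- Two commuting elements of prime order `p` generating different subgroups generate a
subgroup of order `p ^ 2`, of index prime to `p` when `p ^ 3` does not divide the group order. -/
theorem index_coprime_of_pair [Finite G] (p : ℕ) (hp : p.Prime) {c c' : G}
    (hc : orderOf c = p) (hc' : orderOf c' = p) (hcomm : c * c' = c' * c)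
    (hne : ∀ i < p, c' ≠ c ^ i) {m : ℕ} (hG : Nat.card G = p ^ 2 * m) (hm : ¬ p ∣ m) :
    ((closure ({c, c'} : Set G)).index).Coprime p := by
  have hU : closure ({c, c'} : Set G) = zpowers c ⊔ zpowers c' := by
    rw [zpowers_eq_closure, zpowers_eq_closure, ← Subgroup.closure_union]
    rfl
  have hcz : ∀ k : ℤ, c' * c ^ k * c'⁻¹ = c ^ k := fun k => by
    rw [(Commute.zpow_right (show Commute c' c from hcomm.symm) k).eq, mul_inv_cancel_right]
  have hcz' : ∀ k : ℤ, c'⁻¹ * c ^ k * c' = c ^ k := fun k => by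
    have := hcz k
    calc c'⁻¹ * c ^ k * c' = c'⁻¹ * (c' * c ^ k * c'⁻¹) * c' := by rw [this]
      _ = c ^ k := by group
  have hnorm : zpowers c' ≤ normalizer (zpowers c : Set G) := by
    rw [zpowers_le, mem_normalizer_iff]
    intro h
    constructor
    · intro hh
      obtain ⟨k, rfl⟩ := mem_zpowers_iff.mp hh
      rw [hcz]
      exact zpow_mem_zpowers c k
    · intro hh
      obtain ⟨k, hk⟩ := mem_zpowers_iff.mp hh
      have e1 : h = c'⁻¹ * (c' * h * c'⁻¹) * c' := by group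
      rw [e1, ← hk, hcz']
      exact zpow_mem_zpowers c k
  have hcardK : Nat.card (zpowers c') = p := by rw [Nat.card_zpowers, hc']
  have hcardH : Nat.card (zpowers c) = p := by rw [Nat.card_zpowers, hc]
  have hbot : zpowers c ⊓ zpowers c' = ⊥ := by
    have hdvd : Nat.card ↥(zpowers c ⊓ zpowers c') ∣ p :=
      hcardK ▸ Subgroup.card_dvd_of_le inf_le_right
    rcases (Nat.dvd_prime hp).mp hdvd with h1 | h1
    · exact Subgroup.card_eq_one.mp h1
    · exfalso
      have heq : zpowers c ⊓ zpowers c' = zpowers c' :=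
        Subgroup.eq_of_le_of_card_ge inf_le_right (by rw [h1, hcardK])
      have hle : zpowers c' ≤ zpowers c := heq ▸ inf_le_left
      have hmem : c' ∈ zpowers c := hle (mem_zpowers c')
      obtain ⟨k, hk⟩ := mem_zpowers_iff.mp hmem
      have hpz : (0 : ℤ) < p := by exact_mod_cast hp.pos
      have h2 : c ^ (k % (p : ℤ)) = c ^ k := by rw [← hc]; exact zpow_mod_orderOf c k
      have h4 := Int.emod_nonneg k hpz.ne'
      have h3 : (k % (p : ℤ)).toNat < p := by
        have := Int.emod_lt_of_pos k hpz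
        omega
      apply hne _ h3
      rw [← hk, ← h2, ← zpow_natCast, Int.toNat_of_nonneg h4]
  have hcardU : Nat.card ↥(closure ({c, c'} : Set G)) = p * p := by
    rw [hU, StemB.card_sup_of_le_normalizer hnorm hbot, hcardH, hcardK]
  have hidx : (closure ({c, c'} : Set G)).index = m := by
    have h1 := Subgroup.card_mul_index (closure ({c, c'} : Set G))
    rw [hcardU, hG, pow_two] at h1
    exact Nat.eq_of_mul_eq_mul_left (Nat.mul_pos hp.pos hp.pos) h1
  rw [hidx]
  exact ((Nat.Prime.coprime_iff_not_dvd hp).mpr hm).symm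

/-- A prime `l` whose square does not divide the order of `G`: a Sylow `l`-subgroup is cyclic,
so its preimage in a central extension is commutative. -/
theorem local_of_sq_not_dvd [Finite G] (hs : Function.Surjective σ) (hc : σ.ker ≤ center Γ)
    (l : ℕ) (hl : l.Prime) (h : ¬ l ^ 2 ∣ Nat.card G) :
    ∃ U : Subgroup G, (U.index).Coprime l ∧
      ∀ z ∈ ⁅U.comap σ, U.comap σ⁆ ⊓ σ.ker, orderOf z ≠ l := by
  have : Fact l.Prime := ⟨hl⟩
  obtain ⟨S⟩ := (inferInstance : Nonempty (Sylow l G))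
  refine ⟨(S : Subgroup G), ?_, ?_⟩
  · rw [Nat.coprime_comm]
    exact (Nat.Prime.coprime_iff_not_dvd hl).mpr S.not_dvd_index
  · have hcyc : IsCyclic (S : Subgroup G) := by
      obtain ⟨k, hk⟩ := IsPGroup.iff_card.mp S.isPGroup'
      have hk1 : k ≤ 1 := by
        by_contra hk2
        apply h
        have h1 : l ^ 2 ∣ l ^ k := pow_dvd_pow l (by omega)
        exact dvd_trans h1 (hk ▸ Subgroup.card_subgroup_dvd_card _)
      apply isCyclic_of_card_dvd_prime (p := l)
      rw [hk]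
      interval_cases k
      · simp
      · simp
    intro z hz
    rw [StemLocal.commutator_comap_eq_bot_of_isCyclic σ hs hc (S : Subgroup G)] at hz
    have hz1 : z = 1 := Subgroup.mem_bot.mp (Subgroup.mem_inf.mp hz).1
    rw [hz1, orderOf_one]
    exact hl.one_lt.ne

end General

/-! ### Explicit elements -/

/-- `(0 1)(2 3)` in `A_4`. -/
def a4 : alternatingGroup (Fin 4) := ⟨Equiv.swap 0 1 * Equiv.swap 2 3, by
  rw [Equiv.Perm.mem_alternatingGroup]; decide⟩

/-- `(0 2)(1 3)` in `A_4`. -/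
def b4 : alternatingGroup (Fin 4) := ⟨Equiv.swap 0 2 * Equiv.swap 1 3, by
  rw [Equiv.Perm.mem_alternatingGroup]; decide⟩

/-- `(0 1)(2 3)` in `A_5`. -/
def a5 : alternatingGroup (Fin 5) := ⟨Equiv.swap 0 1 * Equiv.swap 2 3, by
  rw [Equiv.Perm.mem_alternatingGroup]; decide⟩

/-- `(0 2)(1 3)` in `A_5`. -/
def b5 : alternatingGroup (Fin 5) := ⟨Equiv.swap 0 2 * Equiv.swap 1 3, by
  rw [Equiv.Perm.mem_alternatingGroup]; decide⟩

/-- `(0 1 2 3)(4 5)` in `A_7`. -/
def r7 : alternatingGroup (Fin 7) :=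
  ⟨Equiv.swap 0 1 * Equiv.swap 1 2 * Equiv.swap 2 3 * Equiv.swap 4 5, by
    rw [Equiv.Perm.mem_alternatingGroup]; decide⟩

/-- `(1 3)(4 5)` in `A_7`. -/
def s7 : alternatingGroup (Fin 7) := ⟨Equiv.swap 1 3 * Equiv.swap 4 5, by
  rw [Equiv.Perm.mem_alternatingGroup]; decide⟩

/-- `(0 1 2)` in `A_8`. -/
def c8 : alternatingGroup (Fin 8) := ⟨Equiv.swap 0 1 * Equiv.swap 1 2, by
  rw [Equiv.Perm.mem_alternatingGroup]; decide⟩

/-- `(3 4)(3 5)` in `A_8`. -/
def x8 : alternatingGroup (Fin 8) := ⟨Equiv.swap 3 4 * Equiv.swap 3 5, by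
  rw [Equiv.Perm.mem_alternatingGroup]; decide⟩

/-- `(3 4)(6 7)` in `A_8`. -/
def y8 : alternatingGroup (Fin 8) := ⟨Equiv.swap 3 4 * Equiv.swap 6 7, by
  rw [Equiv.Perm.mem_alternatingGroup]; decide⟩

/-! ### The bounds -/

theorem bound4 {Γ : Type u} [Group Γ] [Finite Γ] (σ : Γ →* alternatingGroup (Fin 4))
    (hσ : Cfsg.IsStemExtension σ) : Nat.card σ.ker ∣ 2 := by
  have hcard : Nat.card (alternatingGroup (Fin 4)) = 2 ^ 2 * 3 := by
    rw [nat_card_alternatingGroup]; simp [Nat.factorial]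
  apply PrimeMult.card_ker_dvd_of_local σ hσ 2 ?_ (closure ({a4, b4} : Set _)) ?_ ?_
  · intro l hl hne
    apply local_of_sq_not_dvd σ hσ.1 hσ.2.1 l hl
    rw [hcard]
    intro h
    have hle : l ^ 2 ≤ 2 ^ 2 * 3 := Nat.le_of_dvd (by norm_num) h
    have hl3 : l ≤ 3 := by nlinarith
    have key : ∀ l ≤ 3, l ^ 2 ∣ 2 ^ 2 * 3 → l = 1 ∨ l = 2 := by decide
    rcases key l hl3 h with rfl | rfl
    · exact Nat.not_prime_one hl
    · exact hne rfl
  · exact index_coprime_of_pair 2 Nat.prime_two (orderOf_eq_prime (by decide) (by decide))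
      (orderOf_eq_prime (by decide) (by decide)) (by decide) (by decide) hcard (by decide)
  · exact pair_card_dvd σ hσ.1 hσ.2.1 (by decide) 2 (by decide)

theorem bound5 {Γ : Type u} [Group Γ] [Finite Γ] (σ : Γ →* alternatingGroup (Fin 5))
    (hσ : Cfsg.IsStemExtension σ) : Nat.card σ.ker ∣ 2 := by
  have hcard : Nat.card (alternatingGroup (Fin 5)) = 2 ^ 2 * 15 := by
    rw [nat_card_alternatingGroup]; simp [Nat.factorial]
  apply PrimeMult.card_ker_dvd_of_local σ hσ 2 ?_ (closure ({a5, b5} : Set _)) ?_ ?_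
  · intro l hl hne
    apply local_of_sq_not_dvd σ hσ.1 hσ.2.1 l hl
    rw [hcard]
    intro h
    have hle : l ^ 2 ≤ 2 ^ 2 * 15 := Nat.le_of_dvd (by norm_num) h
    have hl7 : l ≤ 7 := by nlinarith
    have key : ∀ l ≤ 7, l ^ 2 ∣ 2 ^ 2 * 15 → l = 1 ∨ l = 2 := by decide
    rcases key l hl7 h with rfl | rfl
    · exact Nat.not_prime_one hl
    · exact hne rfl
  · exact index_coprime_of_pair 2 Nat.prime_two (orderOf_eq_prime (by decide) (by decide))
      (orderOf_eq_prime (by decide) (by decide)) (by decide) (by decide) hcard (by decide)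
  · exact pair_card_dvd σ hσ.1 hσ.2.1 (by decide) 2 (by decide)

theorem bound7 {Γ : Type u} [Group Γ] [Finite Γ] (σ : Γ →* alternatingGroup (Fin 7))
    (hσ : Cfsg.IsStemExtension σ) (h3 : ∀ z ∈ σ.ker, orderOf z ≠ 3) : Nat.card σ.ker ∣ 2 := by
  have hcard : Nat.card (alternatingGroup (Fin 7)) = 8 * 315 := by
    rw [nat_card_alternatingGroup]; simp [Nat.factorial]
  apply PrimeMult.card_ker_dvd_of_local σ hσ 2 ?_ (closure ({r7, s7} : Set _)) ?_ ?_
  · intro l hl hne
    by_cases hl3 : l = 3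
    · subst hl3
      exact ⟨⊤, by simp, fun z hz => h3 z hz.2⟩
    · apply local_of_sq_not_dvd σ hσ.1 hσ.2.1 l hl
      rw [hcard]
      intro h
      have hle : l ^ 2 ≤ 8 * 315 := Nat.le_of_dvd (by norm_num) h
      have hl50 : l ≤ 50 := by nlinarith
      have key : ∀ l ≤ 50, l ^ 2 ∣ 8 * 315 → l = 1 ∨ l = 2 ∨ l = 3 ∨ l = 6 := by decide
      rcases key l hl50 h with rfl | rfl | rfl | rfl
      · exact Nat.not_prime_one hl
      · exact hne rfl
      · exact hl3 rfl
      · exact (by decide : ¬ Nat.Prime 6) hl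
  · exact PrimeMult.d8_index_coprime (r := r7) (s := s7) (by decide) (by decide) (by decide)
      (by decide) hcard ⟨157, by norm_num⟩
  · exact PrimeMult.d8_card_dvd σ hσ.1 hσ.2.1 (by decide) (by decide) (by decide)

theorem no3 {Γ : Type u} [Group Γ] [Finite Γ] (σ : Γ →* alternatingGroup (Fin 8))
    (hσ : Cfsg.IsStemExtension σ) : ∀ z ∈ σ.ker, orderOf z ≠ 3 := by
  intro z hz h3
  have hcard : Nat.card (alternatingGroup (Fin 8)) = 3 ^ 2 * 2240 := by
    rw [nat_card_alternatingGroup]; simp [Nat.factorial]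
  have hidx : ((closure ({c8, ⁅x8, y8⁆} : Set (alternatingGroup (Fin 8)))).index).Coprime 3 :=
    index_coprime_of_pair 3 Nat.prime_three (orderOf_eq_prime (by decide) (by decide))
      (orderOf_eq_prime (by decide +kernel) (by decide +kernel)) (by decide +kernel)
      (by decide +kernel) hcard (by decide)
  have hidx' : ((closure ({c8, ⁅x8, y8⁆} : Set (alternatingGroup (Fin 8)))).comap σ).index =
      (closure ({c8, ⁅x8, y8⁆} : Set (alternatingGroup (Fin 8)))).index :=
    Subgroup.index_comap_of_surjective _ hσ.1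
  have hmem := Stem.mem_commutator_of_coprime
    ((closure ({c8, ⁅x8, y8⁆} : Set (alternatingGroup (Fin 8)))).comap σ)
    (hσ.2.1 hz) (hσ.2.2 hz) (by rw [hidx', h3]; exact hidx)
  rw [pair_comm_bot σ hσ.1 hσ.2.1 (by decide) (by decide), mem_bot] at hmem
  rw [hmem, orderOf_one] at h3
  omega

theorem bound8 {Γ : Type u} [Group Γ] [Finite Γ] (σ : Γ →* alternatingGroup (Fin 8))
    (hσ : Cfsg.IsStemExtension σ) : Nat.card σ.ker ∣ 2 := by
  obtain ⟨Γ', _, _, σ', hσ', ⟨e⟩⟩ := AltSub.step 7 (by norm_num) σ hσ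
  have h3 := no3 σ hσ
  have h3' : ∀ z ∈ σ'.ker, orderOf z ≠ 3 := by
    intro z hz h
    apply h3 (e ⟨z, hz⟩ : Γ) (e ⟨z, hz⟩).2
    rw [Subgroup.orderOf_coe, MulEquiv.orderOf_eq, ← Subgroup.orderOf_coe]
    exact h
  have := bound7 σ' hσ' h3'
  rwa [Nat.card_congr e.toEquiv] at this

theorem bound_ge8 (n : ℕ) (hn : 8 ≤ n) : ∀ {Γ : Type u} [Group Γ] [Finite Γ]
    (σ : Γ →* alternatingGroup (Fin n)), Cfsg.IsStemExtension σ → Nat.card σ.ker ∣ 2 := by
  induction n, hn using Nat.le_induction with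
  | base =>
    intro Γ _ _ σ hσ
    exact bound8 σ hσ
  | succ m hm ih =>
    intro Γ _ _ σ hσ
    obtain ⟨Γ', _, _, σ', hσ', ⟨e⟩⟩ := AltSub.step m (by omega) σ hσ
    have := ih σ' hσ'
    rwa [Nat.card_congr e.toEquiv] at this

/-- The kernel of a finite stem extension of `A_n`, `n ≥ 4`, `n ≠ 6, 7`, has order dividing
`2`. -/
theorem alt_bound (n : ℕ) (hn : 4 ≤ n) (h6 : n ≠ 6) (h7 : n ≠ 7) {Γ : Type u} [Group Γ]
    [Finite Γ] (σ : Γ →* alternatingGroup (Fin n)) (hσ : Cfsg.IsStemExtension σ) :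
    Nat.card σ.ker ∣ 2 := by
  rcases (by omega : n = 4 ∨ n = 5 ∨ 8 ≤ n) with rfl | rfl | h8
  · exact bound4 σ hσ
  · exact bound5 σ hσ
  · exact bound_ge8 n h8 σ hσ

end Cfsg.Agent.Lib.Helper35.AltMult
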