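-- Schur multiplier of order 6 for `A_6` and `A_7`: the transfer bound `|ker| ∣ 6` (dihedral
-- Sylow 2-subgroup, Sylow 3-subgroup of type 3 × 3, cyclic Sylow subgroups otherwise), the
-- triple cover of `A_6` inside the triple cover of `A_7`, and the assembly with the Hopf model.
import Mathlib
import Cfsg.Prelude.Def_KGroupFacts
import Cfsg.Agent.Lib.Helper35.AltMult
import Cfsg.Agent.Lib.Helper35.TripleA7
import Cfsg.Agent.Lib.Helper66.SpinAlt
import Cfsg.Agent.Lib.Helper66.Hopf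

set_option autoImplicit false

namespace Cfsg.Agent.Lib.Helper35.AltSix

open Subgroup Cfsg.Agent.Lib.Helper35 Cfsg.Agent.Lib.Helper66
open scoped commutatorElement

universe u w w'

section General

variable {Γ G : Type*} [Group Γ] [Group G] (σ : Γ →* G)

/-- Transfer bound: if for every prime `l` some subgroup `U` of index prime to `l` has
`|⁅σ⁻¹U, σ⁻¹U⁆ ⊓ ker σ| ∣ N`, then `|ker σ| ∣ N`. -/
theorem card_ker_dvd_of_local_gen [Finite Γ] (hσ : Cfsg.IsStemExtension σ) (N : ℕ)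
    (hN : N ≠ 0)
    (h : ∀ l : ℕ, l.Prime → ∃ U : Subgroup G, (U.index).Coprime l ∧
      Nat.card ↥(⁅U.comap σ, U.comap σ⁆ ⊓ σ.ker) ∣ N) : Nat.card σ.ker ∣ N := by
  have hK0 : Nat.card σ.ker ≠ 0 := Nat.card_pos.ne'
  rw [← Nat.factorization_prime_le_iff_dvd hK0 hN]
  intro l hl
  obtain ⟨U, hU, hUc⟩ := h l hl
  have : Fact l.Prime := ⟨hl⟩
  obtain ⟨P⟩ := (inferInstance : Nonempty (Sylow l σ.ker))
  have hP : Nat.card P = l ^ (Nat.card σ.ker).factorization l := Sylow.card_eq_multiplicity P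
  have hle : (P : Subgroup σ.ker).map σ.ker.subtype ≤ ⁅U.comap σ, U.comap σ⁆ ⊓ σ.ker := by
    rintro _ ⟨z, hz, rfl⟩
    have hzk : (z : Γ) ∈ σ.ker := z.2
    obtain ⟨k, hk⟩ := (IsPGroup.iff_orderOf.mp P.isPGroup') ⟨z, hz⟩
    have hord : orderOf (z : Γ) = l ^ k := by
      rw [Subgroup.orderOf_coe z, ← hk]
      exact (Subgroup.orderOf_coe (⟨z, hz⟩ : ↥(P : Subgroup σ.ker)))
    have hidx : (U.comap σ).index = U.index := Subgroup.index_comap_of_surjective U hσ.1
    have hmem := Stem.mem_commutator_of_coprime (U.comap σ)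
      (hσ.2.1 hzk) (hσ.2.2 hzk) (by rw [hidx, hord]; exact Nat.Coprime.pow_right k hU)
    exact Subgroup.mem_inf.mpr ⟨hmem, hzk⟩
  have hcard : Nat.card ((P : Subgroup σ.ker).map σ.ker.subtype) = Nat.card P :=
    Subgroup.card_map_of_injective (Subgroup.subtype_injective _)
  have hdvd : l ^ (Nat.card σ.ker).factorization l ∣ N := by
    rw [← hP, ← hcard]
    exact dvd_trans (Subgroup.card_dvd_of_le hle) hUc
  exact (hl.pow_dvd_iff_le_factorization hN).mp hdvd

/-- A prime `l` whose square does not divide the order of `G`: the preimage of a Sylow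
`l`-subgroup in a central extension is commutative. -/
theorem local_card_one_of_sq_not_dvd [Finite G] (hs : Function.Surjective σ)
    (hc : σ.ker ≤ center Γ) (l : ℕ) (hl : l.Prime) (h : ¬ l ^ 2 ∣ Nat.card G) :
    ∃ U : Subgroup G, (U.index).Coprime l ∧
      Nat.card ↥(⁅U.comap σ, U.comap σ⁆ ⊓ σ.ker) = 1 := by
  have : Fact l.Prime := ⟨hl⟩
  obtain ⟨S⟩ := (inferInstance : Nonempty (Sylow l G))
  refine ⟨(S : Subgroup G), ?_, ?_⟩
  · rw [Nat.coprime_comm]
    exact (Nat.Prime.coprime_iff_not_dvd hl).mpr S.not_dvd_index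
  · have hcyc : IsCyclic (S : Subgroup G) := by
      obtain ⟨k, hk⟩ := IsPGroup.iff_card.mp S.isPGroup'
      have hk1 : k ≤ 1 := by
        by_contra hk2
        apply h
        have h1 : l ^ 2 ∣ l ^ k := pow_dvd_pow l (by omega)
        exact dvd_trans h1 (hk ▸ Subgroup.card_subgroup_dvd_card _)
      apply isCyclic_of_card_dvd_prime (p := l)
      rw [hk]
      interval_cases k
      · simp
      · simp
    have hbot : ⁅(S : Subgroup G).comap σ, (S : Subgroup G).comap σ⁆ ⊓ σ.ker = ⊥ := by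
      rw [StemLocal.commutator_comap_eq_bot_of_isCyclic σ hs hc (S : Subgroup G)]
      exact bot_inf_eq _
    rw [hbot]
    exact Subgroup.card_bot

end General

/-- Multiplier of order six: all stem extensions have kernel of order dividing `6`, and there
are central extensions with elements of order `2` and `3` in the intersection of the kernel
with the commutator subgroup. -/
theorem hasCyclic_six_of_bound {G : Type u} [Group G] [Finite G]
    (hub : ∀ (Γ : Type u) [Group Γ] [Finite Γ] (σ : Γ →* G), Cfsg.IsStemExtension σ →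
      Nat.card σ.ker ∣ 6)
    {X₂ : Type w} [Group X₂] (ξ₂ : X₂ →* G) (hξ₂ : Function.Surjective ξ₂)
    (hc₂ : ξ₂.ker ≤ Subgroup.center X₂) (z₂ : X₂) (hz₂ : z₂ ∈ _root_.commutator X₂ ⊓ ξ₂.ker)
    (ho₂ : orderOf z₂ = 2)
    {X₃ : Type w'} [Group X₃] (ξ₃ : X₃ →* G) (hξ₃ : Function.Surjective ξ₃)
    (hc₃ : ξ₃.ker ≤ Subgroup.center X₃) (z₃ : X₃) (hz₃ : z₃ ∈ _root_.commutator X₃ ⊓ ξ₃.ker)
    (ho₃ : orderOf z₃ = 3) : Cfsg.HasCyclicSchurMultiplier G 6 := by
  have hπ := Hopf.can_surjective G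
  obtain ⟨Γ, i1, i2, σ, hσ, ⟨e⟩⟩ := Hopf.exists_cover (Hopf.can G) hπ
  have hdvd := hub Γ σ hσ
  have hfin : Finite (Hopf.T (Hopf.can G)) := Hopf.finite_T (Hopf.can G) hπ
  have hcardT : Nat.card (Hopf.T (Hopf.can G)) ∣ 6 := by
    rw [← Nat.card_congr e.toEquiv]; exact hdvd
  obtain ⟨θ₂, hθ₂⟩ := Hopf.exists_lift (Hopf.can G) ξ₂ hξ₂ hc₂
  obtain ⟨t₂, ht₂, hm₂⟩ := Hopf.commutator_inf_ker_le (Hopf.can G) hπ ξ₂ hc₂ θ₂ hθ₂ hz₂
  obtain ⟨θ₃, hθ₃⟩ := Hopf.exists_lift (Hopf.can G) ξ₃ hξ₃ hc₃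
  obtain ⟨t₃, ht₃, hm₃⟩ := Hopf.commutator_inf_ker_le (Hopf.can G) hπ ξ₃ hc₃ θ₃ hθ₃ hz₃
  have h2 : 2 ∣ Nat.card (Hopf.T (Hopf.can G)) := by
    have h1 : orderOf (θ₂ t₂) ∣ orderOf t₂ := orderOf_map_dvd θ₂ t₂
    rw [hm₂, ho₂] at h1
    exact dvd_trans h1 (Subgroup.orderOf_dvd_natCard _ ht₂)
  have h3 : 3 ∣ Nat.card (Hopf.T (Hopf.can G)) := by
    have h1 : orderOf (θ₃ t₃) ∣ orderOf t₃ := orderOf_map_dvd θ₃ t₃
    rw [hm₃, ho₃] at h1
    exact dvd_trans h1 (Subgroup.orderOf_dvd_natCard _ ht₃)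
  have hcard : Nat.card (Hopf.T (Hopf.can G)) = 6 :=
    Nat.dvd_antisymm hcardT (Nat.Coprime.mul_dvd_of_dvd_of_dvd (by norm_num) h2 h3)
  have hcyc : IsCyclic (Hopf.T (Hopf.can G)) := by
    obtain ⟨a, ha⟩ := exists_prime_orderOf_dvd_card' (G := Hopf.T (Hopf.can G)) 2 h2
    obtain ⟨b, hb⟩ := exists_prime_orderOf_dvd_card' (G := Hopf.T (Hopf.can G)) 3 h3
    have hcomm : Commute a b := by
      apply Subtype.ext
      exact (Subgroup.mem_center_iff.mp (Hopf.T_le_center (Hopf.can G) b.2) (a : _))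
    have ho : orderOf (a * b) = 6 := by
      rw [hcomm.orderOf_mul_eq_mul_orderOf_of_coprime (by rw [ha, hb]; norm_num), ha, hb]
    exact isCyclic_of_orderOf_eq_card (a * b) (by rw [ho, hcard])
  have e2 : Multiplicative (ZMod 6) ≃* Hopf.T (Hopf.can G) :=
    mulEquivOfCyclicCardEq (by
      rw [hcard, Nat.card_eq_fintype_card, Fintype.card_multiplicative, ZMod.card])
  exact Hopf.hasSchurMultiplier_of_equiv (Hopf.can G) hπ e2

/-! ### Bounds for `A_6` and `A_7` -/

/-- `(0 1 2 3)(4 5)` in `A_6`. -/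
def r6 : alternatingGroup (Fin 6) :=
  ⟨Equiv.swap 0 1 * Equiv.swap 1 2 * Equiv.swap 2 3 * Equiv.swap 4 5, by
    rw [Equiv.Perm.mem_alternatingGroup]; decide⟩

/-- `(1 3)(4 5)` in `A_6`. -/
def s6 : alternatingGroup (Fin 6) := ⟨Equiv.swap 1 3 * Equiv.swap 4 5, by
  rw [Equiv.Perm.mem_alternatingGroup]; decide⟩

/-- `(0 1 2)` in `A_6`. -/
def c6 : alternatingGroup (Fin 6) := ⟨Equiv.swap 0 1 * Equiv.swap 1 2, by
  rw [Equiv.Perm.mem_alternatingGroup]; decide⟩

/-- `(3 4 5)` in `A_6`. -/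
def d6 : alternatingGroup (Fin 6) := ⟨Equiv.swap 3 4 * Equiv.swap 4 5, by
  rw [Equiv.Perm.mem_alternatingGroup]; decide⟩

theorem bound6 {Γ : Type u} [Group Γ] [Finite Γ] (σ : Γ →* alternatingGroup (Fin 6))
    (hσ : Cfsg.IsStemExtension σ) : Nat.card σ.ker ∣ 6 := by
  have hcard : Nat.card (alternatingGroup (Fin 6)) = 8 * 45 := by
    rw [nat_card_alternatingGroup]; simp [Nat.factorial]
  have hcard' : Nat.card (alternatingGroup (Fin 6)) = 3 ^ 2 * 40 := by rw [hcard]; norm_num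
  apply card_ker_dvd_of_local_gen σ hσ 6 (by norm_num)
  intro l hl
  by_cases h2 : l = 2
  · subst h2
    refine ⟨closure ({r6, s6} : Set _), PrimeMult.d8_index_coprime (r := r6) (s := s6)
      (by decide) (by decide) (by decide) (by decide) hcard ⟨22, by norm_num⟩, ?_⟩
    exact dvd_trans (PrimeMult.d8_card_dvd σ hσ.1 hσ.2.1 (by decide) (by decide) (by decide))
      (by norm_num)
  · by_cases h3 : l = 3
    · subst h3
      refine ⟨closure ({c6, d6} : Set _), AltMult.index_coprime_of_pair 3 Nat.prime_three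
        (orderOf_eq_prime (by decide) (by decide)) (orderOf_eq_prime (by decide) (by decide))
        (by decide) (by decide) hcard' (by decide), ?_⟩
      exact dvd_trans (AltMult.pair_card_dvd σ hσ.1 hσ.2.1 (by decide) 3 (by decide))
        (by norm_num)
    · have hsq : ¬ l ^ 2 ∣ Nat.card (alternatingGroup (Fin 6)) := by
        rw [hcard]
        intro h
        have hle : l ^ 2 ≤ 8 * 45 := Nat.le_of_dvd (by norm_num) h
        have hl19 : l ≤ 19 := by nlinarith
        have key : ∀ l ≤ 19, l ^ 2 ∣ 8 * 45 → l = 1 ∨ l = 2 ∨ l = 3 ∨ l = 6 := by decide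
        rcases key l hl19 h with rfl | rfl | rfl | rfl
        · exact Nat.not_prime_one hl
        · exact h2 rfl
        · exact h3 rfl
        · exact (by decide : ¬ Nat.Prime 6) hl
      obtain ⟨U, hU, hU1⟩ := local_card_one_of_sq_not_dvd σ hσ.1 hσ.2.1 l hl hsq
      exact ⟨U, hU, by rw [hU1]; exact one_dvd _⟩

theorem bound7 {Γ : Type u} [Group Γ] [Finite Γ] (σ : Γ →* alternatingGroup (Fin 7))
    (hσ : Cfsg.IsStemExtension σ) : Nat.card σ.ker ∣ 6 := by
  have hcard : Nat.card (alternatingGroup (Fin 7)) = 8 * 315 := by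
    rw [nat_card_alternatingGroup]; simp [Nat.factorial]
  have hcard' : Nat.card (alternatingGroup (Fin 7)) = 3 ^ 2 * 280 := by rw [hcard]; norm_num
  apply card_ker_dvd_of_local_gen σ hσ 6 (by norm_num)
  intro l hl
  by_cases h2 : l = 2
  · subst h2
    refine ⟨closure ({AltMult.r7, AltMult.s7} : Set _),
      PrimeMult.d8_index_coprime (r := AltMult.r7) (s := AltMult.s7)
      (by decide) (by decide) (by decide) (by decide) hcard ⟨157, by norm_num⟩, ?_⟩
    exact dvd_trans (PrimeMult.d8_card_dvd σ hσ.1 hσ.2.1 (by decide) (by decide) (by decide))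
      (by norm_num)
  · by_cases h3 : l = 3
    · subst h3
      refine ⟨closure ({TripleA7.x1, TripleA7.cp} : Set _),
        AltMult.index_coprime_of_pair 3 Nat.prime_three
        (orderOf_eq_prime (by decide +kernel) (by decide +kernel))
        (orderOf_eq_prime (by decide +kernel) (by decide +kernel))
        (by decide +kernel) (by decide +kernel) hcard' (by decide), ?_⟩
      exact dvd_trans (AltMult.pair_card_dvd σ hσ.1 hσ.2.1 (by decide +kernel) 3
        (by decide +kernel)) (by norm_num)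
    · have hsq : ¬ l ^ 2 ∣ Nat.card (alternatingGroup (Fin 7)) := by
        rw [hcard]
        intro h
        have hle : l ^ 2 ≤ 8 * 315 := Nat.le_of_dvd (by norm_num) h
        have hl50 : l ≤ 50 := by nlinarith
        have key : ∀ l ≤ 50, l ^ 2 ∣ 8 * 315 → l = 1 ∨ l = 2 ∨ l = 3 ∨ l = 6 := by decide
        rcases key l hl50 h with rfl | rfl | rfl | rfl
        · exact Nat.not_prime_one hl
        · exact h2 rfl
        · exact h3 rfl
        · exact (by decide : ¬ Nat.Prime 6) hl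
      obtain ⟨U, hU, hU1⟩ := local_card_one_of_sq_not_dvd σ hσ.1 hσ.2.1 l hl hsq
      exact ⟨U, hU, by rw [hU1]; exact one_dvd _⟩

/-! ### The triple cover of `A_6` -/

/-- The homomorphism of the triple cover of `A_7` to the symmetric group. -/
def projP : ↥TripleA7.X7 →* Equiv.Perm (Fin 7) := StemC.incl TripleA7.proj

/-- The preimage of the stabiliser of the point `6`. -/
def X6 : Subgroup ↥TripleA7.X7 := (AltSub.B (fun x : Fin 7 => x ≠ 6)).comap projP

/-- The projection onto the stabiliser of `6` in `A_7`. -/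
def proj6₀ : ↥X6 →* ↥(AltSub.B (fun x : Fin 7 => x ≠ 6)) :=
  (projP.comp X6.subtype).codRestrict _ (fun x => x.2)

theorem card_ne6 : Fintype.card {x : Fin 7 // x ≠ 6} = 6 := by
  rw [AltSub.card_ne, Fintype.card_fin]

/-- The projection onto `A_6`. -/
noncomputable def proj6 : ↥X6 →* alternatingGroup (Fin 6) :=
  (AltSub.altIso (fun x : Fin 7 => x ≠ 6) 6 card_ne6).toMonoidHom.comp proj6₀

theorem proj6₀_surjective : Function.Surjective proj6₀ := by
  rintro ⟨b, hb⟩
  have hb' : b ∈ alternatingGroup (Fin 7) := Equiv.Perm.mem_alternatingGroup.mpr hb.1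
  obtain ⟨p, hp⟩ := TripleA7.proj_surjective ⟨b, hb'⟩
  have hpb : projP p = b := by
    show ((TripleA7.proj p : alternatingGroup (Fin 7)) : Equiv.Perm (Fin 7)) = b
    rw [hp]
  refine ⟨⟨p, ?_⟩, ?_⟩
  · show projP p ∈ AltSub.B (fun x : Fin 7 => x ≠ 6)
    rw [hpb]; exact hb
  · exact Subtype.ext hpb

theorem proj6_surjective : Function.Surjective proj6 :=
  (AltSub.altIso (fun x : Fin 7 => x ≠ 6) 6 card_ne6).surjective.comp proj6₀_surjective

theorem mem_ker_proj6 {p : ↥X6} (hp : p ∈ proj6.ker) : (p : ↥TripleA7.X7) ∈ TripleA7.proj.ker := by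
  have h1 : proj6₀ p = 1 := by
    apply (AltSub.altIso (fun x : Fin 7 => x ≠ 6) 6 card_ne6).injective
    rw [map_one]
    exact hp
  have h2 : projP (p : ↥TripleA7.X7) = 1 := congrArg Subtype.val h1
  rw [MonoidHom.mem_ker]
  exact Subtype.ext h2

theorem proj6_ker_le_center : proj6.ker ≤ Subgroup.center ↥X6 := by
  intro p hp
  rw [Subgroup.mem_center_iff]
  intro q
  have h := Subgroup.mem_center_iff.mp (TripleA7.ker_le_center (mem_ker_proj6 hp)) (q : ↥TripleA7.X7)
  exact Subtype.ext h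

theorem mem_B_of_fix {g : alternatingGroup (Fin 7)} (h : (g : Equiv.Perm (Fin 7)) 6 = 6) :
    (g : Equiv.Perm (Fin 7)) ∈ AltSub.B (fun x : Fin 7 => x ≠ 6) := by
  rw [AltSub.mem_B]
  refine ⟨Equiv.Perm.mem_alternatingGroup.mp g.2, fun x hx => ?_⟩
  have : x = 6 := not_not.mp hx
  rw [this]; exact h

/-- The central element of order three in the triple cover of `A_6`. -/
def z6 : ↥X6 := ⟨TripleA7.zX, mem_B_of_fix (g := TripleA7.proj TripleA7.zX) rfl⟩

/-- Lifts of `(0 1 2)` and `(3 4 5)`. -/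
def a6 : ↥X6 := ⟨TripleA7.g1, mem_B_of_fix (g := TripleA7.proj TripleA7.g1) (by decide)⟩
def b6 : ↥X6 := ⟨TripleA7.gc, mem_B_of_fix (g := TripleA7.proj TripleA7.gc) (by decide)⟩

theorem z6_mem : z6 ∈ _root_.commutator ↥X6 ⊓ proj6.ker := by
  refine Subgroup.mem_inf.mpr ⟨?_, ?_⟩
  · have h : ⁅a6, b6⁆ = z6 := Subtype.ext TripleA7.comm_eq
    rw [← h]
    exact Subgroup.commutator_mem_commutator (Subgroup.mem_top _) (Subgroup.mem_top _)
  · rw [MonoidHom.mem_ker]
    have h1 : proj6₀ z6 = 1 := Subtype.ext rfl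
    show (AltSub.altIso (fun x : Fin 7 => x ≠ 6) 6 card_ne6) (proj6₀ z6) = 1
    rw [h1, map_one]

theorem z6_order : orderOf z6 = 3 := by
  have h : orderOf (z6 : ↥TripleA7.X7) = 3 := TripleA7.zX_order
  rw [Subgroup.orderOf_coe] at h
  exact h

/-! ### The theorem -/

theorem zX_mem : TripleA7.zX ∈ _root_.commutator ↥TripleA7.X7 ⊓ TripleA7.proj.ker :=
  Subgroup.mem_inf.mpr ⟨TripleA7.zX_mem_commutator, TripleA7.zX_mem_ker⟩

theorem spin_ker_le_center (n : ℕ) : (SpinAlt.proj n).ker ≤ Subgroup.center ↥(SpinAlt.P n) := by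
  rw [SpinAlt.proj_ker]
  exact Subgroup.zpowers_le.mpr (SpinAlt.zP_mem_center n)

theorem spin_mem (n : ℕ) (hn : 4 ≤ n) :
    SpinAlt.zP n ∈ _root_.commutator ↥(SpinAlt.P n) ⊓ (SpinAlt.proj n).ker :=
  Subgroup.mem_inf.mpr ⟨SpinAlt.zP_mem_commutator hn, SpinAlt.zP_mem_ker n⟩

theorem multiplier6 : Cfsg.HasCyclicSchurMultiplier (alternatingGroup (Fin 6)) 6 :=
  hasCyclic_six_of_bound (fun Γ _ _ σ hσ => bound6 σ hσ)
    (SpinAlt.proj 6) (SpinAlt.proj_surjective 6) (spin_ker_le_center 6) (SpinAlt.zP 6)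
    (spin_mem 6 (by norm_num)) (SpinAlt.zP_order 6)
    proj6 proj6_surjective proj6_ker_le_center z6 z6_mem z6_order

theorem multiplier7 : Cfsg.HasCyclicSchurMultiplier (alternatingGroup (Fin 7)) 6 :=
  hasCyclic_six_of_bound (fun Γ _ _ σ hσ => bound7 σ hσ)
    (SpinAlt.proj 7) (SpinAlt.proj_surjective 7) (spin_ker_le_center 7) (SpinAlt.zP 7)
    (spin_mem 7 (by norm_num)) (SpinAlt.zP_order 7)
    TripleA7.proj TripleA7.proj_surjective TripleA7.ker_le_center TripleA7.zX zX_mem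
    TripleA7.zX_order

end Cfsg.Agent.Lib.Helper35.AltSix
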