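import Mathlib
import Cfsg.Agent.Lib.Helper32.D8Stmt

/-!
# S3716 / CFGA (second seat): `|N_G(M)| = 72`

`M` a self-centralizing Sylow 3-subgroup of order 9, Sylow 2-subgroups of `N = N_G(M)` dihedral
of order 8.  A prime `p ≥ 5` dividing `|N|` gives an element of order `p` normalizing `M`; its
fixed points on `M` form a subgroup of order `≡ 9 (mod p)`, hence all of `M`, so the element
centralizes `M` and lies in `M`: absurd.
-/

set_option autoImplicit false

namespace Cfsg.Agent.Lib.Helper35.D8CFGA

open Cfsg Cfsg.Agent.Lib.Helper32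

universe u

/-- No element of prime order `p ≥ 5` normalizes a self-centralizing subgroup of order 9. -/
theorem no_big_prime {G : Type u} [Group G] [Finite G] (M : Subgroup G)
    (hM : Nat.card M = 9) (hC : Subgroup.centralizer (M : Set G) = M)
    (g : G) (hg : g ∈ Subgroup.normalizer (M : Set G)) (p : ℕ) (hp : p.Prime) (hp5 : 5 ≤ p)
    (ho : orderOf g = p) : False := by
  classical
  have : Fact p.Prime := ⟨hp⟩
  let _ : Fintype M := Fintype.ofFinite M
  have hgm : ∀ m : M, g * (m : G) * g⁻¹ ∈ M := fun m =>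
    (Subgroup.mem_normalizer_iff.mp hg (m : G)).mp m.2
  let f : Function.End M := fun m => ⟨g * (m : G) * g⁻¹, hgm m⟩
  have hf : ∀ m : M, ((f m : M) : G) = g * (m : G) * g⁻¹ := fun m => rfl
  have hfk : ∀ (k : ℕ) (m : M), (((f ^ k) m : M) : G) = g ^ k * (m : G) * (g ^ k)⁻¹ := by
    intro k
    induction k with
    | zero =>
      intro m
      rw [pow_zero, pow_zero]
      show (m : G) = 1 * (m : G) * 1⁻¹
      simp
    | succ k ih =>
      intro m
      have h1 : (f ^ (k + 1)) m = f ((f ^ k) m) := by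
        rw [pow_succ']; rfl
      rw [h1, hf, ih m, pow_succ']
      group
  have hfp : f ^ p ^ 1 = 1 := by
    rw [pow_one]
    funext m
    apply Subtype.ext
    rw [hfk p m, ← ho, pow_orderOf_eq_one]
    show 1 * (m : G) * 1⁻¹ = (m : G)
    simp
  have hmod := Equiv.Perm.card_fixedPoints_modEq (p := p) (n := 1) hfp
  let C : Subgroup M :=
    { carrier := {m | g * (m : G) * g⁻¹ = (m : G)}
      mul_mem' := by
        intro a b ha hb
        simp only [Set.mem_ofPred_eq] at ha hb ⊢
        rw [Subgroup.coe_mul]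
        calc g * ((a : G) * (b : G)) * g⁻¹ = (g * (a : G) * g⁻¹) * (g * (b : G) * g⁻¹) := by
              group
          _ = (a : G) * (b : G) := by rw [ha, hb]
      one_mem' := by simp
      inv_mem' := by
        intro a ha
        simp only [Set.mem_ofPred_eq] at ha ⊢
        rw [Subgroup.coe_inv]
        calc g * (a : G)⁻¹ * g⁻¹ = (g * (a : G) * g⁻¹)⁻¹ := by group
          _ = (a : G)⁻¹ := by rw [ha] }
  have hCmem : ∀ m : M, m ∈ C ↔ g * (m : G) * g⁻¹ = (m : G) := fun m => Iff.rfl
  have hcardC : Fintype.card (Function.fixedPoints f) = Nat.card C := by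
    rw [← Nat.card_eq_fintype_card]
    apply Nat.card_congr
    refine Equiv.subtypeEquivRight ?_
    intro m
    rw [Function.mem_fixedPoints, Function.IsFixedPt, hCmem, Subtype.ext_iff, hf]
  rw [hcardC, ← Nat.card_eq_fintype_card, hM] at hmod
  have hdvd : Nat.card C ∣ 9 := by
    have := Subgroup.card_subgroup_dvd_card C
    rwa [hM] at this
  have hle : Nat.card C ≤ 9 := Nat.le_of_dvd (by norm_num) hdvd
  have hpdvd : p ∣ 9 - Nat.card C := (Nat.modEq_iff_dvd' hle).mp hmod.symm
  have hcases : Nat.card C = 9 := by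
    by_contra hne
    have hlt : Nat.card C < 9 := lt_of_le_of_ne hle hne
    have hpos : 0 < 9 - Nat.card C := by omega
    have hple : p ≤ 9 - Nat.card C := Nat.le_of_dvd hpos hpdvd
    have hc : Nat.card C = 1 ∨ Nat.card C = 3 := by
      have h0 : 0 < Nat.card C := Nat.card_pos
      interval_cases h : Nat.card C <;> simp_all
    rcases hc with hc | hc
    · rw [hc] at hpdvd hple
      interval_cases p <;> first | omega | exact absurd hp (by norm_num)
    · rw [hc] at hpdvd hple
      interval_cases p <;> first | omega | exact absurd hp (by norm_num)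
  have htop : C = ⊤ := by
    apply Subgroup.eq_top_of_card_eq
    rw [hcases, hM]
  have hgC : g ∈ Subgroup.centralizer (M : Set G) := by
    rw [Subgroup.mem_centralizer_iff]
    intro m hm
    have : (⟨m, hm⟩ : M) ∈ C := by rw [htop]; exact Subgroup.mem_top _
    have h2 : g * m * g⁻¹ = m := (hCmem ⟨m, hm⟩).mp this
    calc m * g = (g * m * g⁻¹) * g := by rw [h2]
      _ = g * m := by group
  rw [hC] at hgC
  have ho9 : orderOf g ∣ 9 := by
    have := orderOf_dvd_natCard (⟨g, hgC⟩ : M)
    rwa [Subgroup.orderOf_mk, hM] at this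
  rw [ho] at ho9
  have hp9 : p ≤ 9 := Nat.le_of_dvd (by norm_num) ho9
  interval_cases p <;> first | omega | exact absurd hp (by norm_num)

theorem main : D8Stmt.CFGA.{u} := by
  intro G _ _ M hM9 hM3 hCM N hN hloc hS
  classical
  have hMN : (M : Subgroup G) ≤ N := by rw [hN]; exact Subgroup.le_normalizer
  have hpos : 0 < Nat.card N := Nat.card_pos
  have h9 : 9 ∣ Nat.card N := by
    have := Subgroup.card_dvd_of_le hMN
    rwa [hM9] at this
  obtain ⟨S⟩ : Nonempty (Sylow 2 N) := inferInstance
  obtain ⟨e⟩ := hS S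
  have hS8 : Nat.card (S : Subgroup N) = 8 := by
    rw [Nat.card_congr e.toEquiv, Nat.card_eq_fintype_card, DihedralGroup.card]
  have h8 : 8 ∣ Nat.card N := by
    have := Subgroup.card_subgroup_dvd_card (S : Subgroup N)
    rwa [hS8] at this
  have h72 : 72 ∣ Nat.card N := by
    have hc : Nat.Coprime 8 9 := by norm_num
    exact hc.mul_dvd_of_dvd_of_dvd h8 h9
  obtain ⟨k, hk⟩ := h72
  have hk0 : k ≠ 0 := by
    rintro rfl
    simp at hk
    omega
  by_contra hne
  have hk1 : k ≠ 1 := by
    rintro rfl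
    exact hne (by simpa using hk)
  obtain ⟨q, hq, hqk⟩ := Nat.exists_prime_and_dvd hk1
  have hqN : q ∣ Nat.card N := by
    rw [hk]; exact Dvd.dvd.mul_left hqk 72
  by_cases h2 : q = 2
  · subst h2
    have h16 : 2 ^ 4 ∣ Nat.card N := by
      rw [hk]; obtain ⟨c, rfl⟩ := hqk; exact ⟨9 * c, by ring⟩
    have hfac : 4 ≤ (Nat.card N).factorization 2 :=
      (Nat.prime_two.pow_dvd_iff_le_factorization hpos.ne').mp h16
    have hcard := S.card_eq_multiplicity
    rw [hS8] at hcard
    have : 2 ^ 4 ≤ 2 ^ (Nat.card N).factorization 2 := Nat.pow_le_pow_right (by norm_num) hfac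
    omega
  by_cases h3 : q = 3
  · subst h3
    have h27 : 3 ^ 3 ∣ Nat.card G := by
      have h1 : 3 ^ 3 ∣ Nat.card N := by
        rw [hk]; obtain ⟨c, rfl⟩ := hqk; exact ⟨8 * c, by ring⟩
      exact h1.trans (Subgroup.card_subgroup_dvd_card N)
    have hfac : 3 ≤ (Nat.card G).factorization 3 :=
      (Nat.prime_three.pow_dvd_iff_le_factorization Nat.card_pos.ne').mp h27
    have hcard := M.card_eq_multiplicity
    rw [hM9] at hcard
    have : 3 ^ 3 ≤ 3 ^ (Nat.card G).factorization 3 := Nat.pow_le_pow_right (by norm_num) hfac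
    omega
  have hq5 : 5 ≤ q := by
    have h2le := hq.two_le
    by_contra hlt
    have hq4 : q = 4 := by omega
    subst hq4
    exact absurd hq (by norm_num)
  have : Fact q.Prime := ⟨hq⟩
  obtain ⟨g, hg⟩ := exists_prime_orderOf_dvd_card' q hqN
  exact no_big_prime (M : Subgroup G) hM9 hCM (g : G) (by rw [← hN]; exact g.2) q hq hq5
    (by rw [Subgroup.orderOf_coe]; exact hg)

end Cfsg.Agent.Lib.Helper35.D8CFGA
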