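import Mathlib
import Cfsg.Prelude.Def_SporadicB
import Cfsg.Agent.Lib.Helper35.AltMult
import Cfsg.Agent.Lib.Helper35.AltSix
import Cfsg.Agent.Lib.Helper66.SpinAlt
import Cfsg.Agent.Lib.Helper66.PrimeMult

set_option autoImplicit false

namespace Cfsg.Agent.Lib.Helper35.DoubleCover

open Subgroup Equiv Cfsg.Agent.Lib.Helper35 Cfsg.Agent.Lib.Helper66
open scoped commutatorElement

section Generic

variable {H G : Type*} [Group H] [Group G] (σ : H →* G)

/-- The elements of a central subgroup of order `2` square to `1`. -/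
theorem center_sq (hc2 : Nat.card (center H) = 2) {k : H} (hk : k ∈ center H) : k * k = 1 := by
  have h := pow_card_eq_one' (G := center H) (x := ⟨k, hk⟩)
  rw [hc2] at h
  have h' := congrArg Subtype.val h
  simpa [pow_two] using h'

/-- If an involution `x` maps to `σ x` and every involution of `G` is conjugate to `σ x`, every
element whose image squares to `1` squares to `1`. -/
theorem sq_eq_one_of_conj (hσ : Function.Surjective σ) (hker : σ.ker = center H)
    (hc2 : Nat.card (center H) = 2) {x : H} (hx : x * x = 1)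
    (hconj : ∀ t' : G, t' * t' = 1 → t' ≠ 1 → ∃ g : G, t' = g * σ x * g⁻¹)
    (w : H) (hw : σ w * σ w = 1) : w * w = 1 := by
  by_cases h1 : σ w = 1
  · have : w ∈ center H := by rw [← hker]; exact MonoidHom.mem_ker.mpr h1
    exact center_sq hc2 this
  · obtain ⟨g, hg⟩ := hconj (σ w) hw h1
    obtain ⟨g', rfl⟩ := hσ g
    obtain ⟨y, hy⟩ : ∃ y, y = g' * x * g'⁻¹ := ⟨_, rfl⟩
    have hyy : y * y = 1 := by
      rw [hy]
      calc g' * x * g'⁻¹ * (g' * x * g'⁻¹) = g' * (x * x) * g'⁻¹ := by group
        _ = 1 := by rw [hx, mul_one, mul_inv_cancel]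
    have hk : y⁻¹ * w ∈ center H := by
      rw [← hker, MonoidHom.mem_ker, map_mul, map_inv, hg, hy, map_mul, map_mul, map_inv]
      exact inv_mul_cancel _
    have hkk := center_sq hc2 hk
    have hcomm := Subgroup.mem_center_iff.mp hk
    calc w * w = y * ((y⁻¹ * w) * y) * (y⁻¹ * w) := by group
      _ = y * (y * (y⁻¹ * w)) * (y⁻¹ * w) := by rw [hcomm y]
      _ = (y * y) * ((y⁻¹ * w) * (y⁻¹ * w)) := by group
      _ = 1 := by rw [hyy, hkk, one_mul]

/-- Transfer: if the preimage of a subgroup of odd index has no central commutators, the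
centre meets the commutator subgroup trivially. -/
theorem commutator_inf_center_eq_bot [Finite H] (hσ : Function.Surjective σ)
    (hc2 : Nat.card (center H) = 2) (U : Subgroup G) (hU : U.index.Coprime 2)
    (hbot : ⁅U.comap σ, U.comap σ⁆ ⊓ center H = ⊥) : commutator H ⊓ center H = ⊥ := by
  rw [eq_bot_iff]
  intro z hz
  obtain ⟨hz1, hz2⟩ := Subgroup.mem_inf.mp hz
  rw [Subgroup.mem_bot]
  by_contra hne
  have hzz := center_sq hc2 hz2
  have hord : orderOf z = 2 := orderOf_eq_prime (by rw [pow_two]; exact hzz) hne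
  have hidx : (U.comap σ).index = U.index := Subgroup.index_comap_of_surjective U hσ
  have hmem := Stem.mem_commutator_of_coprime (U.comap σ) hz2 hz1
    (by rw [hidx, hord]; exact hU)
  have : z ∈ ⁅U.comap σ, U.comap σ⁆ ⊓ center H := Subgroup.mem_inf.mpr ⟨hmem, hz2⟩
  rw [hbot, Subgroup.mem_bot] at this
  exact hne this

/-- The preimage of a four-group is abelian when all lifts of involutions are involutions. -/
theorem v4_bot (hσ : Function.Surjective σ) (hker : σ.ker = center H)
    (hsq : ∀ w : H, σ w * σ w = 1 → w * w = 1) {a b : G} (ha : a * a = 1) (hb : b * b = 1)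
    (hab : a * b = b * a) :
    ⁅(closure ({a, b} : Set G)).comap σ, (closure ({a, b} : Set G)).comap σ⁆ = ⊥ := by
  obtain ⟨A, rfl⟩ := hσ a
  obtain ⟨B, rfl⟩ := hσ b
  have hA := hsq A ha
  have hB := hsq B hb
  have hAB := hsq (A * B) (by
    rw [map_mul]
    calc σ A * σ B * (σ A * σ B) = σ A * (σ B * σ A) * σ B := by group
      _ = σ A * (σ A * σ B) * σ B := by rw [hab]
      _ = (σ A * σ A) * (σ B * σ B) := by group
      _ = 1 := by rw [ha, hb, one_mul])
  have hcomm : A * B = B * A := by
    calc A * B = A * (A * B * (A * B)) * B := by rw [hAB, mul_one]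
      _ = (A * A) * (B * A) * (B * B) := by group
      _ = B * A := by rw [hA, hB, one_mul, mul_one]
  have himg : σ '' ({A, B} : Set H) = {σ A, σ B} := Set.image_pair σ A B
  rw [← himg, StemLocal.commutator_comap_closure σ (le_of_eq hker), eq_bot_iff]
  apply StemLocal.commutator_closure_le
  · intro a ha v hv
    rw [Subgroup.mem_bot] at hv
    subst hv
    simp
  · intro a ha b hb
    rw [Subgroup.mem_bot, commutatorElement_eq_one_iff_mul_comm]
    have ha' : a = A ∨ a = B := ha
    have hb' : b = A ∨ b = B := hb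
    rcases ha' with h | h <;> rcases hb' with h' | h' <;> rw [h, h']
    · exact hcomm
    · exact hcomm.symm

/-- The preimage of a dihedral group of order `8` has no central commutators when all lifts
of involutions are involutions. -/
theorem d8_bot (hσ : Function.Surjective σ) (hker : σ.ker = center H)
    (hsq : ∀ w : H, σ w * σ w = 1 → w * w = 1) {r s : G} (hr4 : r ^ 4 = 1) (hr2 : r ^ 2 ≠ 1)
    (hs : s * s = 1) (hsr : s * r * (s * r) = 1) :
    ⁅(closure ({r, s} : Set G)).comap σ, (closure ({r, s} : Set G)).comap σ⁆ ⊓ center H =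
      ⊥ := by
  obtain ⟨R, rfl⟩ := hσ r
  obtain ⟨S, rfl⟩ := hσ s
  have hS := hsq S hs
  have hSR := hsq (S * R) (by rw [map_mul]; exact hsr)
  have hR4 : R ^ 2 * R ^ 2 = 1 := hsq (R ^ 2) (by rw [map_pow, ← pow_add]; exact hr4)
  have hSinv : S⁻¹ = S := inv_eq_of_mul_eq_one_left hS
  have hconj : S * R * S = R⁻¹ := by
    apply eq_inv_of_mul_eq_one_left
    rw [mul_assoc (S * R) S R]
    exact hSR
  have hconj2 : S * R ^ 2 * S = (R ^ 2)⁻¹ := by
    calc S * R ^ 2 * S = (S * R * S) * (S * S)⁻¹ * (S * R * S) := by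
          rw [pow_two]; group
      _ = (R ^ 2)⁻¹ := by rw [hconj, hS, inv_one, mul_one, pow_two, mul_inv_rev]
  have himg : σ '' ({R, S} : Set H) = {σ R, σ S} := Set.image_pair σ R S
  rw [← himg, StemLocal.commutator_comap_closure σ (le_of_eq hker)]
  have hle : ⁅closure ({R, S} : Set H), closure ({R, S} : Set H)⁆ ≤ zpowers (R ^ 2) := by
    apply StemLocal.commutator_closure_le
    · intro a ha v hv
      obtain ⟨k, rfl⟩ := Subgroup.mem_zpowers_iff.mp hv
      have ha' : a = R ∨ a = S := ha
      rcases ha' with h | h <;> rw [h]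
      · have e1 : R * (R ^ 2) ^ k * R⁻¹ = (R ^ 2) ^ k := by
          have hc : Commute R ((R ^ 2) ^ k) := ((Commute.refl R).pow_right 2).zpow_right k
          rw [hc.eq, mul_inv_cancel_right]
        have e2 : R⁻¹ * (R ^ 2) ^ k * R = (R ^ 2) ^ k := by
          have hc : Commute R ((R ^ 2) ^ k) := ((Commute.refl R).pow_right 2).zpow_right k
          rw [mul_assoc, ← hc.eq, inv_mul_cancel_left]
        rw [e1, e2]
        exact ⟨Subgroup.zpow_mem_zpowers _ k, Subgroup.zpow_mem_zpowers _ k⟩
      · rw [hSinv]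
        have e1 : S * (R ^ 2) ^ k * S = ((R ^ 2) ^ k)⁻¹ := by
          have := map_zpow (MulAut.conj S) (R ^ 2) k
          rw [MulAut.conj_apply, MulAut.conj_apply, hSinv, hconj2, inv_zpow] at this
          exact this
        rw [e1]
        exact ⟨Subgroup.inv_mem _ (Subgroup.zpow_mem_zpowers _ k),
          Subgroup.inv_mem _ (Subgroup.zpow_mem_zpowers _ k)⟩
    · intro a ha b hb
      have hconj' : S * R⁻¹ * S = R := by
        calc S * R⁻¹ * S = S⁻¹ * R⁻¹ * S⁻¹ := by rw [hSinv]
          _ = (S * R * S)⁻¹ := by group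
          _ = R := by rw [hconj, inv_inv]
      have hRS : ⁅R, S⁆ = R ^ 2 := by
        rw [commutatorElement_def, hSinv, mul_assoc R S, mul_assoc R, hconj', pow_two]
      have ha' : a = R ∨ a = S := ha
      have hb' : b = R ∨ b = S := hb
      rcases ha' with h | h <;> rcases hb' with h' | h' <;> rw [h, h']
      · rw [commutatorElement_self]; exact Subgroup.one_mem _
      · rw [hRS]; exact Subgroup.mem_zpowers _
      · rw [← commutatorElement_inv, hRS]
        exact Subgroup.inv_mem _ (Subgroup.mem_zpowers _)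
      · rw [commutatorElement_self]; exact Subgroup.one_mem _
  have ho : orderOf (σ R ^ 2) = 2 := by
    apply orderOf_eq_prime
    · rw [← pow_mul]; exact hr4
    · exact hr2
  rw [eq_bot_iff]
  intro x hx
  obtain ⟨hx1, hx2⟩ := Subgroup.mem_inf.mp hx
  obtain ⟨k, rfl⟩ := Subgroup.mem_zpowers_iff.mp (hle hx1)
  rw [← hker, MonoidHom.mem_ker, map_zpow, map_pow, ← orderOf_dvd_iff_zpow_eq_one, ho] at hx2
  obtain ⟨m, rfl⟩ := hx2
  rw [Subgroup.mem_bot, zpow_mul, zpow_natCast, pow_two, hR4, one_zpow]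

/-- A complement of the centre: the elements whose cube is a product of commutators. -/
theorem exists_complement (hσ : Function.Surjective σ) (hker : σ.ker = center H)
    (hc2 : Nat.card (center H) = 2) (hbot : commutator H ⊓ center H = ⊥)
    (hcube : ∀ g : G, g ^ 3 ∈ commutator G) : ∃ L : Subgroup H, (center H).IsComplement' L := by
  refine ⟨((powMonoidHom 3 : Abelianization H →* Abelianization H).ker).comap Abelianization.of,
    Subgroup.isComplement'_of_disjoint_and_mul_eq_univ ?_ ?_⟩
  · rw [Subgroup.disjoint_def]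
    intro z hz hzL
    have hzz := center_sq hc2 hz
    have h3 : z ^ 3 ∈ commutator H := by
      rw [← Abelianization.ker_of, MonoidHom.mem_ker, map_pow]
      exact hzL
    have h3' : z ^ 3 ∈ commutator H ⊓ center H :=
      Subgroup.mem_inf.mpr ⟨h3, Subgroup.pow_mem _ hz 3⟩
    rw [hbot, Subgroup.mem_bot] at h3'
    calc z = z ^ 3 * (z * z)⁻¹ := by group
      _ = 1 := by rw [h3', hzz, inv_one, mul_one]
  · rw [Set.eq_univ_iff_forall]
    intro h
    have hmap : (commutator H).map σ = commutator G := by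
      rw [commutator_def, Subgroup.map_commutator, Subgroup.map_top_of_surjective σ hσ,
        ← commutator_def]
    have h1 : σ h ^ 3 ∈ (commutator H).map σ := by rw [hmap]; exact hcube _
    obtain ⟨l, hl, hl'⟩ := Subgroup.mem_map.mp h1
    have hc : h ^ 3 * l⁻¹ ∈ center H := by
      rw [← hker, MonoidHom.mem_ker, map_mul, map_inv, hl', map_pow, mul_inv_cancel]
    have hcc := center_sq hc2 hc
    refine Set.mem_mul.mpr ⟨h ^ 3 * l⁻¹, hc, (h ^ 3 * l⁻¹)⁻¹ * h, ?_, by group⟩
    show Abelianization.of ((h ^ 3 * l⁻¹)⁻¹ * h) ^ 3 = 1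
    have hl1 : Abelianization.of l = 1 := by
      rw [← MonoidHom.mem_ker, Abelianization.ker_of]; exact hl
    have e1 : Abelianization.of (h ^ 3 * l⁻¹) = Abelianization.of h ^ 3 := by
      rw [map_mul, map_inv, hl1, inv_one, mul_one, map_pow]
    have e2 : Abelianization.of (h ^ 3 * l⁻¹) * Abelianization.of (h ^ 3 * l⁻¹) = 1 := by
      rw [← map_mul, hcc, map_one]
    rw [map_mul, map_inv, e1, mul_pow, inv_pow]
    rw [e1] at e2
    calc ((Abelianization.of h ^ 3) ^ 3)⁻¹ * Abelianization.of h ^ 3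
        = ((Abelianization.of h ^ 3) * (Abelianization.of h ^ 3) * (Abelianization.of h ^ 3))⁻¹
            * Abelianization.of h ^ 3 := by rw [pow_three, mul_assoc]
      _ = 1 := by rw [e2, one_mul, inv_mul_cancel]

end Generic

section Conj

variable {α : Type*} [Fintype α] [DecidableEq α]

/-- On at most `7` points an even involution has cycle type `2, 2`. -/
theorem cycleType_invol (hα : Fintype.card α ≤ 7) (t : Perm α) (ht : t ∈ alternatingGroup α)
    (h2 : t * t = 1) (h1 : t ≠ 1) : t.cycleType = Multiset.replicate 2 2 := by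
  have hord : orderOf t = 2 := orderOf_eq_prime (by rw [pow_two]; exact h2) h1
  obtain ⟨k, hk⟩ := Equiv.Perm.cycleType_prime_order (σ := t) (by rw [hord]; exact Nat.prime_two)
  rw [hord] at hk
  have hsign : Perm.sign t = 1 := Perm.mem_alternatingGroup.mp ht
  rw [Perm.sign_of_cycleType, hk] at hsign
  have hsum := Perm.sum_cycleType t
  rw [hk] at hsum
  have hle : t.support.card ≤ Fintype.card α := Finset.card_le_univ _
  simp only [Multiset.sum_replicate, Multiset.card_replicate, smul_eq_mul] at hsign hsum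
  have hk3 : k ≤ 2 := by omega
  interval_cases k
  · exact absurd hsign (by decide)
  · exact hk
  · exact absurd hsign (by decide)

/-- On at most `7` points the involutions of the alternating group are conjugate in it. -/
theorem alt_conj (hα : Fintype.card α ≤ 7) (t t' : alternatingGroup α) (ht : t * t = 1)
    (ht1 : t ≠ 1) (ht' : t' * t' = 1) (ht1' : t' ≠ 1) :
    ∃ g : alternatingGroup α, t' = g * t * g⁻¹ := by
  have c1 := cycleType_invol hα t.1 t.2 (congrArg Subtype.val ht) (fun h => ht1 (Subtype.ext h))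
  have c2 := cycleType_invol hα t'.1 t'.2 (congrArg Subtype.val ht')
    (fun h => ht1' (Subtype.ext h))
  obtain ⟨g, hg⟩ := isConj_iff.mp
    (Perm.isConj_iff_cycleType_eq.mpr (c1.trans c2.symm) : IsConj t.1 t'.1)
  by_cases hs : Perm.sign g = 1
  · exact ⟨⟨g, Perm.mem_alternatingGroup.mpr hs⟩, Subtype.ext hg.symm⟩
  · have hs' : Perm.sign g = -1 := (Int.units_eq_one_or _).resolve_left hs
    obtain ⟨p, hp⟩ : ∃ p, t.1 p ≠ p := by
      by_contra hall
      push Not at hall
      exact ht1 (Subtype.ext (Perm.ext hall))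
    have htt : t.1 (t.1 p) = p := by
      have := congrArg (fun u : Perm α => u p) (congrArg Subtype.val ht : t.1 * t.1 = 1)
      exact this
    have hcs : t.1 * swap p (t.1 p) * (t.1)⁻¹ = swap p (t.1 p) := by
      rw [← swap_apply_apply, htt, swap_comm]
    have hcs' : swap p (t.1 p) * t.1 * (swap p (t.1 p))⁻¹ = t.1 := by
      calc swap p (t.1 p) * t.1 * (swap p (t.1 p))⁻¹
          = (t.1 * swap p (t.1 p) * (t.1)⁻¹) * t.1 * (swap p (t.1 p))⁻¹ := by rw [hcs]
        _ = t.1 := by group
    refine ⟨⟨g * swap p (t.1 p), ?_⟩, Subtype.ext ?_⟩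
    · rw [Perm.mem_alternatingGroup, map_mul, hs', Perm.sign_swap (Ne.symm hp)]
      rfl
    · show t'.1 = g * swap p (t.1 p) * t.1 * (g * swap p (t.1 p))⁻¹
      rw [← hg]
      calc g * t.1 * g⁻¹ = g * (swap p (t.1 p) * t.1 * (swap p (t.1 p))⁻¹) * g⁻¹ := by rw [hcs']
        _ = g * swap p (t.1 p) * t.1 * (g * swap p (t.1 p))⁻¹ := by group

end Conj

/-! ### Involutions of double covers of `A_n`, `n ≤ 7` -/

section Key

variable {H G : Type*} [Group H] [Group G] (σ : H →* G)

/-- If `G` has no involutions, the elements of order `2` are central. -/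
theorem mem_center_of_odd (hker : σ.ker = center H) (hodd : ∀ t : G, t * t = 1 → t = 1)
    (x : H) (hx : orderOf x = 2) : x ∈ center H := by
  have hx2 : x * x = 1 := by rw [← pow_two, ← hx]; exact pow_orderOf_eq_one x
  rw [← hker, MonoidHom.mem_ker]
  apply hodd
  rw [← map_mul, hx2, map_one]

/-- If the involutions of `G` are conjugate, a Sylow `2`-subgroup is a four-group or dihedral of
order `8` and cubes are products of commutators, then the elements of order `2` of a non-split
double cover are central. -/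
theorem mem_center_of_local [Finite H] (hσ : Function.Surjective σ) (hker : σ.ker = center H)
    (hc2 : Nat.card (center H) = 2) (hns : ∀ L : Subgroup H, ¬ (center H).IsComplement' L)
    (hconj : ∀ t t' : G, t * t = 1 → t ≠ 1 → t' * t' = 1 → t' ≠ 1 → ∃ g : G, t' = g * t * g⁻¹)
    (hcube : ∀ g : G, g ^ 3 ∈ commutator G)
    (hloc : (∃ a b : G, a * a = 1 ∧ b * b = 1 ∧ a * b = b * a ∧
        ((closure ({a, b} : Set G)).index).Coprime 2) ∨
      (∃ r s : G, r ^ 4 = 1 ∧ r ^ 2 ≠ 1 ∧ s * s = 1 ∧ s * r * (s * r) = 1 ∧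
        ((closure ({r, s} : Set G)).index).Coprime 2))
    (x : H) (hx : orderOf x = 2) : x ∈ center H := by
  by_contra hxc
  have hx2 : x * x = 1 := by rw [← pow_two, ← hx]; exact pow_orderOf_eq_one x
  have hσx1 : σ x ≠ 1 := fun h => hxc (by rw [← hker]; exact MonoidHom.mem_ker.mpr h)
  have hσx2 : σ x * σ x = 1 := by rw [← map_mul, hx2, map_one]
  have hsq := sq_eq_one_of_conj σ hσ hker hc2 hx2
    (fun t' h h' => hconj (σ x) t' hσx2 hσx1 h h')
  have hbot : commutator H ⊓ center H = ⊥ := by
    rcases hloc with ⟨a, b, ha, hb, hab, hidx⟩ | ⟨r, s, hr4, hr2, hs, hsr, hidx⟩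
    · apply commutator_inf_center_eq_bot σ hσ hc2 _ hidx
      rw [v4_bot σ hσ hker hsq ha hb hab, bot_inf_eq]
    · exact commutator_inf_center_eq_bot σ hσ hc2 _ hidx (d8_bot σ hσ hker hsq hr4 hr2 hs hsr)
  obtain ⟨L, hL⟩ := exists_complement σ hσ hker hc2 hbot hcube
  exact hns L hL

end Key

theorem card_alt4 : Nat.card (alternatingGroup (Fin 4)) = 2 ^ 2 * 3 := by
  rw [nat_card_alternatingGroup]; simp [Nat.factorial]

theorem card_alt5 : Nat.card (alternatingGroup (Fin 5)) = 2 ^ 2 * 15 := by
  rw [nat_card_alternatingGroup]; simp [Nat.factorial]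

theorem card_alt6 : Nat.card (alternatingGroup (Fin 6)) = 8 * 45 := by
  rw [nat_card_alternatingGroup]; simp [Nat.factorial]

theorem card_alt7 : Nat.card (alternatingGroup (Fin 7)) = 8 * 315 := by
  rw [nat_card_alternatingGroup]; simp [Nat.factorial]

theorem cube_mem (n : ℕ) (hn : 5 ≤ n) (g : alternatingGroup (Fin n)) :
    g ^ 3 ∈ commutator (alternatingGroup (Fin n)) := by
  rw [commutator_alternatingGroup_eq_top (by rw [Nat.card_eq_fintype_card, Fintype.card_fin]; exact hn)]
  exact Subgroup.mem_top _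

theorem cube_mem4 (g : alternatingGroup (Fin 4)) :
    g ^ 3 ∈ commutator (alternatingGroup (Fin 4)) := by
  have key : ∀ g : alternatingGroup (Fin 4), ∃ p q : alternatingGroup (Fin 4),
      g ^ 3 = ⁅p, q⁆ := by decide +kernel
  obtain ⟨p, q, h⟩ := key g
  rw [h, commutator_def]
  exact Subgroup.commutator_mem_commutator (Subgroup.mem_top _) (Subgroup.mem_top _)

/-- In a non-split double cover of `A_n`, `n ≤ 7`, the elements of order `2` are central. -/
theorem key (n : ℕ) (hn : n ≤ 7) {H : Type*} [Group H] [Finite H]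
    (σ : H →* alternatingGroup (Fin n)) (hσ : Function.Surjective σ)
    (hker : σ.ker = center H) (hc2 : Nat.card (center H) = 2)
    (hns : ∀ L : Subgroup H, ¬ (center H).IsComplement' L) (x : H) (hx : orderOf x = 2) :
    x ∈ center H := by
  interval_cases n
  · exact mem_center_of_odd σ hker (by decide) x hx
  · exact mem_center_of_odd σ hker (by decide) x hx
  · exact mem_center_of_odd σ hker (by decide) x hx
  · exact mem_center_of_odd σ hker (by decide) x hx
  · refine mem_center_of_local σ hσ hker hc2 hns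
      (alt_conj (by rw [Fintype.card_fin]; norm_num)) cube_mem4 (Or.inl ⟨AltMult.a4, AltMult.b4,
        by decide, by decide, by decide, ?_⟩) x hx
    exact AltMult.index_coprime_of_pair 2 Nat.prime_two (orderOf_eq_prime (by decide) (by decide))
      (orderOf_eq_prime (by decide) (by decide)) (by decide) (by decide) card_alt4 (by decide)
  · refine mem_center_of_local σ hσ hker hc2 hns
      (alt_conj (by rw [Fintype.card_fin]; norm_num)) (cube_mem 5 le_rfl)
      (Or.inl ⟨AltMult.a5, AltMult.b5, by decide, by decide, by decide, ?_⟩) x hx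
    exact AltMult.index_coprime_of_pair 2 Nat.prime_two (orderOf_eq_prime (by decide) (by decide))
      (orderOf_eq_prime (by decide) (by decide)) (by decide) (by decide) card_alt5 (by decide)
  · refine mem_center_of_local σ hσ hker hc2 hns
      (alt_conj (by rw [Fintype.card_fin]; norm_num)) (cube_mem 6 (by norm_num))
      (Or.inr ⟨AltSix.r6, AltSix.s6, by decide, by decide, by decide, by decide, ?_⟩) x hx
    exact PrimeMult.d8_index_coprime (r := AltSix.r6) (s := AltSix.s6)
      (by decide) (by decide) (by decide) (by decide) card_alt6 ⟨22, by norm_num⟩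
  · refine mem_center_of_local σ hσ hker hc2 hns
      (alt_conj (by rw [Fintype.card_fin])) (cube_mem 7 (by norm_num))
      (Or.inr ⟨AltMult.r7, AltMult.s7, by decide, by decide, by decide, by decide, ?_⟩) x hx
    exact PrimeMult.d8_index_coprime (r := AltMult.r7) (s := AltMult.s7)
      (by decide) (by decide) (by decide) (by decide) card_alt7 ⟨157, by norm_num⟩

/-- A finite non-split double cover of `A_n`, `n ≤ 7`, has a unique element of order `2`. -/
theorem part1 (n : ℕ) (H : Type) [Group H] [Finite H] (hn : n ≤ 7)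
    (hH : Cfsg.IsNonsplitDoubleCover H (alternatingGroup (Fin n))) (x y : H)
    (hx : orderOf x = 2) (hy : orderOf y = 2) : x = y := by
  obtain ⟨hc2, ⟨φ⟩, hns⟩ := hH
  obtain ⟨σ, hσdef⟩ : ∃ σ : H →* alternatingGroup (Fin n),
      σ = φ.toMonoidHom.comp (QuotientGroup.mk' (center H)) := ⟨_, rfl⟩
  have hσ : Function.Surjective σ := by
    rw [hσdef]
    exact φ.surjective.comp (QuotientGroup.mk'_surjective _)
  have hker : σ.ker = center H := by
    ext h
    rw [MonoidHom.mem_ker, hσdef]
    show φ (QuotientGroup.mk' (center H) h) = 1 ↔ h ∈ center H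
    rw [EmbeddingLike.map_eq_one_iff, QuotientGroup.mk'_apply, QuotientGroup.eq_one_iff]
  have hkey := key n hn σ hσ hker hc2 hns
  obtain ⟨u, -, hu⟩ := (Nat.card_eq_two_iff' (1 : center H)).mp hc2
  have hx1 : (⟨x, hkey x hx⟩ : center H) ≠ 1 := by
    intro h
    have h' : x = 1 := congrArg Subtype.val h
    rw [h', orderOf_one] at hx
    omega
  have hy1 : (⟨y, hkey y hy⟩ : center H) ≠ 1 := by
    intro h
    have h' : y = 1 := congrArg Subtype.val h
    rw [h', orderOf_one] at hy
    omega
  exact congrArg Subtype.val ((hu _ hx1).trans (hu _ hy1).symm)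

/-! ### The double cover of `A_8` -/

theorem finite_P (n : ℕ) : Finite ↥(SpinAlt.P n) := by
  have hfinA : Finite (SpinAlt.A n) :=
    Finite.of_injective (fun f : SpinAlt.A n => (f : SpinAlt.V n → SpinAlt.V n))
      DFunLike.coe_injective
  infer_instance

theorem center_P (n : ℕ) (hn : 4 ≤ n) :
    center ↥(SpinAlt.P n) = zpowers (SpinAlt.zP n) := by
  apply le_antisymm
  · intro x hx
    rw [← SpinAlt.proj_ker]
    apply MonoidHom.mem_ker.mpr
    have h1 : SpinAlt.proj n x ∈ center (alternatingGroup (Fin n)) := by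
      rw [Subgroup.mem_center_iff]
      intro g
      obtain ⟨g', rfl⟩ := SpinAlt.proj_surjective n g
      rw [← map_mul, ← map_mul, Subgroup.mem_center_iff.mp hx g']
    rw [alternatingGroup.center_eq_bot
      (by rw [Nat.card_eq_fintype_card, Fintype.card_fin]; exact hn)] at h1
    exact Subgroup.mem_bot.mp h1
  · exact Subgroup.zpowers_le.mpr (SpinAlt.zP_mem_center n)

/-- A central extension whose centre contains a non-trivial product of commutators does not
split. -/
theorem no_complement {Γ : Type*} [Group Γ] {z : Γ} (hz : z ∈ center Γ) (hz1 : z ≠ 1)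
    (hzc : z ∈ commutator Γ) (L : Subgroup Γ) : ¬ (center Γ).IsComplement' L := by
  intro hcompl
  have hcomm : commutator Γ ≤ L := by
    rw [commutator_eq_closure, Subgroup.closure_le]
    rintro _ ⟨g1, g2, rfl⟩
    obtain ⟨⟨⟨c1, hc1⟩, ⟨l1, hl1⟩⟩, h1⟩ := hcompl.2 g1
    obtain ⟨⟨⟨c2, hc2⟩, ⟨l2, hl2⟩⟩, h2⟩ := hcompl.2 g2
    have h1' : c1 * l1 = g1 := h1
    have h2' : c2 * l2 = g2 := h2
    have e : ⁅g1, g2⁆ = ⁅l1, l2⁆ := by
      rw [← h1', ← h2', commutatorElement_def, commutatorElement_def, mul_inv_rev, mul_inv_rev]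
      have k1 : ∀ g, c1 * g = g * c1 := fun g => (Subgroup.mem_center_iff.mp hc1 g).symm
      have k2 : ∀ g, c2 * g = g * c2 := fun g => (Subgroup.mem_center_iff.mp hc2 g).symm
      have e3 : l1 * (c2 * l2) * l1⁻¹ * (l2⁻¹ * c2⁻¹) = c2 * (l1 * l2 * l1⁻¹ * l2⁻¹) * c2⁻¹ := by
        rw [← mul_assoc l1 c2 l2, ← k2 l1]; group
      calc c1 * l1 * (c2 * l2) * (l1⁻¹ * c1⁻¹) * (l2⁻¹ * c2⁻¹)
          = (c1 * (l1 * (c2 * l2) * l1⁻¹)) * c1⁻¹ * (l2⁻¹ * c2⁻¹) := by group
        _ = l1 * (c2 * l2) * l1⁻¹ * (l2⁻¹ * c2⁻¹) := by rw [k1, mul_inv_cancel_right]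
        _ = l1 * l2 * l1⁻¹ * l2⁻¹ := by rw [e3, k2, mul_inv_cancel_right]
    show ⁅g1, g2⁆ ∈ L
    rw [e]
    exact L.mul_mem (L.mul_mem (L.mul_mem hl1 hl2) (L.inv_mem hl1)) (L.inv_mem hl2)
  have hdisj := hcompl.disjoint
  rw [Subgroup.disjoint_def] at hdisj
  exact hz1 (hdisj hz (hcomm hzc))

/-- Four pairwise anticommuting involutions: the product has square `1`. -/
theorem four_sq {R : Type*} [Ring R] (p q r s : R) (hp : p * p = 1) (hq : q * q = 1)
    (hr : r * r = 1) (hs : s * s = 1) (hqp : q * p = -(p * q)) (hrp : r * p = -(p * r))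
    (hsp : s * p = -(p * s)) (hrq : r * q = -(q * r)) (hsq : s * q = -(q * s))
    (hsr : s * r = -(r * s)) : p * q * (r * s) * (p * q * (r * s)) = 1 := by
  have hqp' : ∀ x, q * (p * x) = -(p * (q * x)) := fun x => by
    rw [← mul_assoc, hqp, neg_mul, mul_assoc]
  have hrp' : ∀ x, r * (p * x) = -(p * (r * x)) := fun x => by
    rw [← mul_assoc, hrp, neg_mul, mul_assoc]
  have hsp' : ∀ x, s * (p * x) = -(p * (s * x)) := fun x => by
    rw [← mul_assoc, hsp, neg_mul, mul_assoc]
  have hrq' : ∀ x, r * (q * x) = -(q * (r * x)) := fun x => by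
    rw [← mul_assoc, hrq, neg_mul, mul_assoc]
  have hsq' : ∀ x, s * (q * x) = -(q * (s * x)) := fun x => by
    rw [← mul_assoc, hsq, neg_mul, mul_assoc]
  have hsr' : ∀ x, s * (r * x) = -(r * (s * x)) := fun x => by
    rw [← mul_assoc, hsr, neg_mul, mul_assoc]
  have hp' : ∀ x, p * (p * x) = x := fun x => by rw [← mul_assoc, hp, one_mul]
  have hq' : ∀ x, q * (q * x) = x := fun x => by rw [← mul_assoc, hq, one_mul]
  have hr' : ∀ x, r * (r * x) = x := fun x => by rw [← mul_assoc, hr, one_mul]
  have hs' : ∀ x, s * (s * x) = x := fun x => by rw [← mul_assoc, hs, one_mul]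
  simp only [mul_assoc, hqp', hrp', hsp', hrq', hsq', hsr', hp', hq', hr', hs, mul_neg,
    neg_neg]

/-- The element `(v 0 1)(v 2 3)` of the double cover of `A_8`. -/
def xP1 : ↥(SpinAlt.P 8) :=
  ⟨(SpinAlt.vu (0 : Fin 8) 1 (by decide) * SpinAlt.vu (2 : Fin 8) 3 (by decide),
    swap (0 : Fin 8) 1 * swap (2 : Fin 8) 3), SpinAlt.pair_mem _ _⟩

/-- The element `(v 4 5)(v 6 7)` of the double cover of `A_8`. -/
def xP2 : ↥(SpinAlt.P 8) :=
  ⟨(SpinAlt.vu (4 : Fin 8) 5 (by decide) * SpinAlt.vu (6 : Fin 8) 7 (by decide),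
    swap (4 : Fin 8) 5 * swap (6 : Fin 8) 7), SpinAlt.pair_mem _ _⟩

/-- The element `(v 0 1)(v 2 3)(v 4 5)(v 6 7)` of the double cover of `A_8`. -/
def xP : ↥(SpinAlt.P 8) := xP1 * xP2

theorem xP_ne_one : xP ≠ 1 := by
  intro h
  have h1 := congrArg (fun x : ↥(SpinAlt.P 8) => x.1.2 0) h
  revert h1
  decide

theorem xP_ne_zP : xP ≠ SpinAlt.zP 8 := by
  intro h
  have h1 := congrArg (fun x : ↥(SpinAlt.P 8) => x.1.2 0) h
  revert h1
  decide

theorem xP_sq : xP ^ 2 = 1 := by
  rw [pow_two]
  apply Subtype.ext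
  apply Prod.ext
  · apply Units.ext
    show SpinAlt.v (0 : Fin 8) 1 * SpinAlt.v (2 : Fin 8) 3 *
        (SpinAlt.v (4 : Fin 8) 5 * SpinAlt.v (6 : Fin 8) 7) *
      (SpinAlt.v (0 : Fin 8) 1 * SpinAlt.v (2 : Fin 8) 3 *
        (SpinAlt.v (4 : Fin 8) 5 * SpinAlt.v (6 : Fin 8) 7)) = 1
    exact four_sq _ _ _ _ (SpinAlt.v_sq (by decide)) (SpinAlt.v_sq (by decide))
      (SpinAlt.v_sq (by decide)) (SpinAlt.v_sq (by decide))
      (SpinAlt.v_anti (by decide) (by decide) (by decide) (by decide))
      (SpinAlt.v_anti (by decide) (by decide) (by decide) (by decide))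
      (SpinAlt.v_anti (by decide) (by decide) (by decide) (by decide))
      (SpinAlt.v_anti (by decide) (by decide) (by decide) (by decide))
      (SpinAlt.v_anti (by decide) (by decide) (by decide) (by decide))
      (SpinAlt.v_anti (by decide) (by decide) (by decide) (by decide))
  · show swap (0 : Fin 8) 1 * swap 2 3 * (swap 4 5 * swap 6 7) *
      (swap 0 1 * swap 2 3 * (swap 4 5 * swap 6 7)) = 1
    decide

/-- A non-split double cover of `A_8` with two elements of order `2`. -/
theorem part2 : ∃ (H : Type) (_ : Group H) (_ : Finite H),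
    Cfsg.IsNonsplitDoubleCover H (alternatingGroup (Fin 8)) ∧
      ∃ x y : H, x ≠ y ∧ orderOf x = 2 ∧ orderOf y = 2 := by
  have hz1 : SpinAlt.zP 8 ≠ 1 := by
    intro h
    have := SpinAlt.zP_order 8
    rw [h, orderOf_one] at this
    omega
  refine ⟨↥(SpinAlt.P 8), inferInstance, finite_P 8, ⟨?_, ⟨?_⟩, ?_⟩, xP, SpinAlt.zP 8, xP_ne_zP,
    orderOf_eq_prime xP_sq xP_ne_one, SpinAlt.zP_order 8⟩
  · rw [center_P 8 (by norm_num), Nat.card_zpowers, SpinAlt.zP_order]
  · exact (QuotientGroup.quotientMulEquivOfEq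
      ((center_P 8 (by norm_num)).trans (SpinAlt.proj_ker 8).symm)).trans
      (QuotientGroup.quotientKerEquivOfSurjective (SpinAlt.proj 8) (SpinAlt.proj_surjective 8))
  · exact no_complement (SpinAlt.zP_mem_center 8) hz1 (SpinAlt.zP_mem_commutator (by norm_num))

end Cfsg.Agent.Lib.Helper35.DoubleCover
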