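-- Tables of permutations of the 24 points: `tab` is multiplicative, and subgroups generated by
-- explicit tables can be enumerated by a Boolean closure check.
import Cfsg.Agent.Lib.Helper7.GolayPerm

set_option autoImplicit false

namespace Cfsg.Agent.Lib.Helper35.PermTab

open Cfsg Cfsg.Agent.Lib.Helper7.GolayBase Cfsg.Agent.Lib.Helper7.GolayPerm

/-- The table of images of a permutation. -/
def tab (g : Equiv.Perm GolayPt) : List Nat := (List.range 24).map (fun i => idx (g (pt i)))

theorem rep_tab (g : Equiv.Perm GolayPt) : Rep g (tab g) := by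
  refine ⟨by simp [tab], fun p => ?_⟩
  have h := idx_lt p
  simp [tab, List.getD_eq_getElem?_getD, h, pt_idx]

theorem eq_tab_of_rep {g : Equiv.Perm GolayPt} {t : List Nat} (h : Rep g t) : t = tab g := by
  apply List.ext_getElem
  · rw [h.1]; simp [tab]
  · intro i h1 h2
    have hi : i < 24 := by rw [h.1] at h1; exact h1
    have e1 := h.2 (pt i)
    rw [idx_pt hi] at e1
    have e2 : t.getD i 0 = t[i] := by
      rw [List.getD_eq_getElem?_getD, List.getElem?_eq_getElem h1]; rfl
    rw [← e2, e1]
    simp [tab]

theorem tab_injective : Function.Injective tab := fun g h hgh =>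
  (rep_tab g).ext (hgh ▸ rep_tab h)

theorem tab_one : tab 1 = idT := (eq_tab_of_rep rep_one).symm

theorem tab_mul (g h : Equiv.Perm GolayPt) : tab (g * h) = tmul (tab g) (tab h) :=
  (eq_tab_of_rep ((rep_tab g).mul (rep_tab h))).symm

open Classical in
/-- The permutation with a given table (the identity for junk tables). -/
noncomputable def ofT (t : List Nat) : Equiv.Perm GolayPt :=
  if h : ∃ g : Equiv.Perm GolayPt, Rep g t then h.choose else 1

theorem rep_ofT {t : List Nat} (h : ∃ g : Equiv.Perm GolayPt, Rep g t) : Rep (ofT t) t := by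
  unfold ofT
  rw [dif_pos h]
  exact h.choose_spec

theorem ofT_eq {g : Equiv.Perm GolayPt} {t : List Nat} (h : Rep g t) : ofT t = g :=
  (rep_ofT ⟨g, h⟩).ext h

theorem tab_ofT {t : List Nat} (h : ∃ g : Equiv.Perm GolayPt, Rep g t) : tab (ofT t) = t :=
  (eq_tab_of_rep (rep_ofT h)).symm

theorem ofT_mem {H : Subgroup (Equiv.Perm GolayPt)} {t : List Nat}
    (h : ∃ g ∈ H, Rep g t) : ofT t ∈ H := by
  obtain ⟨g, hg, hr⟩ := h
  rw [ofT_eq hr]; exact hg

/-- Inverse of a table known to multiply with `t` to the identity. -/
theorem tab_inv_of_mul {g : Equiv.Perm GolayPt} {t' : List Nat} {h : Equiv.Perm GolayPt}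
    (hh : tab h = t') (hm : tmul t' (tab g) = idT) : tab g⁻¹ = t' := by
  have : h * g = 1 := by
    apply tab_injective
    rw [tab_mul, hh, hm, tab_one]
  rw [← hh, eq_inv_of_mul_eq_one_left this]

/-! ### Enumerating a subgroup generated by tables -/

/-- `L` is closed under left multiplication by the generators. -/
def closedB (gens L : List (List Nat)) : Bool :=
  gens.all fun g => L.all fun t => L.contains (tmul g t)

/-- Every generator has an inverse among the generators. -/
def invB (gens : List (List Nat)) : Bool :=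
  gens.all fun g => gens.any fun g' => tmul g' g == idT

/-- Every table of the list is the identity table or a generator times a later table. -/
def genB (gens : List (List Nat)) : List (List Nat) → Bool
  | [] => true
  | t :: rest => (t == idT || gens.any (fun g => rest.any (fun t' => t == tmul g t'))) &&
      genB gens rest

theorem genB_sound (S : Set (Equiv.Perm GolayPt)) (gens : List (List Nat))
    (hS' : ∀ t ∈ gens, ∃ g ∈ S, tab g = t) :
    ∀ L : List (List Nat), genB gens L = true → ∀ t ∈ L, ∃ h ∈ Subgroup.closure S, tab h = t := by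
  intro L
  induction L with
  | nil => intro _ t ht; simp at ht
  | cons t0 rest ih =>
    intro hg t ht
    simp only [genB, Bool.and_eq_true, Bool.or_eq_true, beq_iff_eq, List.any_eq_true] at hg
    obtain ⟨h0, hrest⟩ := hg
    rcases List.mem_cons.mp ht with rfl | ht
    · rcases h0 with h0 | ⟨g, hg, t', ht', h0⟩
      · exact ⟨1, Subgroup.one_mem _, h0 ▸ tab_one⟩
      · obtain ⟨x, hx, hxg⟩ := hS' g hg
        obtain ⟨h', hh', hh't⟩ := ih hrest t' ht'
        exact ⟨x * h', Subgroup.mul_mem _ (Subgroup.subset_closure hx) hh',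
          by rw [tab_mul, hxg, hh't, h0]⟩
    · exact ih hrest t ht

/-- Membership in a subgroup generated by tables. -/
theorem mem_closure_iff (S : Set (Equiv.Perm GolayPt)) (gens L : List (List Nat))
    (hS : ∀ g ∈ S, tab g ∈ gens) (hS' : ∀ t ∈ gens, ∃ g ∈ S, tab g = t)
    (hinv : invB gens = true) (hid : idT ∈ L) (hc : closedB gens L = true)
    (hg : genB gens L = true) (h : Equiv.Perm GolayPt) :
    h ∈ Subgroup.closure S ↔ tab h ∈ L := by
  have hcl : ∀ g ∈ gens, ∀ t ∈ L, tmul g t ∈ L := by
    intro g hg t ht
    simp only [closedB, List.all_eq_true, List.contains_iff_mem] at hc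
    exact hc g hg t ht
  have hinv' : ∀ x ∈ S, tab x⁻¹ ∈ gens := by
    intro x hx
    simp only [invB, List.all_eq_true, List.any_eq_true, beq_iff_eq] at hinv
    obtain ⟨g', hg', hm⟩ := hinv (tab x) (hS x hx)
    obtain ⟨x', _, hx'⟩ := hS' g' hg'
    rw [tab_inv_of_mul hx' hm]; exact hg'
  constructor
  · intro hh
    induction hh using Subgroup.closure_induction_left with
    | one => rw [tab_one]; exact hid
    | mul_left x hx y hy ih => rw [tab_mul]; exact hcl _ (hS x hx) _ ih
    | inv_mul_cancel x hx y hy ih => rw [tab_mul]; exact hcl _ (hinv' x hx) _ ih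
  · intro hh
    obtain ⟨h', hh', e⟩ := genB_sound S gens hS' L hg (tab h) hh
    rw [← tab_injective e]; exact hh'

/-- The order of a subgroup generated by tables. -/
theorem card_closure (S : Set (Equiv.Perm GolayPt)) (gens L : List (List Nat))
    (hS : ∀ g ∈ S, tab g ∈ gens) (hS' : ∀ t ∈ gens, ∃ g ∈ S, tab g = t)
    (hinv : invB gens = true) (hid : idT ∈ L) (hc : closedB gens L = true)
    (hg : genB gens L = true) (hnd : L.Nodup) :
    Nat.card (Subgroup.closure S) = L.length := by
  have key := mem_closure_iff S gens L hS hS' hinv hid hc hg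
  let f : Subgroup.closure S → L.toFinset := fun h =>
    ⟨tab (h : Equiv.Perm GolayPt), List.mem_toFinset.mpr ((key h).mp h.2)⟩
  have hf : Function.Bijective f := by
    constructor
    · intro a b hab
      exact Subtype.ext (tab_injective (congrArg Subtype.val hab))
    · rintro ⟨t, ht⟩
      obtain ⟨h', hh', e⟩ := genB_sound S gens hS' L hg t (List.mem_toFinset.mp ht)
      exact ⟨⟨h', hh'⟩, Subtype.ext e⟩
  rw [Nat.card_congr (Equiv.ofBijective f hf), Nat.card_eq_fintype_card, Fintype.card_coe,
    List.toFinset_card_of_nodup hnd]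

end Cfsg.Agent.Lib.Helper35.PermTab
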