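-- Explicit elements of M23 for its Schur multiplier: an elementary abelian group E of order 16,
-- an element c of order 3 acting on it without fixed points, a dihedral group of order 8
-- complementing E in a Sylow 2-subgroup, conjugators for the involutions, and a Sylow
-- 3-subgroup with an involution inverting one generator and centralising the other.
import Cfsg.Agent.Lib.Helper35.M23MData
import Cfsg.Agent.Lib.Helper35.PermTab
import Cfsg.Agent.Lib.Helper35.M23Aut
import Cfsg.Agent.Lib.Helper7.M24Main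

set_option autoImplicit false

namespace Cfsg.Agent.Lib.Helper35.M23MElts

open Cfsg Cfsg.Spor Cfsg.Agent.Lib.Helper7.GolayBase Cfsg.Agent.Lib.Helper7.GolayPerm
  Cfsg.Agent.Lib.Helper35.PermTab Cfsg.Agent.Lib.Helper35.M23MData
  Cfsg.Agent.Lib.Helper35.M23Aut

theorem rows_rep : ∀ r ∈ rows, ∃ g ∈ M24, Rep g r.2.2 := by
  intro r hr
  rw [Cfsg.Agent.Lib.Helper7.M24Main.M24_eq_H]
  exact chk_sound Cfsg.Agent.Lib.Helper7.M24Core.H Cfsg.Agent.Lib.Helper7.M24Data.tabs
    Cfsg.Agent.Lib.Helper7.M24Core.tabs_rep rows [] (by simp) rows_chk r hr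

/-- Tables of the program fixing the index 23 are tables of elements of `M23`. -/
theorem ofT_spec {t : List Nat} (ht : t ∈ rows.map (fun r => r.2.2)) (h23 : t.getD 23 0 = 23) :
    ofT t ∈ M23 ∧ tab (ofT t) = t := by
  obtain ⟨r, hr, rfl⟩ := List.mem_map.mp ht
  obtain ⟨g, hg, hrep⟩ := rows_rep r hr
  rw [ofT_eq hrep]
  refine ⟨mem_M23.mpr ⟨hg, ?_⟩, (eq_tab_of_rep hrep).symm⟩
  have h1 := hrep.2 none
  have h2 : idx (none : GolayPt) = 23 := rfl
  rw [h2, h23] at h1
  exact idx_injective (h1.symm.trans h2.symm)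

/-- Generators of the elementary abelian group. -/
noncomputable def e1 : Equiv.Perm GolayPt := ofT e1T
/-- Generators of the elementary abelian group. -/
noncomputable def e2 : Equiv.Perm GolayPt := ofT e2T
/-- Generators of the elementary abelian group. -/
noncomputable def e3 : Equiv.Perm GolayPt := ofT e3T
/-- Generators of the elementary abelian group. -/
noncomputable def e4 : Equiv.Perm GolayPt := ofT e4T
/-- The element of order three. -/
noncomputable def c : Equiv.Perm GolayPt := ofT cT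
/-- An element of order seven. -/
noncomputable def y : Equiv.Perm GolayPt := ofT yT
/-- First dihedral generator. -/
noncomputable def s1 : Equiv.Perm GolayPt := ofT s1T
/-- Second dihedral generator. -/
noncomputable def s2 : Equiv.Perm GolayPt := ofT s2T
/-- Conjugator. -/
noncomputable def g1 : Equiv.Perm GolayPt := ofT g1T
/-- Conjugator. -/
noncomputable def g2 : Equiv.Perm GolayPt := ofT g2T
/-- Conjugator. -/
noncomputable def g3 : Equiv.Perm GolayPt := ofT g3T
/-- Second generator of the Sylow 3-subgroup. -/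
noncomputable def b : Equiv.Perm GolayPt := ofT bT
/-- The inverting involution. -/
noncomputable def t : Equiv.Perm GolayPt := ofT tT

theorem e1_spec : e1 ∈ M23 ∧ tab e1 = e1T := ofT_spec (by decide +kernel) (by decide)
theorem e2_spec : e2 ∈ M23 ∧ tab e2 = e2T := ofT_spec (by decide +kernel) (by decide)
theorem e3_spec : e3 ∈ M23 ∧ tab e3 = e3T := ofT_spec (by decide +kernel) (by decide)
theorem e4_spec : e4 ∈ M23 ∧ tab e4 = e4T := ofT_spec (by decide +kernel) (by decide)
theorem c_spec : c ∈ M23 ∧ tab c = cT := ofT_spec (by decide +kernel) (by decide)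
theorem y_spec : y ∈ M23 ∧ tab y = yT := ofT_spec (by decide +kernel) (by decide)
theorem s1_spec : s1 ∈ M23 ∧ tab s1 = s1T := ofT_spec (by decide +kernel) (by decide)
theorem s2_spec : s2 ∈ M23 ∧ tab s2 = s2T := ofT_spec (by decide +kernel) (by decide)
theorem g1_spec : g1 ∈ M23 ∧ tab g1 = g1T := ofT_spec (by decide +kernel) (by decide)
theorem g2_spec : g2 ∈ M23 ∧ tab g2 = g2T := ofT_spec (by decide +kernel) (by decide)
theorem g3_spec : g3 ∈ M23 ∧ tab g3 = g3T := ofT_spec (by decide +kernel) (by decide)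
theorem b_spec : b ∈ M23 ∧ tab b = bT := ofT_spec (by decide +kernel) (by decide)
theorem t_spec : t ∈ M23 ∧ tab t = tT := ofT_spec (by decide +kernel) (by decide)

/-- The elementary abelian group of order 16. -/
noncomputable def E : Subgroup (Equiv.Perm GolayPt) := Subgroup.closure {e1, e2, e3, e4}

theorem E_gens : ∀ g ∈ ({e1, e2, e3, e4} : Set (Equiv.Perm GolayPt)), tab g ∈ [e1T, e2T, e3T, e4T] := by
  rintro g (rfl | rfl | rfl | rfl)
  · rw [e1_spec.2]; simp
  · rw [e2_spec.2]; simp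
  · rw [e3_spec.2]; simp
  · rw [e4_spec.2]; simp

theorem E_gens' : ∀ t ∈ [e1T, e2T, e3T, e4T],
    ∃ g ∈ ({e1, e2, e3, e4} : Set (Equiv.Perm GolayPt)), tab g = t := by
  intro t ht
  simp only [List.mem_cons, List.not_mem_nil, or_false] at ht
  rcases ht with rfl | rfl | rfl | rfl
  · exact ⟨e1, by simp, e1_spec.2⟩
  · exact ⟨e2, by simp, e2_spec.2⟩
  · exact ⟨e3, by simp, e3_spec.2⟩
  · exact ⟨e4, by simp, e4_spec.2⟩

theorem EL_gen : genB [e1T, e2T, e3T, e4T] EL = true := by decide +kernel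

theorem E_iff (h : Equiv.Perm GolayPt) : h ∈ E ↔ tab h ∈ EL :=
  mem_closure_iff _ [e1T, e2T, e3T, e4T] EL E_gens E_gens' (by decide +kernel) (by decide +kernel)
    (by decide +kernel) EL_gen h

theorem E_card : Nat.card E = 16 :=
  card_closure _ [e1T, e2T, e3T, e4T] EL E_gens E_gens' (by decide +kernel) (by decide +kernel)
    (by decide +kernel) EL_gen (by decide +kernel)

theorem E_ofT {t : List Nat} (ht : t ∈ EL) : ofT t ∈ E ∧ tab (ofT t) = t := by
  obtain ⟨h, hh, e⟩ := genB_sound _ [e1T, e2T, e3T, e4T] E_gens' EL EL_gen t ht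
  rw [ofT_eq (e ▸ rep_tab h)]; exact ⟨hh, e⟩

theorem E_le : E ≤ M23 := by
  unfold E
  rw [Subgroup.closure_le]
  rintro g (rfl | rfl | rfl | rfl)
  · exact e1_spec.1
  · exact e2_spec.1
  · exact e3_spec.1
  · exact e4_spec.1

theorem E_all (P : Equiv.Perm GolayPt → Prop) (h : ∀ t ∈ EL, ∀ e, tab e = t → P e) :
    ∀ e ∈ E, P e := fun e he => h _ ((E_iff e).mp he) e rfl

/-! ### Table facts -/

theorem cinv_tab : tab c⁻¹ = tmul cT cT :=
  tab_inv_of_mul (h := c * c) (by rw [tab_mul, c_spec.2]) (by rw [c_spec.2]; decide +kernel)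

theorem s1_sq : s1 * s1 = 1 := by
  apply tab_injective; rw [tab_mul, s1_spec.2, tab_one]; decide +kernel

theorem s2_sq : s2 * s2 = 1 := by
  apply tab_injective; rw [tab_mul, s2_spec.2, tab_one]; decide +kernel

theorem t_sq : t * t = 1 := by
  apply tab_injective; rw [tab_mul, t_spec.2, tab_one]; decide +kernel

theorem s1_inv : s1⁻¹ = s1 := inv_eq_of_mul_eq_one_left s1_sq
theorem s2_inv : s2⁻¹ = s2 := inv_eq_of_mul_eq_one_left s2_sq
theorem t_inv : t⁻¹ = t := inv_eq_of_mul_eq_one_left t_sq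

theorem E_c : ∀ e ∈ E, c * e * c⁻¹ ∈ E := E_all _ (fun t ht e he => by
  rw [E_iff, tab_mul, tab_mul, he, c_spec.2, cinv_tab]
  exact (by decide +kernel : ∀ t ∈ EL, tmul (tmul cT t) (tmul cT cT) ∈ EL) t ht)

theorem E_c' : ∀ e ∈ E, c⁻¹ * e * c ∈ E := E_all _ (fun t ht e he => by
  rw [E_iff, tab_mul, tab_mul, he, c_spec.2, cinv_tab]
  exact (by decide +kernel : ∀ t ∈ EL, tmul (tmul (tmul cT cT) t) cT ∈ EL) t ht)

theorem E_fpf : ∀ e ∈ E, e * (c * e * c⁻¹) * (c⁻¹ * e * c) = 1 := E_all _ (fun t ht e he => by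
  apply tab_injective
  simp only [tab_mul, he, c_spec.2, cinv_tab, tab_one]
  exact (by decide +kernel : ∀ t ∈ EL,
    tmul (tmul t (tmul (tmul cT t) (tmul cT cT))) (tmul (tmul (tmul cT cT) t) cT) = idT) t ht)

theorem E_s1 : ∀ e ∈ E, s1 * e * s1⁻¹ ∈ E := E_all _ (fun t ht e he => by
  rw [s1_inv, E_iff, tab_mul, tab_mul, he, s1_spec.2]
  exact (by decide +kernel : ∀ t ∈ EL, tmul (tmul s1T t) s1T ∈ EL) t ht)

theorem E_s2 : ∀ e ∈ E, s2 * e * s2⁻¹ ∈ E := E_all _ (fun t ht e he => by
  rw [s2_inv, E_iff, tab_mul, tab_mul, he, s2_spec.2]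
  exact (by decide +kernel : ∀ t ∈ EL, tmul (tmul s2T t) s2T ∈ EL) t ht)

theorem E_sq : ∀ e ∈ E, e * e = 1 := E_all _ (fun t ht e he => by
  apply tab_injective
  rw [tab_mul, he, tab_one]
  exact (by decide +kernel : ∀ t ∈ EL, tmul t t = idT) t ht)

theorem s1_c : s1 * c * s1⁻¹ = c := by
  apply tab_injective
  rw [s1_inv, tab_mul, tab_mul, s1_spec.2, c_spec.2]; decide +kernel

theorem s2_c : s2 * c * s2⁻¹ = c⁻¹ := by
  apply tab_injective
  rw [s2_inv, tab_mul, tab_mul, s2_spec.2, c_spec.2, cinv_tab]; decide +kernel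

theorem D_E : ∀ i j : ℕ, i < 4 → j < 2 → (s1 * s2) ^ i * s1 ^ j ∈ E → i = 0 ∧ j = 0 := by
  intro i j hi hj h
  rw [E_iff] at h
  interval_cases i <;> interval_cases j <;>
    first
    | exact ⟨rfl, rfl⟩
    | (exfalso
       simp only [pow_succ, pow_zero, one_mul, mul_one, tab_mul, s1_spec.2, s2_spec.2] at h
       revert h
       decide +kernel)

/-- The reference involution. -/
noncomputable def w0 : Equiv.Perm GolayPt := ofT w0T
/-- A conjugate of the reference involution. -/
noncomputable def f0 : Equiv.Perm GolayPt := ofT fT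
/-- A conjugate of the reference involution. -/
noncomputable def f1 : Equiv.Perm GolayPt := ofT gT

theorem w0_spec : w0 ∈ E ∧ tab w0 = w0T := E_ofT (by decide +kernel)
theorem f0_spec : f0 ∈ E ∧ tab f0 = fT := E_ofT (by decide +kernel)
theorem f1_spec : f1 ∈ E ∧ tab f1 = gT := E_ofT (by decide +kernel)

theorem conj_s1 : g1 * w0 = s1 * g1 := by
  apply tab_injective
  rw [tab_mul, tab_mul, g1_spec.2, w0_spec.2, s1_spec.2]; decide +kernel

theorem conj_s2 : g2 * w0 = s2 * g2 := by
  apply tab_injective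
  rw [tab_mul, tab_mul, g2_spec.2, w0_spec.2, s2_spec.2]; decide +kernel

theorem conj_r2 : g3 * w0 = (s1 * s2) * (s1 * s2) * g3 := by
  apply tab_injective
  simp only [tab_mul, g3_spec.2, w0_spec.2, s1_spec.2, s2_spec.2]; decide +kernel

theorem conjL_spec : ∀ p ∈ conjL, p.1 ∈ rows.map (fun r => r.2.2) ∧ p.1.getD 23 0 = 23 := by
  decide +kernel

theorem E_conj : ∀ e ∈ E, e = 1 ∨ ∃ u ∈ M23, u * w0 = e * u := E_all _ (fun t ht e he => by
  have key : ∀ t ∈ EL, t = idT ∨ ∃ p ∈ conjL, p.2 = t ∧ tmul p.1 w0T = tmul t p.1 := by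
    decide +kernel
  rcases key t ht with h | ⟨p, hp, hpt, hpc⟩
  · left
    apply tab_injective
    rw [he, h, tab_one]
  · right
    obtain ⟨h1, h2⟩ := ofT_spec (conjL_spec p hp).1 (conjL_spec p hp).2
    refine ⟨ofT p.1, h1, ?_⟩
    apply tab_injective
    rw [tab_mul, tab_mul, h2, w0_spec.2, he, ← hpt, hpc, hpt])

theorem y_rel1 : y * w0 = f0 * y := by
  apply tab_injective
  simp only [tab_mul, y_spec.2, w0_spec.2, f0_spec.2]; decide +kernel

theorem y_rel2 : (y * y) * w0 = f1 * (y * y) := by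
  apply tab_injective
  simp only [tab_mul, y_spec.2, w0_spec.2, f1_spec.2]; decide +kernel

theorem y_rel12 : (y * y * y * y * y) * w0 = (w0 * f0) * (y * y * y * y * y) := by
  apply tab_injective
  simp only [tab_mul, y_spec.2, w0_spec.2, f0_spec.2]; decide +kernel

theorem y_rel13 : (y * y * y) * w0 = (w0 * f1) * (y * y * y) := by
  apply tab_injective
  simp only [tab_mul, y_spec.2, w0_spec.2, f1_spec.2]; decide +kernel

theorem y_rel23 : (y * y * y * y * y * y) * w0 = (f0 * f1) * (y * y * y * y * y * y) := by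
  apply tab_injective
  simp only [tab_mul, y_spec.2, w0_spec.2, f0_spec.2, f1_spec.2]; decide +kernel

theorem y_rel123 : (y * y * y * y) * w0 = (w0 * (f0 * f1)) * (y * y * y * y) := by
  apply tab_injective
  simp only [tab_mul, y_spec.2, w0_spec.2, f0_spec.2, f1_spec.2]; decide +kernel

/-! ### The dihedral group and the Sylow 2-subgroup -/

/-- The dihedral group of order 8. -/
noncomputable def D : Subgroup (Equiv.Perm GolayPt) := Subgroup.closure {s1, s2}

theorem D_gens : ∀ g ∈ ({s1, s2} : Set (Equiv.Perm GolayPt)), tab g ∈ [s1T, s2T] := by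
  rintro g (rfl | rfl)
  · rw [s1_spec.2]; simp
  · rw [s2_spec.2]; simp

theorem D_gens' : ∀ t ∈ [s1T, s2T], ∃ g ∈ ({s1, s2} : Set (Equiv.Perm GolayPt)), tab g = t := by
  intro t ht
  simp only [List.mem_cons, List.not_mem_nil, or_false] at ht
  rcases ht with rfl | rfl
  · exact ⟨s1, by simp, s1_spec.2⟩
  · exact ⟨s2, by simp, s2_spec.2⟩

theorem DL_gen : genB [s1T, s2T] DL = true := by decide +kernel

theorem D_iff (h : Equiv.Perm GolayPt) : h ∈ D ↔ tab h ∈ DL :=
  mem_closure_iff _ [s1T, s2T] DL D_gens D_gens' (by decide +kernel) (by decide +kernel)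
    (by decide +kernel) DL_gen h

theorem D_card : Nat.card D = 8 :=
  card_closure _ [s1T, s2T] DL D_gens D_gens' (by decide +kernel) (by decide +kernel)
    (by decide +kernel) DL_gen (by decide +kernel)

theorem E_inf_D : E ⊓ D = ⊥ := by
  rw [eq_bot_iff]
  rintro x ⟨hE, hD⟩
  rw [Subgroup.mem_bot]
  apply tab_injective
  rw [tab_one]
  exact (by decide +kernel : ∀ t ∈ EL, t ∈ DL → t = idT) _ ((E_iff x).mp hE) ((D_iff x).mp hD)

theorem D_le_normalizer : D ≤ Subgroup.normalizer (E : Set (Equiv.Perm GolayPt)) := by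
  have key : ∀ s : Equiv.Perm GolayPt, s⁻¹ = s → (∀ e ∈ E, s * e * s⁻¹ ∈ E) →
      s ∈ Subgroup.normalizer (E : Set (Equiv.Perm GolayPt)) := by
    intro s hs hsE
    rw [Subgroup.mem_normalizer_iff]
    intro h
    refine ⟨hsE h, fun hh => ?_⟩
    have := hsE _ hh
    rw [hs] at this
    have hs2 : s * s = 1 := by
      have := mul_inv_cancel s; rwa [hs] at this
    have e : s * (s * h * s) * s = (s * s) * h * (s * s) := by group
    rwa [e, hs2, one_mul, mul_one] at this
  unfold D
  rw [Subgroup.closure_le]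
  rintro s (rfl | rfl)
  · exact key _ s1_inv E_s1
  · exact key _ s2_inv E_s2

/-! ### The Sylow 3-subgroup -/

theorem binv_tab : tab b⁻¹ = tmul bT bT :=
  tab_inv_of_mul (h := b * b) (by rw [tab_mul, b_spec.2]) (by rw [b_spec.2]; decide +kernel)

theorem cb_comm : c * b = b * c := by
  apply tab_injective
  rw [tab_mul, tab_mul, c_spec.2, b_spec.2]; decide +kernel

theorem t_c : t * c * t⁻¹ = c⁻¹ := by
  apply tab_injective
  rw [t_inv, tab_mul, tab_mul, t_spec.2, c_spec.2, cinv_tab]; decide +kernel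

theorem t_b : t * b * t⁻¹ = b := by
  apply tab_injective
  rw [t_inv, tab_mul, tab_mul, t_spec.2, b_spec.2]; decide +kernel

theorem P9_eq : Subgroup.closure ({c, b} : Set (Equiv.Perm GolayPt)) =
    Subgroup.closure ({c, c⁻¹, b, b⁻¹} : Set (Equiv.Perm GolayPt)) := by
  apply le_antisymm
  · apply Subgroup.closure_mono
    rintro g (rfl | rfl) <;> simp
  · rw [Subgroup.closure_le]
    rintro g (rfl | rfl | rfl | rfl)
    · exact Subgroup.subset_closure (by simp)
    · exact Subgroup.inv_mem _ (Subgroup.subset_closure (by simp))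
    · exact Subgroup.subset_closure (by simp)
    · exact Subgroup.inv_mem _ (Subgroup.subset_closure (by simp))

theorem P9_card : Nat.card (Subgroup.closure ({c, b} : Set (Equiv.Perm GolayPt))) = 9 := by
  rw [P9_eq]
  refine card_closure _ [cT, tmul cT cT, bT, tmul bT bT] P9L ?_ ?_ (by decide +kernel)
    (by decide +kernel) (by decide +kernel) (by decide +kernel) (by decide +kernel)
  · rintro g (rfl | rfl | rfl | rfl)
    · rw [c_spec.2]; simp
    · rw [cinv_tab]; simp
    · rw [b_spec.2]; simp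
    · rw [binv_tab]; simp
  · intro t ht
    simp only [List.mem_cons, List.not_mem_nil, or_false] at ht
    rcases ht with rfl | rfl | rfl | rfl
    · exact ⟨c, by simp, c_spec.2⟩
    · exact ⟨c⁻¹, by simp, cinv_tab⟩
    · exact ⟨b, by simp, b_spec.2⟩
    · exact ⟨b⁻¹, by simp, binv_tab⟩

end Cfsg.Agent.Lib.Helper35.M23MElts
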