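-- Scott's lemma for permutation modules and Ree's inequality on an orbit: if `x * y * z = 1`
-- and the group generated by `x, y` has an orbit `S`, then the ranks of `1 - x`, `1 - y`, `1 - z`
-- on the rational permutation module add up to at least `2 * (|S| - 1)`. A product of `k`
-- transpositions has rank at most `k`.
import Mathlib

set_option autoImplicit false
set_option linter.unusedSectionVars false

namespace Cfsg.Agent.Lib.Helper35.Scott

open Equiv

variable {α : Type*} [Fintype α] [DecidableEq α]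

/-- The permutation action on rational functions. -/
noncomputable def T (g : Perm α) : (α → ℚ) →ₗ[ℚ] (α → ℚ) :=
  LinearMap.funLeft ℚ ℚ (g.symm : α → α)

theorem T_apply (g : Perm α) (f : α → ℚ) (a : α) : T g f a = f (g.symm a) := rfl

theorem T_one (f : α → ℚ) : T (1 : Perm α) f = f := rfl

theorem T_mul (g h : Perm α) (f : α → ℚ) : T (g * h) f = T g (T h f) := rfl

theorem T_inv_cancel (g : Perm α) (f : α → ℚ) : T g (T g⁻¹ f) = f := by
  rw [← T_mul, mul_inv_cancel, T_one]

theorem T_inv_cancel' (g : Perm α) (f : α → ℚ) : T g⁻¹ (T g f) = f := by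
  rw [← T_mul, inv_mul_cancel, T_one]

/-- The commutator space `[V, g]`. -/
noncomputable def A (g : Perm α) : Submodule ℚ (α → ℚ) := LinearMap.range (LinearMap.id - T g)

/-- The rank of `1 - g`. -/
noncomputable def rk (g : Perm α) : ℕ := Module.finrank ℚ ↥(A g)

theorem sub_T_mem (g : Perm α) (f : α → ℚ) : f - T g f ∈ A g := ⟨f, rfl⟩

theorem A_swap_le (a b : α) :
    A (swap a b) ≤ Submodule.span ℚ {(Pi.single a 1 - Pi.single b 1 : α → ℚ)} := by
  rintro _ ⟨f, rfl⟩
  rw [Submodule.mem_span_singleton]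
  refine ⟨f a - f b, ?_⟩
  funext c
  show (f a - f b) * ((Pi.single a 1 : α → ℚ) c - (Pi.single b 1 : α → ℚ) c) =
    f c - f ((swap a b).symm c)
  rw [Equiv.symm_swap, Pi.single_apply, Pi.single_apply]
  by_cases hca : c = a
  · subst hca
    by_cases hcb : c = b
    · subst hcb; simp
    · rw [swap_apply_left, if_pos rfl, if_neg hcb]; ring
  · by_cases hcb : c = b
    · subst hcb
      rw [swap_apply_right, if_neg hca, if_pos rfl]; ring
    · rw [swap_apply_of_ne_of_ne hca hcb, if_neg hca, if_neg hcb]; ring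

theorem rk_swap_le (a b : α) : rk (swap a b) ≤ 1 := by
  unfold rk
  calc Module.finrank ℚ ↥(A (swap a b))
      ≤ Module.finrank ℚ ↥(Submodule.span ℚ {(Pi.single a 1 - Pi.single b 1 : α → ℚ)}) :=
        Submodule.finrank_mono (A_swap_le a b)
    _ ≤ 1 := by
        have := finrank_span_le_card (R := ℚ) ({(Pi.single a 1 - Pi.single b 1 : α → ℚ)} : Set (α → ℚ))
        simpa using this

theorem A_mul_le (g h : Perm α) : A (g * h) ≤ A g ⊔ (A h).map (T g) := by
  rintro _ ⟨f, rfl⟩
  show f - T (g * h) f ∈ A g ⊔ (A h).map (T g)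
  have e : f - T (g * h) f = (f - T g f) + T g (f - T h f) := by
    rw [T_mul, map_sub]; abel
  rw [e]
  exact Submodule.add_mem_sup (sub_T_mem g f) (Submodule.mem_map_of_mem (sub_T_mem h f))

theorem rk_mul_le (g h : Perm α) : rk (g * h) ≤ rk g + rk h := by
  unfold rk
  calc Module.finrank ℚ ↥(A (g * h))
      ≤ Module.finrank ℚ ↥(A g ⊔ (A h).map (T g)) := Submodule.finrank_mono (A_mul_le g h)
    _ ≤ Module.finrank ℚ ↥(A g) + Module.finrank ℚ ↥((A h).map (T g)) :=
        Submodule.finrank_add_le_finrank_add_finrank _ _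
    _ ≤ Module.finrank ℚ ↥(A g) + Module.finrank ℚ ↥(A h) :=
        Nat.add_le_add_left (Submodule.finrank_map_le _ _) _

theorem rk_one : rk (1 : Perm α) = 0 := by
  unfold rk
  have : A (1 : Perm α) = ⊥ := by
    rw [eq_bot_iff]
    rintro _ ⟨f, rfl⟩
    show f - T 1 f ∈ (⊥ : Submodule ℚ (α → ℚ))
    rw [T_one, sub_self]
    exact Submodule.zero_mem _
  rw [this, finrank_bot]

/-- `g` is a product of at most `k` transpositions. -/
def SwapLen (k : ℕ) (g : Perm α) : Prop :=
  ∃ l : List (Perm α), (∀ s ∈ l, ∃ a b, s = swap a b) ∧ l.prod = g ∧ l.length ≤ k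

theorem rk_list_prod_le (l : List (Perm α)) (hl : ∀ s ∈ l, ∃ a b, s = swap a b) :
    rk l.prod ≤ l.length := by
  induction l with
  | nil => rw [List.prod_nil, rk_one]; exact Nat.zero_le _
  | cons s l ih =>
    rw [List.prod_cons, List.length_cons]
    obtain ⟨a, b, rfl⟩ := hl s (List.mem_cons_self)
    have h1 := rk_mul_le (swap a b) l.prod
    have h2 := rk_swap_le a b
    have h3 := ih (fun s hs => hl s (List.mem_cons_of_mem _ hs))
    omega

theorem rk_le_of_swapLen {k : ℕ} {g : Perm α} (h : SwapLen k g) : rk g ≤ k := by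
  obtain ⟨l, hl, rfl, hk⟩ := h
  exact le_trans (rk_list_prod_le l hl) hk

theorem SwapLen.conj {k : ℕ} {g : Perm α} (h : SwapLen k g) (u : Perm α) :
    SwapLen k (u * g * u⁻¹) := by
  obtain ⟨l, hl, rfl, hk⟩ := h
  refine ⟨l.map (fun s => u * s * u⁻¹), ?_, ?_, by rw [List.length_map]; exact hk⟩
  · intro s hs
    obtain ⟨s', hs', rfl⟩ := List.mem_map.mp hs
    obtain ⟨a, b, rfl⟩ := hl s' hs'
    exact ⟨u a, u b, (swap_apply_apply u a b).symm⟩
  · clear hl hk
    induction l with
    | nil => simp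
    | cons s l ih =>
      rw [List.map_cons, List.prod_cons, List.prod_cons, ih]
      group

theorem rk_add_one_le [Nonempty α] (g : Perm α) : rk g + 1 ≤ Fintype.card α := by
  have h := LinearMap.finrank_range_add_finrank_ker (LinearMap.id - T g)
  rw [Module.finrank_fintype_fun_eq_card] at h
  have hpos : 0 < Module.finrank ℚ ↥(LinearMap.ker (LinearMap.id - T g)) := by
    rw [Module.finrank_pos_iff_exists_ne_zero]
    refine ⟨⟨fun _ => 1, ?_⟩, ?_⟩
    · rw [LinearMap.mem_ker]
      funext a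
      show (1 : ℚ) - 1 = 0
      ring
    · intro h0
      have h1 := congrArg (fun v : ↥(LinearMap.ker (LinearMap.id - T g)) =>
        (v : α → ℚ) (Classical.arbitrary α)) h0
      simp at h1
  unfold rk A
  omega

/-- Scott's lemma for three elements with product one. -/
theorem scott (x y z : Perm α) (h : x * y * z = 1) :
    Fintype.card α + Module.finrank ℚ ↥(A x ⊔ A y) ≤ rk x + rk y + rk z +
      Module.finrank ℚ ↥(LinearMap.ker (LinearMap.id - T x) ⊓
        LinearMap.ker (LinearMap.id - T y)) := by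
  let δ : (α → ℚ) →ₗ[ℚ] (↥(A x) × ↥(A y) × ↥(A z)) :=
    (LinearMap.id - T x).rangeRestrict.prod
      ((LinearMap.id - T y).rangeRestrict.prod (LinearMap.id - T z).rangeRestrict)
  let β : (↥(A x) × ↥(A y) × ↥(A z)) →ₗ[ℚ] (α → ℚ) :=
    LinearMap.coprod (A x).subtype
      (LinearMap.coprod (T x ∘ₗ (A y).subtype) (T x ∘ₗ T y ∘ₗ (A z).subtype))
  have hβ : ∀ a b c, β (a, b, c) = (a : α → ℚ) + (T x (b : α → ℚ) + T x (T y (c : α → ℚ))) :=
    fun a b c => rfl
  have hδ : ∀ v, δ v = (⟨v - T x v, sub_T_mem x v⟩, ⟨v - T y v, sub_T_mem y v⟩,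
      ⟨v - T z v, sub_T_mem z v⟩) := fun v => rfl
  have hβδ : LinearMap.range δ ≤ LinearMap.ker β := by
    rintro _ ⟨v, rfl⟩
    rw [LinearMap.mem_ker, hδ, hβ]
    show (v - T x v) + (T x (v - T y v) + T x (T y (v - T z v))) = 0
    have e : T x (T y (T z v)) = v := by
      have e0 : T x (T y (T z v)) = T (x * y * z) v := rfl
      rw [e0, h, T_one]
    rw [map_sub, map_sub, map_sub, e]
    abel
  have h1 := LinearMap.finrank_range_add_finrank_ker β
  have h2 := LinearMap.finrank_range_add_finrank_ker δ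
  rw [Module.finrank_prod, Module.finrank_prod] at h1
  rw [Module.finrank_fintype_fun_eq_card] at h2
  have h3 : Module.finrank ℚ ↥(LinearMap.range δ) ≤ Module.finrank ℚ ↥(LinearMap.ker β) :=
    Submodule.finrank_mono hβδ
  have h4 : Module.finrank ℚ ↥(LinearMap.ker δ) ≤ Module.finrank ℚ
      ↥(LinearMap.ker (LinearMap.id - T x) ⊓ LinearMap.ker (LinearMap.id - T y)) := by
    apply Submodule.finrank_mono
    intro v hv
    rw [LinearMap.mem_ker, hδ] at hv
    have hv1 := congrArg (fun p : ↥(A x) × ↥(A y) × ↥(A z) => (p.1 : α → ℚ)) hv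
    have hv2 := congrArg (fun p : ↥(A x) × ↥(A y) × ↥(A z) => (p.2.1 : α → ℚ)) hv
    exact Submodule.mem_inf.mpr ⟨LinearMap.mem_ker.mpr hv1, LinearMap.mem_ker.mpr hv2⟩
  have h5 : Module.finrank ℚ ↥(A x ⊔ A y) ≤ Module.finrank ℚ ↥(LinearMap.range β) := by
    apply Submodule.finrank_mono
    rw [sup_le_iff]
    constructor
    · intro a ha
      refine ⟨(⟨a, ha⟩, 0, 0), ?_⟩
      rw [hβ]
      simp
    · intro b hb
      refine ⟨(⟨b - T x b, sub_T_mem x b⟩, ⟨b, hb⟩, 0), ?_⟩
      rw [hβ]
      simp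
  unfold rk
  omega

/-- Commutators with elements of the generated group lie in `[V, x] + [V, y]`. -/
theorem sub_T_mem_of_closure (x y : Perm α) {g : Perm α}
    (hg : g ∈ Subgroup.closure ({x, y} : Set (Perm α))) :
    ∀ f : α → ℚ, f - T g f ∈ A x ⊔ A y := by
  induction hg using Subgroup.closure_induction with
  | mem g hg =>
    intro f
    rcases hg with rfl | rfl
    · exact (le_sup_left : A g ≤ A g ⊔ A y) (sub_T_mem g f)
    · exact (le_sup_right : A g ≤ A x ⊔ A g) (sub_T_mem g f)
  | one =>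
    intro f
    rw [T_one, sub_self]
    exact Submodule.zero_mem _
  | mul g h _ _ ihg ihh =>
    intro f
    have e : f - T (g * h) f = (f - T g f) + ((f - T h f) - ((f - T h f) - T g (f - T h f))) := by
      rw [T_mul, map_sub]; abel
    rw [e]
    exact Submodule.add_mem _ (ihg f) (Submodule.sub_mem _ (ihh f) (ihg _))
  | inv g _ ih =>
    intro f
    have e : f - T g⁻¹ f = -(T g⁻¹ f - T g (T g⁻¹ f)) := by
      rw [T_inv_cancel]; abel
    rw [e]
    exact Submodule.neg_mem _ (ih _)

/-- Functions fixed by `x` and `y` are fixed by the generated group. -/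
theorem T_fixed_of_closure (x y : Perm α) {g : Perm α}
    (hg : g ∈ Subgroup.closure ({x, y} : Set (Perm α))) (f : α → ℚ)
    (hf : f ∈ LinearMap.ker (LinearMap.id - T x) ⊓ LinearMap.ker (LinearMap.id - T y)) :
    T g f = f := by
  obtain ⟨hx, hy⟩ := Submodule.mem_inf.mp hf
  have hx' : T x f = f := by
    have : f - T x f = 0 := LinearMap.mem_ker.mp hx
    exact (sub_eq_zero.mp this).symm
  have hy' : T y f = f := by
    have : f - T y f = 0 := LinearMap.mem_ker.mp hy
    exact (sub_eq_zero.mp this).symm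
  induction hg using Subgroup.closure_induction with
  | mem g hg =>
    rcases hg with rfl | rfl
    · exact hx'
    · exact hy'
  | one => exact T_one f
  | mul g h _ _ ihg ihh => rw [T_mul, ihh, ihg]
  | inv g _ ih =>
    calc T g⁻¹ f = T g⁻¹ (T g f) := by rw [ih]
      _ = f := T_inv_cancel' g f

/-- Ree's inequality on an orbit of the group generated by `x` and `y`. -/
theorem ree (x y z : Perm α) (h : x * y * z = 1) (a0 : α) (S : Finset α) (ha0 : a0 ∈ S)
    (hS : ∀ s ∈ S, ∃ g ∈ Subgroup.closure ({x, y} : Set (Perm α)), g a0 = s) :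
    2 * S.card ≤ rk x + rk y + rk z + 2 := by
  have hsc := scott x y z h
  -- the commutator space is large
  have hW : S.card ≤ Module.finrank ℚ ↥(A x ⊔ A y) + 1 := by
    let π : (α → ℚ) →ₗ[ℚ] (↥(S.erase a0) → ℚ) :=
      LinearMap.funLeft ℚ ℚ (Subtype.val : ↥(S.erase a0) → α)
    have htop : (A x ⊔ A y).map π = ⊤ := by
      rw [eq_top_iff, ← (Pi.basisFun ℚ ↥(S.erase a0)).span_eq, Submodule.span_le]
      rintro _ ⟨s, rfl⟩
      rw [Pi.basisFun_apply]
      obtain ⟨hs1, hs2⟩ := Finset.mem_erase.mp s.2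
      obtain ⟨g, hg, hgs⟩ := hS s.1 hs2
      have hw := sub_T_mem_of_closure x y hg (Pi.single a0 1)
      refine ⟨-(Pi.single a0 1 - T g (Pi.single a0 1)), Submodule.neg_mem _ hw, ?_⟩
      funext s'
      show -((Pi.single a0 1 : α → ℚ) s'.1 - (Pi.single a0 1 : α → ℚ) (g.symm s'.1)) =
        (Pi.single s 1 : ↥(S.erase a0) → ℚ) s'
      have hs'1 : s'.1 ≠ a0 := (Finset.mem_erase.mp s'.2).1
      rw [Pi.single_apply, Pi.single_apply, Pi.single_apply, if_neg hs'1]
      by_cases hss : s' = s
      · rw [if_pos hss, if_pos (by rw [hss, ← hgs, Equiv.symm_apply_apply])]; ring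
      · rw [if_neg hss, if_neg (by
          intro hc
          apply hss
          apply Subtype.ext
          calc s'.1 = g (g.symm s'.1) := (Equiv.apply_symm_apply g _).symm
            _ = g a0 := by rw [hc]
            _ = s.1 := hgs)]
        ring
    have h1 : Module.finrank ℚ ↥((A x ⊔ A y).map π) ≤ Module.finrank ℚ ↥(A x ⊔ A y) :=
      Submodule.finrank_map_le _ _
    rw [htop, finrank_top, Module.finrank_fintype_fun_eq_card, Fintype.card_coe,
      Finset.card_erase_of_mem ha0] at h1
    omega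
  -- the fixed space is small
  have hC : Module.finrank ℚ ↥(LinearMap.ker (LinearMap.id - T x) ⊓
      LinearMap.ker (LinearMap.id - T y)) + S.card ≤ Fintype.card α + 1 := by
    let ρ : ↥(LinearMap.ker (LinearMap.id - T x) ⊓ LinearMap.ker (LinearMap.id - T y)) →ₗ[ℚ]
        (↥(insert a0 Sᶜ) → ℚ) :=
      (LinearMap.funLeft ℚ ℚ (Subtype.val : ↥(insert a0 Sᶜ) → α)) ∘ₗ
        (LinearMap.ker (LinearMap.id - T x) ⊓ LinearMap.ker (LinearMap.id - T y)).subtype
    have hinj : Function.Injective ρ := by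
      rw [← LinearMap.ker_eq_bot, eq_bot_iff]
      intro f hf
      rw [LinearMap.mem_ker] at hf
      rw [Submodule.mem_bot]
      apply Subtype.ext
      funext c
      have hval : ∀ c' : ↥(insert a0 Sᶜ), (f : α → ℚ) c'.1 = 0 := fun c' => congrFun hf c'
      show (f : α → ℚ) c = 0
      by_cases hc : c ∈ S
      · obtain ⟨g, hg, hgc⟩ := hS c hc
        have hfix := T_fixed_of_closure x y (Subgroup.inv_mem _ hg) f.1 f.2
        have e1 : T g⁻¹ (f : α → ℚ) a0 = (f : α → ℚ) c := by
          rw [T_apply, ← hgc]; rfl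
        rw [← e1, hfix]
        exact hval ⟨a0, Finset.mem_insert_self _ _⟩
      · exact hval ⟨c, Finset.mem_insert_of_mem (Finset.mem_compl.mpr hc)⟩
    have h1 := LinearMap.finrank_le_finrank_of_injective hinj
    rw [Module.finrank_fintype_fun_eq_card, Fintype.card_coe,
      Finset.card_insert_of_notMem (by rw [Finset.mem_compl, not_not]; exact ha0),
      Finset.card_compl] at h1
    have h2 : S.card ≤ Fintype.card α := Finset.card_le_univ S
    omega
  omega

end Cfsg.Agent.Lib.Helper35.Scott
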