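-- (p,q,r)-generation of M23: explicit generating pairs as words in two generators, and the
-- non-generation by Ree's inequality (Scott's lemma) together with the numbers of transpositions
-- needed for the elements of orders 2, 3, 5, 7.
import Cfsg.Agent.Lib.Helper35.M23MElts
import Cfsg.Agent.Lib.Helper35.M24Aut
import Cfsg.Agent.Lib.Helper35.Scott
import Cfsg.Agent.Lib.Helper35.M23GenData

set_option autoImplicit false

namespace Cfsg.Agent.Lib.Helper35.M23Gen

open Cfsg Cfsg.Spor Cfsg.Agent.Lib.Helper7.GolayBase Cfsg.Agent.Lib.Helper7.GolayPerm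
  Cfsg.Agent.Lib.Helper35.PermTab Cfsg.Agent.Lib.Helper35.M23MData
  Cfsg.Agent.Lib.Helper35.M23MElts Cfsg.Agent.Lib.Helper35.M23Aut
  Cfsg.Agent.Lib.Helper35.M24Aut Cfsg.Agent.Lib.Helper35.Scott
  Cfsg.Agent.Lib.Helper35.M23GenData

/-! ### Words and powers on tables -/

/-- Table of a word (`false` for the first letter, `true` for the second). -/
def wordT : List Bool → List Nat → List Nat → List Nat
  | [], _, _ => idT
  | c :: w, a, b => tmul (if c then b else a) (wordT w a b)

/-- The value of a word. -/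
def wordP : List Bool → Equiv.Perm GolayPt → Equiv.Perm GolayPt → Equiv.Perm GolayPt
  | [], _, _ => 1
  | c :: w, a, b => (if c then b else a) * wordP w a b

theorem tab_wordP (w : List Bool) (a b : Equiv.Perm GolayPt) :
    tab (wordP w a b) = wordT w (tab a) (tab b) := by
  induction w with
  | nil => exact tab_one
  | cons c w ih =>
    cases c
    · show tab (a * wordP w a b) = tmul (tab a) (wordT w (tab a) (tab b))
      rw [tab_mul, ih]
    · show tab (b * wordP w a b) = tmul (tab b) (wordT w (tab a) (tab b))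
      rw [tab_mul, ih]

theorem wordP_mem (w : List Bool) (a b : Equiv.Perm GolayPt) :
    wordP w a b ∈ Subgroup.closure ({a, b} : Set (Equiv.Perm GolayPt)) := by
  induction w with
  | nil => exact Subgroup.one_mem _
  | cons c w ih =>
    cases c
    · exact Subgroup.mul_mem _ (Subgroup.subset_closure (by simp)) ih
    · exact Subgroup.mul_mem _ (Subgroup.subset_closure (by simp)) ih

/-- Power of a table. -/
def tpow (t : List Nat) : ℕ → List Nat
  | 0 => idT
  | k + 1 => tmul t (tpow t k)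

theorem tab_pow (g : Equiv.Perm GolayPt) (k : ℕ) : tab (g ^ k) = tpow (tab g) k := by
  induction k with
  | zero => rw [pow_zero]; exact tab_one
  | succ k ih => rw [pow_succ', tab_mul, ih]; rfl

theorem orderOf_of_tab {g : Equiv.Perm GolayPt} {p : ℕ} (hp : p.Prime)
    (h1 : tpow (tab g) p = idT) (h2 : tab g ≠ idT) : orderOf g = p := by
  have : Fact p.Prime := ⟨hp⟩
  apply orderOf_eq_prime
  · apply tab_injective
    rw [tab_pow, h1, tab_one]
  · intro h
    rw [h, tab_one] at h2
    exact h2 rfl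

/-! ### Transpositions -/

/-- Table of a transposition. -/
def swapT (a b : Nat) : List Nat :=
  (List.range 24).map (fun i => if i = a then b else if i = b then a else i)

theorem tab_swap {a b : Nat} (ha : a < 24) (hb : b < 24) :
    tab (Equiv.swap (pt a) (pt b)) = swapT a b := by
  symm
  apply eq_tab_of_rep
  refine ⟨by simp [swapT], fun p => ?_⟩
  have hp := idx_lt p
  have e1 : (swapT a b).getD (idx p) 0 =
      if idx p = a then b else if idx p = b then a else idx p := by
    simp [swapT, List.getD_eq_getElem?_getD, hp]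
  rw [e1, Equiv.swap_apply_def]
  have ha' : p = pt a ↔ idx p = a :=
    ⟨fun h => by rw [h, idx_pt ha], fun h => by rw [← h, pt_idx]⟩
  have hb' : p = pt b ↔ idx p = b :=
    ⟨fun h => by rw [h, idx_pt hb], fun h => by rw [← h, pt_idx]⟩
  by_cases h1 : idx p = a
  · rw [if_pos h1, if_pos (ha'.mpr h1), idx_pt hb]
  · rw [if_neg h1, if_neg (fun h => h1 (ha'.mp h))]
    by_cases h2 : idx p = b
    · rw [if_pos h2, if_pos (hb'.mpr h2), idx_pt ha]
    · rw [if_neg h2, if_neg (fun h => h2 (hb'.mp h))]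

/-- Greedy factorisation of a table into transpositions. -/
def greedyAux : List Nat → List Nat → List (Nat × Nat)
  | [], _ => []
  | i :: is, t =>
    if t.getD i 0 = i then greedyAux is t
    else (i, t.getD i 0) :: greedyAux is (tmul (swapT i (t.getD i 0)) t)

/-- Table of a product of transpositions. -/
def prodT : List (Nat × Nat) → List Nat
  | [] => idT
  | ab :: l => tmul (swapT ab.1 ab.2) (prodT l)

/-- The table is a product of at most `k` transpositions (by the greedy factorisation). -/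
def swapOK (t : List Nat) (k : Nat) : Bool :=
  (prodT (greedyAux (List.range 24) t) == t) &&
    decide ((greedyAux (List.range 24) t).length ≤ k) &&
    (greedyAux (List.range 24) t).all (fun ab => decide (ab.1 < 24) && decide (ab.2 < 24))

theorem swapLen_of_prodT (l : List (Nat × Nat)) (hl : ∀ ab ∈ l, ab.1 < 24 ∧ ab.2 < 24)
    (g : Equiv.Perm GolayPt) (hg : tab g = prodT l) : SwapLen l.length g := by
  refine ⟨l.map (fun ab => Equiv.swap (pt ab.1) (pt ab.2)), ?_, ?_, by rw [List.length_map]⟩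
  · intro s hs
    obtain ⟨ab, -, rfl⟩ := List.mem_map.mp hs
    exact ⟨_, _, rfl⟩
  · apply tab_injective
    rw [hg]
    clear hg
    induction l with
    | nil => exact tab_one
    | cons ab l ih =>
      rw [List.map_cons, List.prod_cons, tab_mul,
        tab_swap (hl ab (List.mem_cons_self)).1 (hl ab (List.mem_cons_self)).2,
        ih (fun ab' h => hl ab' (List.mem_cons_of_mem _ h))]
      rfl

theorem swapLen_of_swapOK {t : List Nat} {k : Nat} (h : swapOK t k = true)
    (g : Equiv.Perm GolayPt) (hg : tab g = t) : SwapLen k g := by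
  simp only [swapOK, Bool.and_eq_true, beq_iff_eq, decide_eq_true_eq, List.all_eq_true] at h
  obtain ⟨⟨h1, h2⟩, h3⟩ := h
  obtain ⟨l, hl, hp, hlen⟩ := swapLen_of_prodT (greedyAux (List.range 24) t) h3 g
    (by rw [hg, h1])
  exact ⟨l, hl, hp, le_trans hlen h2⟩

/-! ### Conjugation into a subgroup of index prime to `p` -/

theorem exists_conj_mem {G : Type*} [Group G] (M U : Subgroup G) [Finite M] (hU : U ≤ M)
    (p : ℕ) [Fact p.Prime] (m : ℕ) (hcard : Nat.card M = Nat.card U * m) (hm : ¬ p ∣ m)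
    (x : G) (hx : x ∈ M) (hxp : x ^ p = 1) : ∃ u ∈ M, u⁻¹ * x * u ∈ U := by
  have hfin : Finite U :=
    Finite.of_injective (Subgroup.inclusion hU) (Subgroup.inclusion_injective hU)
  have hidx : (U.subgroupOf M).index = m := by
    have h1 : Nat.card (U.subgroupOf M) * (U.subgroupOf M).index = Nat.card M :=
      Subgroup.card_mul_index _
    have h2 : Nat.card (U.subgroupOf M) = Nat.card U :=
      Nat.card_congr (Subgroup.subgroupOfEquivOfLe hU).toEquiv
    rw [h2, hcard] at h1
    exact Nat.eq_of_mul_eq_mul_left Nat.card_pos h1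
  have hZ : IsPGroup p (Subgroup.zpowers (⟨x, hx⟩ : M)) := by
    intro g
    refine ⟨1, ?_⟩
    obtain ⟨i, hi⟩ := Subgroup.mem_zpowers_iff.mp g.2
    apply Subtype.ext
    apply Subtype.ext
    show ((g : M) : G) ^ p ^ 1 = 1
    rw [← hi, pow_one]
    show (x ^ i) ^ p = 1
    rw [← zpow_natCast, ← zpow_mul, mul_comm, zpow_mul, zpow_natCast, hxp, one_zpow]
  have hmod := hZ.card_modEq_card_fixedPoints (M ⧸ U.subgroupOf M)
  have hne : Nat.card (MulAction.fixedPoints (Subgroup.zpowers (⟨x, hx⟩ : M))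
      (M ⧸ U.subgroupOf M)) ≠ 0 := by
    intro h0
    rw [h0, ← Subgroup.index_eq_card, hidx] at hmod
    exact hm (Nat.modEq_zero_iff_dvd.mp hmod)
  obtain ⟨⟨q, hq⟩⟩ := (Nat.card_pos_iff.mp (Nat.pos_of_ne_zero hne)).1
  obtain ⟨u, rfl⟩ := QuotientGroup.mk_surjective q
  have h1 := hq ⟨⟨x, hx⟩, Subgroup.mem_zpowers _⟩
  have h2 : ((⟨x, hx⟩ * u : M) : M ⧸ U.subgroupOf M) = (u : M ⧸ U.subgroupOf M) := h1
  rw [QuotientGroup.eq] at h2
  have h3 : ((⟨x, hx⟩ * u)⁻¹ * u : M) ∈ U.subgroupOf M := h2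
  have h4 := Subgroup.inv_mem _ h3
  rw [Subgroup.mem_subgroupOf] at h4
  refine ⟨u.1, u.2, ?_⟩
  have e : (((⟨x, hx⟩ * u)⁻¹ * u : M)⁻¹ : M).1 = u.1⁻¹ * x * u.1 := by
    show ((x * u.1)⁻¹ * u.1)⁻¹ = u.1⁻¹ * x * u.1
    group
  rw [← e]
  exact h4

/-! ### The local subgroups -/

/-- Generators of a Sylow 2-subgroup. -/
def S2 : Set (Equiv.Perm GolayPt) := {e1, e2, e3, e4, s1, s2}

theorem S2_gens : ∀ g ∈ S2, tab g ∈ [e1T, e2T, e3T, e4T, s1T, s2T] := by
  rintro g (rfl | rfl | rfl | rfl | rfl | rfl)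
  · rw [e1_spec.2]; simp
  · rw [e2_spec.2]; simp
  · rw [e3_spec.2]; simp
  · rw [e4_spec.2]; simp
  · rw [s1_spec.2]; simp
  · rw [s2_spec.2]; simp

theorem S2_gens' : ∀ t ∈ [e1T, e2T, e3T, e4T, s1T, s2T], ∃ g ∈ S2, tab g = t := by
  intro t ht
  simp only [List.mem_cons, List.not_mem_nil, or_false] at ht
  rcases ht with rfl | rfl | rfl | rfl | rfl | rfl
  · exact ⟨e1, by simp [S2], e1_spec.2⟩
  · exact ⟨e2, by simp [S2], e2_spec.2⟩
  · exact ⟨e3, by simp [S2], e3_spec.2⟩
  · exact ⟨e4, by simp [S2], e4_spec.2⟩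
  · exact ⟨s1, by simp [S2], s1_spec.2⟩
  · exact ⟨s2, by simp [S2], s2_spec.2⟩

theorem S2_le : Subgroup.closure S2 ≤ M23 := by
  rw [Subgroup.closure_le]
  rintro g (rfl | rfl | rfl | rfl | rfl | rfl)
  · exact e1_spec.1
  · exact e2_spec.1
  · exact e3_spec.1
  · exact e4_spec.1
  · exact s1_spec.1
  · exact s2_spec.1

theorem S2_inv : invB [e1T, e2T, e3T, e4T, s1T, s2T] = true := by decide +kernel
theorem S2_id : idT ∈ P128L := by decide +kernel
theorem S2_closed : closedB [e1T, e2T, e3T, e4T, s1T, s2T] P128L = true := by decide +kernel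
theorem S2_gen : genB [e1T, e2T, e3T, e4T, s1T, s2T] P128L = true := by decide +kernel
theorem S2_nodup : P128L.Nodup := by decide +kernel

/-- Generators of a Sylow 3-subgroup. -/
def S3 : Set (Equiv.Perm GolayPt) := {c, c⁻¹, b, b⁻¹}

theorem S3_gens : ∀ g ∈ S3, tab g ∈ [cT, tmul cT cT, bT, tmul bT bT] := by
  rintro g (rfl | rfl | rfl | rfl)
  · rw [c_spec.2]; simp
  · rw [cinv_tab]; simp
  · rw [b_spec.2]; simp
  · rw [binv_tab]; simp

theorem S3_gens' : ∀ t ∈ [cT, tmul cT cT, bT, tmul bT bT], ∃ g ∈ S3, tab g = t := by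
  intro t ht
  simp only [List.mem_cons, List.not_mem_nil, or_false] at ht
  rcases ht with rfl | rfl | rfl | rfl
  · exact ⟨c, by simp [S3], c_spec.2⟩
  · exact ⟨c⁻¹, by simp [S3], cinv_tab⟩
  · exact ⟨b, by simp [S3], b_spec.2⟩
  · exact ⟨b⁻¹, by simp [S3], binv_tab⟩

theorem S3_le : Subgroup.closure S3 ≤ M23 := by
  rw [Subgroup.closure_le]
  rintro g (rfl | rfl | rfl | rfl)
  · exact c_spec.1
  · exact M23.inv_mem c_spec.1
  · exact b_spec.1
  · exact M23.inv_mem b_spec.1

theorem S3_inv : invB [cT, tmul cT cT, bT, tmul bT bT] = true := by decide +kernel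
theorem S3_id : idT ∈ P9L := by decide +kernel
theorem S3_closed : closedB [cT, tmul cT cT, bT, tmul bT bT] P9L = true := by decide +kernel
theorem S3_gen : genB [cT, tmul cT cT, bT, tmul bT bT] P9L = true := by decide +kernel
theorem S3_nodup : P9L.Nodup := by decide +kernel

/-- An element of order 5. -/
noncomputable def v5 : Equiv.Perm GolayPt := wordP w5 y t

theorem v5_tab : tab v5 = v5T := by
  unfold v5
  rw [tab_wordP, y_spec.2, t_spec.2]; decide +kernel

theorem v5_mem : v5 ∈ M23 := by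
  have h := wordP_mem w5 y t
  have hle : Subgroup.closure ({y, t} : Set (Equiv.Perm GolayPt)) ≤ M23 := by
    rw [Subgroup.closure_le]
    rintro g (rfl | rfl)
    · exact y_spec.1
    · exact t_spec.1
  exact hle h

/-- Generators of a subgroup of order 5. -/
noncomputable def S5 : Set (Equiv.Perm GolayPt) := {v5, v5 ^ 4}

theorem S5_gens : ∀ g ∈ S5, tab g ∈ [v5T, tpow v5T 4] := by
  rintro g (rfl | rfl)
  · rw [v5_tab]; simp
  · rw [tab_pow, v5_tab]; simp

theorem S5_gens' : ∀ t ∈ [v5T, tpow v5T 4], ∃ g ∈ S5, tab g = t := by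
  intro t ht
  simp only [List.mem_cons, List.not_mem_nil, or_false] at ht
  rcases ht with rfl | rfl
  · exact ⟨v5, by simp [S5], v5_tab⟩
  · exact ⟨v5 ^ 4, by simp [S5], by rw [tab_pow, v5_tab]⟩

theorem S5_le : Subgroup.closure S5 ≤ M23 := by
  rw [Subgroup.closure_le]
  rintro g (rfl | rfl)
  · exact v5_mem
  · exact M23.pow_mem v5_mem 4

theorem S5_inv : invB [v5T, tpow v5T 4] = true := by decide +kernel
theorem S5_id : idT ∈ U5L := by decide +kernel
theorem S5_closed : closedB [v5T, tpow v5T 4] U5L = true := by decide +kernel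
theorem S5_gen : genB [v5T, tpow v5T 4] U5L = true := by decide +kernel
theorem S5_nodup : U5L.Nodup := by decide +kernel

/-- Generators of a subgroup of order 7. -/
noncomputable def S7 : Set (Equiv.Perm GolayPt) := {y, y ^ 6}

theorem S7_gens : ∀ g ∈ S7, tab g ∈ [yT, tpow yT 6] := by
  rintro g (rfl | rfl)
  · rw [y_spec.2]; simp
  · rw [tab_pow, y_spec.2]; simp

theorem S7_gens' : ∀ t ∈ [yT, tpow yT 6], ∃ g ∈ S7, tab g = t := by
  intro t ht
  simp only [List.mem_cons, List.not_mem_nil, or_false] at ht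
  rcases ht with rfl | rfl
  · exact ⟨y, by simp [S7], y_spec.2⟩
  · exact ⟨y ^ 6, by simp [S7], by rw [tab_pow, y_spec.2]⟩

theorem S7_le : Subgroup.closure S7 ≤ M23 := by
  rw [Subgroup.closure_le]
  rintro g (rfl | rfl)
  · exact y_spec.1
  · exact M23.pow_mem y_spec.1 6

theorem S7_inv : invB [yT, tpow yT 6] = true := by decide +kernel
theorem S7_id : idT ∈ U7L := by decide +kernel
theorem S7_closed : closedB [yT, tpow yT 6] U7L = true := by decide +kernel
theorem S7_gen : genB [yT, tpow yT 6] U7L = true := by decide +kernel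
theorem S7_nodup : U7L.Nodup := by decide +kernel

/-! ### Numbers of transpositions -/

theorem swapLen_of_local (p k m : ℕ) [Fact p.Prime] (S : Set (Equiv.Perm GolayPt))
    (gens L : List (List Nat)) (hS : ∀ g ∈ S, tab g ∈ gens)
    (hS' : ∀ t ∈ gens, ∃ g ∈ S, tab g = t) (hinv : invB gens = true) (hid : idT ∈ L)
    (hc : closedB gens L = true) (hg : genB gens L = true) (hnd : L.Nodup)
    (hle : Subgroup.closure S ≤ M23) (hcard : 10200960 = L.length * m) (hm : ¬ p ∣ m)
    (hL : ∀ t ∈ L, tpow t p = idT → t = idT ∨ swapOK t k = true)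
    (g : Equiv.Perm GolayPt) (hgM : g ∈ M23) (ho : orderOf g = p) : SwapLen k g := by
  have hcardU := card_closure S gens L hS hS' hinv hid hc hg hnd
  have hgp : g ^ p = 1 := by rw [← ho]; exact pow_orderOf_eq_one g
  have hfin : Finite M23 := inferInstance
  obtain ⟨u, hu, hmem⟩ := exists_conj_mem M23 (Subgroup.closure S) hle p m
    (by rw [card_M23, hcardU]; exact hcard) hm g hgM hgp
  have htab := (mem_closure_iff S gens L hS hS' hinv hid hc hg _).mp hmem
  have hpow : tpow (tab (u⁻¹ * g * u)) p = idT := by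
    rw [← tab_pow, ← tab_one]
    congr 1
    have e : u⁻¹ * g * u = u⁻¹ * g * u⁻¹⁻¹ := by rw [inv_inv]
    rw [e, conj_pow, hgp, mul_one, mul_inv_cancel]
  rcases hL _ htab hpow with h1 | h2
  · exfalso
    have h3 : u⁻¹ * g * u = 1 := tab_injective (by rw [h1, tab_one])
    have h4 : g = 1 := by
      calc g = u * (u⁻¹ * g * u) * u⁻¹ := by group
        _ = 1 := by rw [h3, mul_one, mul_inv_cancel]
    rw [h4, orderOf_one] at ho
    exact (Fact.out : p.Prime).one_lt.ne ho
  · have h3 := (swapLen_of_swapOK h2 _ rfl).conj u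
    have e : u * (u⁻¹ * g * u) * u⁻¹ = g := by group
    rwa [e] at h3

theorem rk_two (g : Equiv.Perm GolayPt) (hg : g ∈ M23) (ho : orderOf g = 2) : rk g ≤ 8 := by
  have : Fact (Nat.Prime 2) := ⟨Nat.prime_two⟩
  exact rk_le_of_swapLen (swapLen_of_local 2 8 79695 S2 _ P128L S2_gens S2_gens' S2_inv S2_id
    S2_closed S2_gen S2_nodup S2_le (by decide +kernel) (by decide) (by decide +kernel) g hg ho)

theorem rk_three (g : Equiv.Perm GolayPt) (hg : g ∈ M23) (ho : orderOf g = 3) : rk g ≤ 12 := by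
  have : Fact (Nat.Prime 3) := ⟨Nat.prime_three⟩
  exact rk_le_of_swapLen (swapLen_of_local 3 12 1133440 S3 _ P9L S3_gens S3_gens' S3_inv S3_id
    S3_closed S3_gen S3_nodup S3_le (by decide +kernel) (by decide) (by decide +kernel) g hg ho)

theorem rk_five (g : Equiv.Perm GolayPt) (hg : g ∈ M23) (ho : orderOf g = 5) : rk g ≤ 16 := by
  have : Fact (Nat.Prime 5) := ⟨Nat.prime_five⟩
  exact rk_le_of_swapLen (swapLen_of_local 5 16 2040192 S5 _ U5L S5_gens S5_gens' S5_inv S5_id
    S5_closed S5_gen S5_nodup S5_le (by decide +kernel) (by decide) (by decide +kernel) g hg ho)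

theorem rk_seven (g : Equiv.Perm GolayPt) (hg : g ∈ M23) (ho : orderOf g = 7) : rk g ≤ 18 := by
  have : Fact (Nat.Prime 7) := ⟨by norm_num⟩
  exact rk_le_of_swapLen (swapLen_of_local 7 18 1457280 S7 _ U7L S7_gens S7_gens' S7_inv S7_id
    S7_closed S7_gen S7_nodup S7_le (by decide +kernel) (by decide) (by decide +kernel) g hg ho)

/-! ### Generation by `y` and `t` -/

/-- The group generated by `y` and `t`. -/
noncomputable def K : Subgroup (Equiv.Perm GolayPt) := Subgroup.closure {y, t}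

theorem K_le : K ≤ M23 := by
  unfold K
  rw [Subgroup.closure_le]
  rintro g (rfl | rfl)
  · exact y_spec.1
  · exact t_spec.1

theorem mem_K {w : List Bool} {g : Equiv.Perm GolayPt} {gT : List Nat} (hg : tab g = gT)
    (h : wordT w yT tT = gT) : g ∈ K := by
  have e : g = wordP w y t := by
    apply tab_injective
    rw [tab_wordP, y_spec.2, t_spec.2, h, hg]
  rw [e]; exact wordP_mem _ _ _

theorem gen_yt : K = M23 := by
  have hfin : Finite M23 := inferInstance
  apply Subgroup.eq_of_le_of_card_ge K_le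
  rw [card_M23]
  have h128 : 128 ∣ Nat.card K := by
    have hle : Subgroup.closure S2 ≤ K := by
      rw [Subgroup.closure_le]
      rintro g (rfl | rfl | rfl | rfl | rfl | rfl)
      · exact mem_K (w := w_e1) e1_spec.2 (by decide +kernel)
      · exact mem_K (w := w_e2) e2_spec.2 (by decide +kernel)
      · exact mem_K (w := w_e3) e3_spec.2 (by decide +kernel)
      · exact mem_K (w := w_e4) e4_spec.2 (by decide +kernel)
      · exact mem_K (w := w_s1) s1_spec.2 (by decide +kernel)
      · exact mem_K (w := w_s2) s2_spec.2 (by decide +kernel)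
    have h := Subgroup.card_dvd_of_le hle
    rw [card_closure S2 _ P128L S2_gens S2_gens' S2_inv S2_id S2_closed S2_gen S2_nodup] at h
    have hlen : P128L.length = 128 := by decide +kernel
    rwa [hlen] at h
  have h9 : 9 ∣ Nat.card K := by
    have hc : c ∈ K := mem_K (w := w_c) c_spec.2 (by decide +kernel)
    have hb : b ∈ K := mem_K (w := w_b) b_spec.2 (by decide +kernel)
    have hle : Subgroup.closure S3 ≤ K := by
      rw [Subgroup.closure_le]
      rintro g (rfl | rfl | rfl | rfl)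
      · exact hc
      · exact K.inv_mem hc
      · exact hb
      · exact K.inv_mem hb
    have h := Subgroup.card_dvd_of_le hle
    rw [card_closure S3 _ P9L S3_gens S3_gens' S3_inv S3_id S3_closed S3_gen S3_nodup] at h
    have hlen : P9L.length = 9 := by decide +kernel
    rwa [hlen] at h
  have hy : y ∈ K := Subgroup.subset_closure (by simp)
  have ht : t ∈ K := Subgroup.subset_closure (by simp)
  have h7 : 7 ∣ Nat.card K := by
    have h := K.orderOf_dvd_natCard hy
    rwa [orderOf_of_tab (p := 7) (by norm_num) (by rw [y_spec.2]; decide +kernel)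
      (by rw [y_spec.2]; decide +kernel)] at h
  have h23 : 23 ∣ Nat.card K := by
    have h := K.orderOf_dvd_natCard (K.mul_mem hy ht)
    rwa [orderOf_of_tab (p := 23) (by norm_num)
      (by rw [tab_mul, y_spec.2, t_spec.2]; decide +kernel)
      (by rw [tab_mul, y_spec.2, t_spec.2]; decide +kernel)] at h
  have h5 : 5 ∣ Nat.card K := by
    have h := K.orderOf_dvd_natCard (wordP_mem w5 y t)
    have e : orderOf (wordP w5 y t) = 5 :=
      orderOf_of_tab (p := 5) (by norm_num) (by rw [show wordP w5 y t = v5 from rfl, v5_tab]; decide +kernel)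
        (by rw [show wordP w5 y t = v5 from rfl, v5_tab]; decide +kernel)
    rwa [e] at h
  have h11 : 11 ∣ Nat.card K := by
    have h := K.orderOf_dvd_natCard (wordP_mem w11 y t)
    have e : orderOf (wordP w11 y t) = 11 :=
      orderOf_of_tab (p := 11) (by norm_num)
        (by rw [tab_wordP, y_spec.2, t_spec.2]; decide +kernel)
        (by rw [tab_wordP, y_spec.2, t_spec.2]; decide +kernel)
    rwa [e] at h
  have d1 : 128 * 9 ∣ Nat.card K := Nat.Coprime.mul_dvd_of_dvd_of_dvd (by decide) h128 h9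
  have d2 : 128 * 9 * 5 ∣ Nat.card K := Nat.Coprime.mul_dvd_of_dvd_of_dvd (by decide) d1 h5
  have d3 : 128 * 9 * 5 * 7 ∣ Nat.card K := Nat.Coprime.mul_dvd_of_dvd_of_dvd (by decide) d2 h7
  have d4 : 128 * 9 * 5 * 7 * 11 ∣ Nat.card K :=
    Nat.Coprime.mul_dvd_of_dvd_of_dvd (by decide) d3 h11
  have d5 : 128 * 9 * 5 * 7 * 11 * 23 ∣ Nat.card K :=
    Nat.Coprime.mul_dvd_of_dvd_of_dvd (by decide) d4 h23
  have hfinK : Finite K := inferInstance
  exact Nat.le_of_dvd Nat.card_pos d5

/-! ### Non-generation -/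

theorem closure_coe {x y' : ↥M23} (h : Subgroup.closure ({x, y'} : Set ↥M23) = ⊤) :
    Subgroup.closure ({(x : Equiv.Perm GolayPt), (y' : Equiv.Perm GolayPt)} :
      Set (Equiv.Perm GolayPt)) = M23 := by
  have h1 := MonoidHom.map_closure M23.subtype ({x, y'} : Set ↥M23)
  rw [h, ← MonoidHom.range_eq_map, Subgroup.range_subtype, Set.image_pair] at h1
  exact h1.symm

theorem coe_closure {X Y : Equiv.Perm GolayPt} (hX : X ∈ M23) (hY : Y ∈ M23)
    (h : Subgroup.closure ({X, Y} : Set (Equiv.Perm GolayPt)) = M23) :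
    Subgroup.closure ({⟨X, hX⟩, ⟨Y, hY⟩} : Set ↥M23) = ⊤ := by
  apply Subgroup.map_injective M23.subtype_injective
  rw [MonoidHom.map_closure, Set.image_pair, ← MonoidHom.range_eq_map, Subgroup.range_subtype]
  exact h

theorem ree_M23 (x y' z : ↥M23) (h1 : x * y' * z = 1)
    (hgen : Subgroup.closure ({x, y'} : Set ↥M23) = ⊤) :
    44 ≤ rk (x : Equiv.Perm GolayPt) + rk (y' : Equiv.Perm GolayPt) +
      rk (z : Equiv.Perm GolayPt) := by
  have hcl := closure_coe hgen
  have h1' : (x : Equiv.Perm GolayPt) * (y' : Equiv.Perm GolayPt) * (z : Equiv.Perm GolayPt) = 1 :=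
    congrArg Subtype.val h1
  have hS : ∀ s ∈ Finset.univ.erase (none : GolayPt),
      ∃ g ∈ Subgroup.closure ({(x : Equiv.Perm GolayPt), (y' : Equiv.Perm GolayPt)} :
        Set (Equiv.Perm GolayPt)), g (some 0) = s := by
    intro s hs
    have hs' : s ≠ none := (Finset.mem_erase.mp hs).1
    obtain ⟨g, hg, hg1, hg2⟩ := exists_map_pair (a := (none : GolayPt)) (b := some 0)
      (a' := none) (b' := s) (by simp) (Ne.symm hs')
    exact ⟨g, by rw [hcl]; exact mem_M23.mpr ⟨hg, hg1⟩, hg2⟩
  have h := ree (x : Equiv.Perm GolayPt) (y' : Equiv.Perm GolayPt) (z : Equiv.Perm GolayPt) h1'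
    (some 0) (Finset.univ.erase (none : GolayPt)) (by simp) hS
  have hc : (Finset.univ.erase (none : GolayPt)).card = 23 := by
    rw [Finset.card_erase_of_mem (Finset.mem_univ _), Finset.card_univ,
      Cfsg.Agent.Lib.Helper35.M24Fix.card_golayPt]
  omega

theorem neg (p q r : ℕ) (hr : r.Prime) (hqr : q ≤ r) (x y' z : ↥M23) (hx : orderOf x = p)
    (hy : orderOf y' = q) (hz : orderOf z = r) (h1 : x * y' * z = 1)
    (hgen : Subgroup.closure ({x, y'} : Set ↥M23) = ⊤)
    (hbad : (p = 2 ∧ q = 3) ∨ (p = 2 ∧ q = 5 ∧ r = 5) ∨ (p = 2 ∧ q = 5 ∧ r = 7) ∨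
      (p = 3 ∧ q = 3 ∧ r ≤ 7)) : False := by
  have hree := ree_M23 x y' z h1 hgen
  have ox : orderOf (x : Equiv.Perm GolayPt) = p := by rw [Subgroup.orderOf_coe]; exact hx
  have oy : orderOf (y' : Equiv.Perm GolayPt) = q := by rw [Subgroup.orderOf_coe]; exact hy
  have oz : orderOf (z : Equiv.Perm GolayPt) = r := by rw [Subgroup.orderOf_coe]; exact hz
  have hne : Nonempty GolayPt := ⟨none⟩
  have hz23 := rk_add_one_le (z : Equiv.Perm GolayPt)
  rw [Cfsg.Agent.Lib.Helper35.M24Fix.card_golayPt] at hz23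
  rcases hbad with ⟨rfl, rfl⟩ | ⟨rfl, rfl, rfl⟩ | ⟨rfl, rfl, rfl⟩ | ⟨rfl, rfl, hr7⟩
  · have a1 := rk_two _ x.2 ox
    have a2 := rk_three _ y'.2 oy
    omega
  · have a1 := rk_two _ x.2 ox
    have a2 := rk_five _ y'.2 oy
    have a3 := rk_five _ z.2 oz
    omega
  · have a1 := rk_two _ x.2 ox
    have a2 := rk_five _ y'.2 oy
    have a3 := rk_seven _ z.2 oz
    omega
  · have a1 := rk_three _ x.2 ox
    have a2 := rk_three _ y'.2 oy
    interval_cases r
    · have a3 := rk_three _ z.2 oz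
      omega
    · exact absurd hr (by norm_num)
    · have a3 := rk_five _ z.2 oz
      omega
    · exact absurd hr (by norm_num)
    · have a3 := rk_seven _ z.2 oz
      omega

/-! ### Generation -/

/-- Boolean check of a generating triple. -/
def posB (d : Nat × Nat × Nat × List Bool × List Bool × List Bool × List Bool) : Bool :=
  (wordT d.2.2.2.2.2.1 (wordT d.2.2.2.1 yT tT) (wordT d.2.2.2.2.1 yT tT) == yT) &&
  (wordT d.2.2.2.2.2.2 (wordT d.2.2.2.1 yT tT) (wordT d.2.2.2.2.1 yT tT) == tT) &&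
  (tpow (wordT d.2.2.2.1 yT tT) d.1 == idT) && !(wordT d.2.2.2.1 yT tT == idT) &&
  (tpow (wordT d.2.2.2.2.1 yT tT) d.2.1 == idT) && !(wordT d.2.2.2.2.1 yT tT == idT) &&
  (tpow (tmul (wordT d.2.2.2.1 yT tT) (wordT d.2.2.2.2.1 yT tT)) d.2.2.1 == idT) &&
  !(tmul (wordT d.2.2.2.1 yT tT) (wordT d.2.2.2.2.1 yT tT) == idT)

theorem pos_sound (d : Nat × Nat × Nat × List Bool × List Bool × List Bool × List Bool)
    (h : posB d = true) (hp : d.1.Prime) (hq : d.2.1.Prime) (hr : d.2.2.1.Prime) :
    ∃ x y' z : ↥M23, orderOf x = d.1 ∧ orderOf y' = d.2.1 ∧ orderOf z = d.2.2.1 ∧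
      x * y' * z = 1 ∧ Subgroup.closure ({x, y'} : Set ↥M23) = ⊤ := by
  obtain ⟨p, q, r, wx, wy, ua, ub⟩ := d
  simp only [posB, Bool.and_eq_true, beq_iff_eq, Bool.not_eq_true', beq_eq_false_iff_ne,
    ne_eq] at h
  obtain ⟨⟨⟨⟨⟨⟨⟨hA, hB⟩, hxp⟩, hx1⟩, hyq⟩, hy1⟩, hzr⟩, hz1⟩ := h
  have hX : wordP wx y t ∈ M23 := K_le (wordP_mem wx y t)
  have hY : wordP wy y t ∈ M23 := K_le (wordP_mem wy y t)
  have tX : tab (wordP wx y t) = wordT wx yT tT := by rw [tab_wordP, y_spec.2, t_spec.2]
  have tY : tab (wordP wy y t) = wordT wy yT tT := by rw [tab_wordP, y_spec.2, t_spec.2]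
  have oX : orderOf (wordP wx y t) = p :=
    orderOf_of_tab hp (by rw [tX]; exact hxp) (by rw [tX]; exact hx1)
  have oY : orderOf (wordP wy y t) = q :=
    orderOf_of_tab hq (by rw [tY]; exact hyq) (by rw [tY]; exact hy1)
  have oXY : orderOf (wordP wx y t * wordP wy y t) = r :=
    orderOf_of_tab hr (by rw [tab_mul, tX, tY]; exact hzr) (by rw [tab_mul, tX, tY]; exact hz1)
  have hgen : Subgroup.closure ({wordP wx y t, wordP wy y t} : Set (Equiv.Perm GolayPt)) =
      M23 := by
    apply le_antisymm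
    · rw [Subgroup.closure_le]
      rintro g (rfl | rfl)
      · exact hX
      · exact hY
    · rw [← gen_yt]
      unfold K
      rw [Subgroup.closure_le]
      rintro g (rfl | rfl)
      · have e : y = wordP ua (wordP wx y t) (wordP wy y t) := by
          apply tab_injective
          rw [tab_wordP, tX, tY, hA, y_spec.2]
        have hmem := wordP_mem ua (wordP wx y t) (wordP wy y t)
        rw [← e] at hmem
        exact hmem
      · have e : t = wordP ub (wordP wx y t) (wordP wy y t) := by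
          apply tab_injective
          rw [tab_wordP, tX, tY, hB, t_spec.2]
        have hmem := wordP_mem ub (wordP wx y t) (wordP wy y t)
        rw [← e] at hmem
        exact hmem
  refine ⟨⟨wordP wx y t, hX⟩, ⟨wordP wy y t, hY⟩,
    (⟨wordP wx y t, hX⟩ * ⟨wordP wy y t, hY⟩)⁻¹, ?_, ?_, ?_, mul_inv_cancel _,
    coe_closure hX hY hgen⟩
  · rw [Subgroup.orderOf_mk]; exact oX
  · rw [Subgroup.orderOf_mk]; exact oY
  · rw [orderOf_inv, ← Subgroup.orderOf_coe]; exact oXY

theorem posData_ok : ∀ d ∈ posData, posB d = true := by decide +kernel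

theorem pos_lookup : ∀ p ∈ [2, 3, 5, 7, 11, 23], ∀ q ∈ [2, 3, 5, 7, 11, 23],
    ∀ r ∈ [2, 3, 5, 7, 11, 23], p ≤ q → q ≤ r → ¬ (p = 2 ∧ q = 2) →
    ¬ ((p = 2 ∧ q = 3) ∨ (p = 2 ∧ q = 5 ∧ r = 5) ∨ (p = 2 ∧ q = 5 ∧ r = 7) ∨
      (p = 3 ∧ q = 3 ∧ r ≤ 7)) →
    ∃ d ∈ posData, d.1 = p ∧ d.2.1 = q ∧ d.2.2.1 = r := by decide +kernel

theorem prime_mem (n : ℕ) (hn : n.Prime) (hd : n ∣ 10200960) : n ∈ [2, 3, 5, 7, 11, 23] := by
  have e : 10200960 = 2 ^ 7 * 3 ^ 2 * 5 * 7 * 11 * 23 := by norm_num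
  rw [e] at hd
  simp only [List.mem_cons, List.not_mem_nil, or_false]
  rcases (Nat.Prime.dvd_mul hn).mp hd with h | h
  · rcases (Nat.Prime.dvd_mul hn).mp h with h | h
    · rcases (Nat.Prime.dvd_mul hn).mp h with h | h
      · rcases (Nat.Prime.dvd_mul hn).mp h with h | h
        · rcases (Nat.Prime.dvd_mul hn).mp h with h | h
          · left
            exact (Nat.prime_dvd_prime_iff_eq hn Nat.prime_two).mp (hn.dvd_of_dvd_pow h)
          · right; left
            exact (Nat.prime_dvd_prime_iff_eq hn Nat.prime_three).mp (hn.dvd_of_dvd_pow h)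
        · right; right; left
          exact (Nat.prime_dvd_prime_iff_eq hn Nat.prime_five).mp h
      · right; right; right; left
        exact (Nat.prime_dvd_prime_iff_eq hn (by norm_num)).mp h
    · right; right; right; right; left
      exact (Nat.prime_dvd_prime_iff_eq hn (by norm_num)).mp h
  · right; right; right; right; right
    exact (Nat.prime_dvd_prime_iff_eq hn (by norm_num)).mp h

end Cfsg.Agent.Lib.Helper35.M23Gen
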